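import Cfsg.Agent.Even.AvgSc

/-!
# A strongly closed central subgroup of odd exponent `p`: the character theory
-/

set_option autoImplicit false
set_option linter.unusedSectionVars false

open scoped ComplexConjugate Pointwise commutatorElement Classical
open Cfsg CL.Char CL.Blk CL.Even CL.Grp CL.Loc Subgroup Finset

namespace CL.Avg

universe u

variable {G : Type u} [Group G] [Fintype G] {p : ℕ} [hp : Fact p.Prime] {A P : Subgroup G} {M : Ideal AlgInt}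

theorem xs_eq_ite {L Q : Subgroup G} (h : L ≤ Q) (χ : G → ℂ) :
    xs L χ = ∑ c ∈ (univ : Finset Q).erase 1, if (c : G) ∈ L then (χ c).re else 0 := by
  rw [xs, ← sum_filter]
  refine sum_bij (fun c _ => inclusion h c) (fun c hc => ?_) (fun a _ b _ e => inclusion_injective h e)
    (fun c hc => ?_) fun c _ => rfl
  · exact mem_filter.2 ⟨mem_erase.2 ⟨fun e => (mem_erase.1 hc).1 (Subtype.ext (congrArg Subtype.val e :)),
      mem_univ _⟩, c.2⟩
  · exact ⟨⟨c, (mem_filter.1 hc).2⟩, mem_erase.2 ⟨fun e => (mem_erase.1 (mem_filter.1 hc).1).1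
      (Subtype.ext (congrArg Subtype.val e :)), mem_univ _⟩, rfl⟩

theorem zpowers_eq_p {a b : G} (ha : a ^ p = 1) (ha1 : a ≠ 1) (h1 : b ≠ 1) (h : b ∈ zpowers a) :
    zpowers b = zpowers a := by
  refine eq_of_le_of_card_ge (zpowers_le.2 h) ?_
  rw [Nat.card_zpowers, Nat.card_zpowers, orderOf_eq_prime ha ha1, orderOf_eq_prime (orderOf_dvd_iff_pow_eq_one.1
    ((orderOf_dvd_of_mem_zpowers h).trans (orderOf_dvd_of_pow_eq_one ha))) h1]

theorem ord_conj (x y : G) : orderOf (x * y * x⁻¹) = orderOf y := (MulAut.conj x).orderOf_eq y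

theorem mem_zpowers_symm {a b : G} (ha : a ^ p = 1) (h1 : b ≠ 1) (h : b ∈ zpowers a) : a ∈ zpowers b := by
  have ha1 : a ≠ 1 := by rintro rfl; exact h1 (by simpa using h)
  exact (zpowers_eq_p ha ha1 h1 h).ge (mem_zpowers a)

theorem sum_lines {Q : Subgroup G} (hQ : ∀ a ∈ Q, a ^ p = 1) (χ : G → ℂ) :
    ∑ c ∈ (univ : Finset Q).erase 1, xs (zpowers (c : G)) χ = ((p : ℝ) - 1) * xs Q χ := by
  rw [sum_congr rfl fun (c : Q) _ => xs_eq_ite (zpowers_le.2 c.2) χ, sum_comm, xs, mul_sum]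
  refine sum_congr rfl fun b hb => ?_
  have hb1 : (b : G) ≠ 1 := fun e => (mem_erase.1 hb).1 (Subtype.ext e)
  have h1 := xs_eq_ite (zpowers_le.2 b.2) fun _ => (1 : ℂ)
  rw [xs_one, Nat.card_zpowers, orderOf_eq_prime (hQ b b.2) hb1] at h1
  rw [h1, sum_mul]
  refine sum_congr rfl fun c hc => ?_
  rw [ite_mul, Complex.one_re, one_mul, zero_mul]
  exact if_congr ⟨mem_zpowers_symm (hQ c c.2) hb1,
    mem_zpowers_symm (hQ b b.2) fun e => (mem_erase.1 hc).1 (Subtype.ext e)⟩ rfl rfl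

theorem sum_prod_sup {W W' : Subgroup G} (hn : W ≤ 𝒩(W')) (hd : W ⊓ W' = ⊥) (f : G → ℂ) :
    ∑ x : W, ∑ y : W', f (x * y) = ∑ c : (W ⊔ W' : Subgroup G), f c := by
  rw [← Fintype.sum_prod_type']
  refine Fintype.sum_bijective (fun z : W × W' => (⟨z.1 * z.2, mul_mem_sup z.1.2 z.2.2⟩ : (W ⊔ W' : Subgroup G)))
    ⟨fun a b e => ?_, fun c => ?_⟩ _ _ fun _ => rfl
  · have e1 : (a.1 : G) * a.2 = b.1 * b.2 := congrArg Subtype.val e
    have e2 : (b.1 : G)⁻¹ * a.1 = 1 := mem_bot.1 (hd.le (mem_inf.2 ⟨mul_mem (inv_mem b.1.2) a.1.2, by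
      rw [show (b.1 : G)⁻¹ * a.1 = b.2 * (a.2 : G)⁻¹ by rw [inv_mul_eq_iff_eq_mul, ← mul_assoc, ← e1]; group]
      exact mul_mem b.2.2 (inv_mem a.2.2)⟩))
    have e3 := (inv_mul_eq_one.1 e2).symm
    exact Prod.ext (Subtype.ext e3) (Subtype.ext (mul_left_cancel (e3 ▸ e1)))
  · obtain ⟨a, ha, b, hb, e⟩ := (mem_sup_nr hn).1 c.2
    exact ⟨(⟨a, ha⟩, ⟨b, hb⟩), Subtype.ext e⟩

theorem ps_eq_pair {χ : G → ℂ} (hχ : IsIrrCharacter G χ) {W W' : Subgroup G} {g x k : G} (hx : x ∈ 𝒞(W))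
    (e : cj (k⁻¹ * x * g) W = W') : ps W χ g = ∑ u : W, ∑ v : W', χ (u * (k * v * k⁻¹)) := by
  refine sum_congr rfl fun u _ => Fintype.sum_equiv (((MulAut.conj (k⁻¹ * x * g)).subgroupMap W).trans
    (MulEquiv.subgroupCongr e)).toEquiv _ _ fun v => ?_
  change _ = χ (u * (k * (k⁻¹ * x * g * v * (k⁻¹ * x * g)⁻¹) * k⁻¹))
  rw [← cls' hχ x, ← mul_assoc x, ← comm_of_mem hx u.2]
  group

namespace Sc

variable (h : Sc p A P) (hM : IsPModular p M)
include h hM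

theorem coset {χ : IrrCharacter G} (hχ : χ ∈ principalBlock M G) {K : Subgroup G} (hK : ¬ p ∣ Nat.card K) {c : G}
    (hc : c ∈ A) (h1 : c ≠ 1) (hn : c ∈ 𝒩(K)) {y : G} (hy : y ∈ K) : (χ : G → ℂ) (c * y) = (χ : G → ℂ) c :=
  apply_coset hM hχ hK (ord_pow h.pg hc) hn
    (fun _ hz => mem_coreOf_of_npc (h.npc c hc h1) hz.2 (cop_of_mem hK hz.1)) hy

theorem line {χ : IrrCharacter G} (hχ : χ ∈ principalBlock M G) {a : G} (ha : a ∈ A) (h1 : a ≠ 1)
    (hmin : ∀ c ∈ A, c ≠ 1 → xs (zpowers a) χ.1 ≤ xs (zpowers c) χ.1) (g : G) :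
    (p : ℝ) ^ 2 * xs (zpowers a) χ.1 ≤ ((p : ℝ) - 1) * (Avg.ps (zpowers a) χ.1 g).re ∨
      dg χ.1 + (p + 1) * xs (zpowers a) χ.1 ≤ (Avg.ps (zpowers a) χ.1 g).re := by
  obtain ⟨K, hK, b, hb, x, hx, k, hk, n1, n2, e⟩ := h.ps ha ha g
  have hb1 : b ≠ 1 := by
    rintro rfl
    exact h1 (by simpa using e)
  have hc : Nat.card (zpowers a) = p := by rw [Nat.card_zpowers, orderOf_eq_prime (h.exp a ha) h1]
  have hc' : Nat.card (zpowers b) = p := by rw [Nat.card_zpowers, orderOf_eq_prime (h.exp b hb) hb1]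
  have e1 : k⁻¹ * x * g * a * (k⁻¹ * x * g)⁻¹ = b := by
    rw [show b = k⁻¹ * (k * b * k⁻¹) * k by group, ← e]; group
  have e2 : cj (k⁻¹ * x * g) (zpowers a) = zpowers b := by rw [MonoidHom.map_zpowers]; exact congrArg zpowers e1
  have hx' : x ∈ 𝒞(zpowers a) := by rwa [centralizer_zpowers_eq]
  have hA : zpowers a ⊔ zpowers b ≤ A := sup_le (zpowers_le.2 ha) (zpowers_le.2 hb)
  have hN : zpowers a ⊔ zpowers b ≤ 𝒩(K) := sup_le (zpowers_le.2 n1) (zpowers_le.2 n2)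
  by_cases hab : b ∈ zpowers a
  · left
    have e4 : zpowers b = zpowers a := zpowers_eq_p (h.exp a ha) h1 hb1 hab
    have h2 := ps_ge χ.2 (zpowers_le.2 n1) hk fun c hc hc1 y hy =>
      h.coset hM hχ hK (zpowers_le.2 ha hc) hc1 (zpowers_le.2 n1 hc) hy
    rw [hc] at h2
    rwa [ps_eq_pair χ.2 hx' (e2.trans e4)]
  right
  have hd : zpowers a ⊓ zpowers b = ⊥ := eq_bot_iff.2 fun y hy => by
    by_contra hy1
    exact hab (zpowers_le.2 hy.1 (mem_zpowers_symm (h.exp b hb) hy1 hy.2))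
  have hn : zpowers a ≤ 𝒩(zpowers b) := fun y hy => cent_le_norm _ (mem_centralizer_iff.2 fun z hz =>
    h.comm z (zpowers_le.2 hb hz) y (zpowers_le.2 ha hy))
  have e5 : ∀ (u : zpowers a) (v : zpowers b), χ.1 (u * (k * v * k⁻¹)) = χ.1 (u * v) := fun u v => by
    by_cases h2 : (u : G) * v = 1
    · rw [show (v : G) = 1 from mem_bot.1 (hd.le (mem_inf.2
        ⟨by rw [eq_inv_of_mul_eq_one_right h2]; exact inv_mem u.2, v.2⟩))]
      simp
    rw [← h.coset hM hχ hK (hA (mul_mem_sup u.2 v.2)) h2 (hN (mul_mem_sup u.2 v.2))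
      (mul_mem (conj_mem' (zpowers_le.2 n2 v.2) hk) (inv_mem hk))]
    group
  have e6 := sum_prod_sup hn hd fun _ => (1 : ℂ)
  simp only [sum_const, card_univ, ← Nat.card_eq_fintype_card, hc, hc', nsmul_eq_mul, mul_one] at e6
  have e7 : (Nat.card (zpowers a ⊔ zpowers b : Subgroup G) : ℝ) = p * p := by exact_mod_cast e6.symm
  have h3 := sum_le_sum fun (c : (zpowers a ⊔ zpowers b : Subgroup G)) (hc : c ∈ univ.erase 1) =>
    hmin c (hA c.2) fun e => (mem_erase.1 hc).1 (Subtype.ext e)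
  rw [sum_lines fun y hy => h.exp y (hA hy), sum_const, nsmul_eq_mul, card_erase, e7] at h3
  rw [ps_eq_pair χ.2 hx' e2]
  simp only [e5]
  rw [sum_prod_sup hn hd, sum_W χ.2, Complex.ofReal_re]
  have hp1 : (0 : ℝ) < (p : ℝ) - 1 := by rw [sub_pos]; exact_mod_cast hp.out.one_lt
  nlinarith [le_of_mul_le_mul_left (show ((p : ℝ) - 1) * ((p + 1) * xs (zpowers a) χ.1) ≤ _ by linarith) hp1]

theorem bound (hp2 : p ≠ 2) {χ : IrrCharacter G} (hχ : χ ∈ principalBlock M G) (hk : ¬ A ≤ charKer χ.1) :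
    xs A χ.1 ≤ ((Nat.card A : ℝ) / 2 - 1) * dg χ.1 := by
  obtain ⟨c, hc, hc'⟩ := SetLike.not_le_iff_exists.1 hk
  have hc1 : c ≠ 1 := fun e => hc' (e ▸ one_mem _)
  obtain ⟨a, ha, hmin⟩ := exists_min_image ((univ : Finset A).erase 1) (fun a => xs (zpowers (a : G)) χ.1)
    ⟨⟨c, hc⟩, mem_erase.2 ⟨fun e => hc1 (congrArg Subtype.val e), mem_univ _⟩⟩
  have ha1 : (a : G) ≠ 1 := fun e => (mem_erase.1 ha).1 (Subtype.ext e)
  have hmin' : ∀ c ∈ A, c ≠ 1 → xs (zpowers (a : G)) χ.1 ≤ xs (zpowers c) χ.1 := fun c hc h1 =>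
    hmin ⟨c, hc⟩ (mem_erase.2 ⟨fun e => h1 (congrArg Subtype.val e), mem_univ _⟩)
  have h1 := (hmin' c hc hc1).trans_lt (xs_lt χ.2 fun hle => hc' (hle (mem_zpowers c)))
  rw [Nat.card_zpowers, orderOf_eq_prime (h.exp c hc) hc1] at h1
  have h2 := sum_mono χ.2 (zpowers_le.2 a.2)
  rw [Nat.card_zpowers, orderOf_eq_prime (h.exp a a.2) ha1] at h2
  have hp3 : (3 : ℝ) ≤ p := by
    have := hp.out.two_le
    exact_mod_cast (show 3 ≤ p by omega)
  have hd := dg_pos χ.2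
  have hq : (0 : ℝ) < Nat.card A := by exact_mod_cast Nat.card_pos
  have h3 : ((p : ℝ) - 1) * xs (zpowers (a : G)) χ.1 ≤ dg χ.1 := by
    by_contra h4
    rw [not_le] at h4
    have h5 := le_sq_of_ps χ.2 (zpowers (a : G)) (m := min ((p : ℝ) ^ 2 * xs (zpowers (a : G)) χ.1 / (p - 1))
      (dg χ.1 + (p + 1) * xs (zpowers (a : G)) χ.1)) fun g => (h.line hM hχ a.2 ha1 hmin' g).elim
        (fun h6 => (min_le_left _ _).trans (by rw [div_le_iff₀ (by linarith)]; linarith)) (min_le_right _ _).trans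
    generalize xs (zpowers (a : G)) χ.1 = X at h1 h4 h5
    have h6 : 0 < X := by nlinarith
    rcases min_choice ((p : ℝ) ^ 2 * X / (p - 1)) (dg χ.1 + (p + 1) * X) with e | e <;> rw [e] at h5
    · rw [div_mul_eq_mul_div, div_le_iff₀ (by linarith)] at h5
      nlinarith [mul_pos (sub_pos.2 h4) (sub_pos.2 h1)]
    · nlinarith [mul_pos h6 (sub_pos.2 h1)]
  generalize xs (zpowers (a : G)) χ.1 = X at h2 h3
  have h5 : 2 * X ≤ dg χ.1 := by by_contra h5; nlinarith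
  have h4 : 2 * (dg χ.1 + X) ≤ p * dg χ.1 := by nlinarith
  nlinarith [mul_le_mul_of_nonneg_left h4 hq.le]

theorem degSq_eq {c : G} (hc : c ∈ A) (h1 : c ≠ 1) : degSq M (centralizer ({c} : Set G)) = Nat.card P := by
  rw [degSq_of_npc hM (h.npc c hc h1), ← (h.syl.of_le (h.le_cent hc) le_top).card_eq_pow]

omit hM in
theorem card_orb_le {c c' : G} (hc : c ∈ A) (hc' : c' ∈ A) (h1 : c' ≠ 1) : (orb A c).card ≤ (orb A c').card := by
  have key : ∀ b : A, b ∈ orb A c → ∃ n ∈ 𝒩(A), n * c * n⁻¹ = b := fun b hb => h.fus hc b.2 (mem_filter.1 hb).2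
  choose! f hf hf' using key
  refine card_le_card_of_injOn (fun b => if hb : b ∈ orb A c then ⟨_, conj_mem (hf b hb) hc'⟩ else 1)
    (fun b hb => ?_) fun a ha b hb e => ?_
  · have hb' : b ∈ orb A c := hb
    simp only [hb', dite_true]
    exact mem_filter.2 ⟨mem_erase.2 ⟨fun e => h1 (by simpa using congrArg Subtype.val e), mem_univ _⟩,
      isConj_iff.2 ⟨_, rfl⟩⟩
  · have ha' : a ∈ orb A c := ha
    have hb' : b ∈ orb A c := hb
    simp only [ha', hb', dite_true, Subtype.mk.injEq] at e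
    have h2 := h.semireg hc' h1 (mul_mem (inv_mem (hf b hb')) (hf a ha')) (mem_centralizer_singleton_iff.2 (by
      calc (f b)⁻¹ * f a * c' = (f b)⁻¹ * (f a * c' * (f a)⁻¹) * f a := by group
        _ = _ := by rw [e]; group))
    refine Subtype.ext ?_
    rw [← hf' a ha', ← hf' b hb']
    calc f a * c * (f a)⁻¹ = f b * ((f b)⁻¹ * f a * c * ((f b)⁻¹ * f a)⁻¹) * (f b)⁻¹ := by group
      _ = _ := by rw [conj_eq_of_mem h2 hc]

theorem term {e : ℕ} (he : ∀ c ∈ A, c ≠ 1 → (orb A c).card = e) {a b : G} (ha : a ∈ A) (hb : b ∈ A) (g : G) :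
    ∑ χ ∈ bz M G, χ.1 (a * (g * b * g⁻¹)) * (xs A χ.1 : ℂ) =
      if p ∣ orderOf (a * (g * b * g⁻¹)) then ((e * Nat.card P : ℝ) : ℂ) else 0 := by
  split_ifs with hd
  swap
  · exact orth_reg hM h.pg hd
  obtain ⟨K, hK, b', hb', x, hx, k, hk, n1, n2, e⟩ := h.ps ha hb g
  have e1 : x * (a * (g * b * g⁻¹)) * x⁻¹ = a * b' * (b'⁻¹ * k * b' * k⁻¹) := by
    rw [← mul_assoc x, mem_centralizer_singleton_iff.1 hx, mul_assoc, mul_assoc, ← mul_assoc x, e]; group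
  have hy := mul_mem (conj_mem' n2 hk) (inv_mem hk)
  have h1 : a * b' ≠ 1 := fun e2 => by
    rw [e2, one_mul] at e1
    rw [← ord_conj x, e1] at hd
    exact (Nat.Prime.coprime_iff_not_dvd hp.out).1 (cop_of_mem hK hy).symm hd
  have h2 := inv_mem (mul_mem ha hb')
  rw [sum_congr rfl fun χ hχ => by
    rw [← cls' χ.2 x, e1, h.coset hM (mem_bz.1 hχ) hK (mul_mem ha hb') h1 (mul_mem n1 n2) hy, ← inv_inv (a * b')],
    col_sum hM h.pg (ord_pow h.pg h2), he _ h2 (inv_ne_one.2 h1), h.degSq_eq hM h2 (inv_ne_one.2 h1)]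
  push_cast
  rfl

theorem triple {e : ℕ} (he : ∀ c ∈ A, c ≠ 1 → (orb A c).card = e) {a b : G} (ha : a ∈ A) (hb : b ∈ A) :
    ∑ χ ∈ bz M G, (Nat.card G : ℂ) * (χ.1 a * χ.1 b * ((xs A χ.1 / dg χ.1 : ℝ) : ℂ)) =
      ((∑ g : G, if p ∣ orderOf (a * (g * b * g⁻¹)) then (e * Nat.card P : ℝ) else 0 : ℝ) : ℂ) := by
  rw [Complex.ofReal_sum, sum_congr rfl fun g _ => (apply_ite _ _ _ _).trans (h.term hM he ha hb g).symm, sum_comm]
  refine sum_congr rfl fun χ _ => ?_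
  rw [← sum_mul, sum_congr rfl fun g _ => cls χ.2 _ _, schurAvg_sum_char_conj_mul χ.2, Complex.ofReal_div, dg_eq χ.2]
  ring

theorem sq_eq {e : ℕ} (he : ∀ c ∈ A, c ≠ 1 → (orb A c).card = e) :
    ∑ χ ∈ bz M G, xs A χ.1 ^ 2 = ((Nat.card A : ℝ) - 1) * (e * Nat.card P) := by
  rw [sum_sq hM h.pg, ← card_erase, ← nsmul_eq_mul, ← sum_const]
  refine sum_congr rfl fun c hc => ?_
  have h1 : (c : G) ≠ 1 := fun e => (mem_erase.1 hc).1 (Subtype.ext e)
  rw [he c c.2 h1, h.degSq_eq hM c.2 h1, Complex.natCast_re]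

theorem cube_ge {e : ℕ} (he : ∀ c ∈ A, c ≠ 1 → (orb A c).card = e) {β : ℝ} (hβ : ∀ a ∈ A, a ≠ 1 → ∀ g : G,
      ((((univ : Finset A).erase 1).filter fun b : A => ¬ p ∣ orderOf (a * (g * b * g⁻¹))).card : ℝ) ≤ β) :
    ((Nat.card A : ℝ) - 1) * (e * Nat.card P) * ((Nat.card A : ℝ) - 1 - β) ≤ ∑ χ ∈ bz M G, xs A χ.1 ^ 3 / dg χ.1 := by
  have h1 : (Nat.card G : ℝ) * ∑ χ ∈ bz M G, xs A χ.1 ^ 3 / dg χ.1 = ∑ a ∈ (univ : Finset A).erase 1,
      ∑ b ∈ (univ : Finset A).erase 1, ∑ g : G,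
        if p ∣ orderOf (a * (g * b * g⁻¹)) then (e * Nat.card P : ℝ) else 0 := by
    rw [← Complex.ofReal_inj, Complex.ofReal_sum, sum_congr rfl fun (a : A) _ => by
      rw [Complex.ofReal_sum, sum_congr rfl fun (b : A) _ => (h.triple hM he a.2 b.2).symm, sum_comm], sum_comm,
      mul_sum, Complex.ofReal_sum]
    refine sum_congr rfl fun χ _ => ?_
    simp only [← mul_sum, ← sum_mul, ← xs_eq χ.2]
    push_cast
    ring
  refine le_of_mul_le_mul_left ?_ (show (0 : ℝ) < Nat.card G by exact_mod_cast Nat.card_pos)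
  rw [h1, sum_congr rfl fun a _ => sum_comm]
  refine le_trans (le_of_eq ?_) (sum_le_sum fun a ha => sum_le_sum (f := fun _ =>
    (e * Nat.card P : ℝ) * ((Nat.card A : ℝ) - 1 - β)) fun g _ => ?_)
  · simp only [sum_const, nsmul_eq_mul, card_erase, card_univ, ← Nat.card_eq_fintype_card]
    ring
  · have h2 := hβ a a.2 (fun e => (mem_erase.1 ha).1 (Subtype.ext e)) g
    have h3 := card_filter_add_card_filter_not (s := (univ : Finset A).erase 1)
      fun b : A => p ∣ orderOf ((a : G) * (g * b * g⁻¹))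
    rw [← sum_filter, sum_const, nsmul_eq_mul, mul_comm, ← card_erase, ← h3]
    push_cast
    exact mul_le_mul_of_nonneg_right (by linarith) (by positivity)

omit hM in
theorem reg {a b g : G} (ha : a ∈ A) (hb : b ∈ A) (hr : ¬ p ∣ orderOf (a * (g * b * g⁻¹))) :
    IsConj a⁻¹ b ∧ (¬ p ∣ orderOf (a * (g * b⁻¹ * g⁻¹)) → a * a = 1) := by
  obtain ⟨K, hK, b', hb', x, hx, k, hk, n1, n2, e⟩ := h.ps ha hb g
  have key : ∀ c c' : G, c' ∈ A → c' ∈ 𝒩(K) → x * (g * c * g⁻¹) * x⁻¹ = k * c' * k⁻¹ →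
      ¬ p ∣ orderOf (a * (g * c * g⁻¹)) → a * c' = 1 := fun c c' hc n e hr => by
    refine dvd_orderOf_coset hK (ord_pow h.pg (mul_mem ha hc)) (mul_mem n1 n) (mul_mem (conj_mem' n hk) (inv_mem hk)) ?_
    rwa [← ord_conj x, ← mul_assoc x, mem_centralizer_singleton_iff.1 hx, mul_assoc, mul_assoc, ← mul_assoc x, e,
      show a * (k * c' * k⁻¹) = a * c' * (c'⁻¹ * k * c' * k⁻¹) by group] at hr
  have h1 := key b b' hb' n2 e hr
  refine ⟨isConj_iff.2 ⟨(x * g)⁻¹ * k, ?_⟩, fun h2 => ?_⟩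
  · rw [inv_eq_of_mul_eq_one_right h1]
    calc (x * g)⁻¹ * k * b' * ((x * g)⁻¹ * k)⁻¹ = (x * g)⁻¹ * (k * b' * k⁻¹) * (x * g) := by group
      _ = b := by rw [← e]; group
  · have h3 := key b⁻¹ b'⁻¹ (inv_mem hb') (inv_mem n2) (by
      rw [show k * b'⁻¹ * k⁻¹ = (k * b' * k⁻¹)⁻¹ by group, ← e]; group) h2
    rwa [← mul_inv_eq_one.1 h3] at h1

theorem two_classes (hp2 : p ≠ 2) (htop : normalClosure (A : Set G) = ⊤) {e : ℕ}
    (he : ∀ c ∈ A, c ≠ 1 → (orb A c).card = e) {a b : G} (ha : a ∈ A) (hb : b ∈ A) (ha1 : a ≠ 1) (hb1 : b ≠ 1)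
    (hc : ¬ IsConj a⁻¹ b) : 4 * e * (Nat.card P : ℝ) ≤ Nat.card A * Nat.card P + 2 * Nat.card A := by
  have h1 := h.triple hM he ha hb
  rw [sum_congr rfl fun g _ => if_pos (by_contra fun hr => hc (h.reg ha hb hr).1), ← mul_sum, sum_const, card_univ,
    ← Nat.card_eq_fintype_card, nsmul_eq_mul, Complex.ofReal_mul, Complex.ofReal_natCast] at h1
  have h2 := congrArg Complex.re (mul_left_cancel₀ (by exact_mod_cast Nat.card_pos.ne') h1)
  rw [Complex.ofReal_re, Complex.re_sum] at h2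
  have h3 := sum_principal_column hM (ord_pow h.pg (inv_mem ha)) (ord_pow h.pg hb)
  rw [if_neg hc, inv_inv] at h3
  have h4 := congrArg Complex.re h3
  rw [Complex.re_sum, Complex.zero_re] at h4
  have h5 : ∀ c ∈ A, c ≠ 1 → ∑ χ ∈ bz M G, Complex.normSq (χ.1 c) = Nat.card P := fun c hc h1 => by
    have h6 := congrArg Complex.re (sum_principal_column_self hM (ord_pow h.pg hc))
    rw [h.degSq_eq hM hc h1, Complex.natCast_re, Complex.re_sum] at h6
    rw [← h6]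
    exact sum_congr rfl fun χ _ => by rw [isChar_inv (isChar_of_isIrr χ.2), Complex.mul_conj, Complex.ofReal_re]
  have h6 : ∑ χ ∈ bz M G, ((χ.1 a * χ.1 b * ((xs A χ.1 / dg χ.1 : ℝ) : ℂ)).re -
      ((Nat.card A : ℝ) / 4 - 1) * (χ.1 b * χ.1 a).re -
      (Nat.card A : ℝ) / 8 * (Complex.normSq (χ.1 a) + Complex.normSq (χ.1 b))) ≤ (Nat.card A : ℝ) / 2 := by
    rw [← add_sum_erase _ _ (one_mem_bz hM)]
    refine le_trans (add_le_add le_rfl (sum_nonpos fun χ hχ => ?_)) (le_of_eq ?_)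
    · have h7 := h.bound hM hp2 (mem_bz.1 (mem_of_mem_erase hχ)) (not_le_ker htop (mem_erase.1 hχ).1)
      have h8 := sum_nonneg' χ.2 A
      rw [← div_le_iff₀ (dg_pos χ.2)] at h7
      have h9 : -1 ≤ xs A χ.1 / dg χ.1 := by rw [le_div_iff₀ (dg_pos χ.2)]; linarith
      rw [Complex.re_mul_ofReal, mul_comm (χ.1 b)]
      generalize xs A χ.1 / dg χ.1 = s at h7 h9
      simp only [Complex.mul_re, Complex.normSq_apply]
      generalize (χ.1 a).re = a1
      generalize (χ.1 a).im = a2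
      generalize (χ.1 b).re = b1
      generalize (χ.1 b).im = b2
      nlinarith [mul_nonneg (sub_nonneg.2 h7) (add_nonneg (sq_nonneg (a1 + b1)) (sq_nonneg (a2 - b2))),
        mul_nonneg (sub_nonneg.2 h9) (add_nonneg (sq_nonneg (a1 - b1)) (sq_nonneg (a2 + b2)))]
    · rw [show xs A (irrOne G).1 = (Nat.card A : ℝ) - 1 from xs_one A]
      simp [dg]
      ring
  simp only [sum_sub_distrib, ← mul_sum, sum_add_distrib, h2, h5 a ha ha1, h5 b hb hb1] at h6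
  rw [show ∑ χ ∈ bz M G, (χ.1 b * χ.1 a).re = 0 from h4] at h6
  linarith

omit hM in
theorem three_le (hp2 : p ≠ 2) (h1 : A ≠ ⊥) : 3 ≤ Nat.card A ∧ Odd (Nat.card A) := by
  obtain ⟨k, hk⟩ := h.pg.exists_card_eq
  have h2 := Nat.le_of_dvd Nat.card_pos (hk ▸ dvd_pow_self p fun e => h1 (by rwa [e, pow_zero, Subgroup.card_eq_one] at hk))
  have := hp.out.two_le
  exact ⟨by omega, hk ▸ (hp.out.odd_of_ne_two hp2).pow⟩

omit hM in
theorem nofusion (hp2 : p ≠ 2) (htop : normalClosure (A : Set G) = ⊤) {a b : G} (ha : a ∈ A) (hb : b ∈ A)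
    (hc : IsConj a b) : a = b := by
  by_contra hne
  obtain ⟨M, hM⟩ := exists_isPModular' hp.out
  have ha1 : a ≠ 1 := fun e => hne (by rw [e] at hc ⊢; exact (isConj_one_right.1 hc).symm)
  have hb1 : b ≠ 1 := fun e => hne (by rw [e] at hc ⊢; exact isConj_one_left.1 hc)
  have hmem : ∀ {c : G} (hc : c ∈ A), c ≠ 1 → (⟨c, hc⟩ : A) ∈ (univ : Finset A).erase 1 := fun hc h1 =>
    mem_erase.2 ⟨fun e => h1 (congrArg Subtype.val e), mem_univ _⟩
  have he : ∀ c ∈ A, c ≠ 1 → (orb A c).card = (orb A a).card := fun c hc h1 =>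
    le_antisymm (h.card_orb_le hc ha ha1) (h.card_orb_le ha hc h1)
  have h2 : 1 < (orb A a).card := one_lt_card.2 ⟨_, mem_filter.2 ⟨hmem ha ha1, IsConj.refl _⟩, _,
    mem_filter.2 ⟨hmem hb hb1, hc⟩, fun e => hne (congrArg Subtype.val e)⟩
  obtain ⟨h3, k, hk⟩ := h.three_le hp2 fun e => ha1 (mem_bot.1 (e ▸ ha))
  have hq : (3 : ℝ) ≤ Nat.card A := by exact_mod_cast h3
  have hN : (Nat.card A : ℝ) ≤ Nat.card P := by exact_mod_cast card_le_of_le h.le
  have hlt := cubic_lt' hM h.pg (by omega) (t := (Nat.card A : ℝ) / 2 - 1) (by linarith) fun χ hχ h1 =>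
    h.bound hM hp2 hχ (not_le_ker htop h1)
  rw [h.sq_eq hM he] at hlt
  have key : ∀ β : ℝ, (∀ a ∈ A, a ≠ 1 → ∀ g : G,
      ((((univ : Finset A).erase 1).filter fun b : A => ¬ p ∣ orderOf (a * (g * b * g⁻¹))).card : ℝ) ≤ β) →
      (orb A a).card * ((Nat.card A : ℝ) - 2 * β) < Nat.card A - 1 := fun β hβ => by
    have h4 := h.cube_ge hM he hβ
    by_contra h5
    rw [not_lt] at h5
    generalize ((orb A a).card : ℝ) = e at *
    generalize (Nat.card A : ℝ) = q at *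
    have h6 : (q - 1) * q ≤ e * (q - 2 * β) * Nat.card P := mul_le_mul h5 hN (by linarith) (by linarith)
    nlinarith [mul_le_mul_of_nonneg_left h6 (show 0 ≤ q - 1 by linarith)]
  have k1 := key (((Nat.card A : ℝ) - 1) / 2) fun a ha ha1 g => by
    set T := ((univ : Finset A).erase 1).filter fun b : A => ¬ p ∣ orderOf (a * (g * b * g⁻¹))
    have h4 : T.card ≤ (((univ : Finset A).erase 1).filter
        fun b : A => ¬ ¬ p ∣ orderOf (a * (g * b * g⁻¹))).card := by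
      refine card_le_card_of_injOn (fun b => b⁻¹) (fun b hb => ?_) fun a _ b _ e => inv_injective e
      have hb' := mem_filter.1 (show b ∈ T from hb)
      refine mem_coe.2 (mem_filter.2 ⟨by simpa using hb'.1, fun h5 => ha1 ?_⟩)
      exact Even.eq_one_of_coprime_of_mem h.pg (((Nat.coprime_primes Nat.prime_two hp.out).2 hp2.symm).coprime_dvd_left
        (orderOf_dvd_of_pow_eq_one (by rw [sq, (h.reg ha b.2 hb'.2).2 h5]))) ha
    have h5 := card_filter_add_card_filter_not (s := (univ : Finset A).erase 1)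
      fun b : A => ¬ p ∣ orderOf ((a : G) * (g * b * g⁻¹))
    rw [← card_erase, ← h5, le_div_iff₀ two_pos]
    exact_mod_cast (by omega : T.card * 2 ≤ T.card + _)
  have k2 := key (orb A a).card fun c hc h1 g => by
    rw [← he c⁻¹ (inv_mem hc) (inv_ne_one.2 h1)]
    exact_mod_cast card_le_card fun (b : A) hb =>
      mem_filter.2 ⟨(mem_filter.1 hb).1, (h.reg hc b.2 (mem_filter.1 hb).2).1⟩
  obtain ⟨c, hc1, hc2⟩ := exists_mem_notMem_of_card_lt_card (s := orb A a⁻¹) (t := univ.erase 1) (by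
    rw [he _ (inv_mem ha) (inv_ne_one.2 ha1), ← Nat.cast_lt (α := ℝ), card_erase]
    linarith)
  have k3 := h.two_classes hM hp2 htop he ha c.2 ha1 (fun e => (mem_erase.1 hc1).1 (Subtype.ext e))
    fun e => hc2 (mem_filter.2 ⟨hc1, e⟩)
  have k4 : 4 * (orb A a).card ≤ Nat.card A + 2 := by
    by_contra h4
    have h5 : (Nat.card A : ℝ) + 3 ≤ 4 * (orb A a).card := by exact_mod_cast (by omega)
    nlinarith
  generalize (orb A a).card = e at k2 k4 h2
  have h5 : (4 * e : ℝ) ≤ Nat.card A + 1 := by exact_mod_cast (by omega)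
  have h6 : (2 : ℝ) ≤ e := by exact_mod_cast h2
  nlinarith

omit hM in
theorem comm_mem (hp2 : p ≠ 2) (htop : normalClosure (A : Set G) = ⊤) {b : G} (hb : b ∈ A) (g : G) :
    b * g * b⁻¹ * g⁻¹ ∈ pPrimeCore p G := by
  by_cases h1 : b = 1
  · simp [h1]
  obtain ⟨M, hM⟩ := exists_isPModular' hp.out
  refine comm_mem_core hM (h.three_le hp2 fun e => h1 (mem_bot.1 (e ▸ hb))).1 (fun a ha hd => h.syl.not_dvd ?_)
    (fun χ hχ a ha b hb h1 g => ?_) hb g
  · rw [relIndex_top_right]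
    exact hd.trans (index_dvd_of_le (h.le_cent ha))
  obtain ⟨K, hK, b', hb', x, hx, k, hk, n1, n2, e⟩ := h.ps ha hb g
  obtain rfl := h.nofusion hp2 htop hb hb' (isConj_iff.2 ⟨k⁻¹ * x * g, by
    rw [show b' = k⁻¹ * (k * b' * k⁻¹) * k by group, ← e]; group⟩)
  rw [← h.coset hM hχ hK (mul_mem ha hb) h1 (mul_mem n1 n2) (mul_mem (conj_mem' n2 hk) (inv_mem hk)), ← cls' χ.2 x,
    ← mul_assoc x, mem_centralizer_singleton_iff.1 hx, mul_assoc, mul_assoc, ← mul_assoc x, e]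
  group

end Sc

theorem Sc.odd {G : Type u} [Group G] [Finite G] {A P : Subgroup G} (h : Sc p A P) (hp2 : p ≠ 2) :
    normalClosure (A : Set G) ≤ A ⊔ pPrimeCore p G :=
  have := Fintype.ofFinite (normalClosure (A : Set G))
  le_sup_of_comm h.closure_top fun _ hb g => (h.subgroupOf _).comm_mem hp2 h.closure_top hb g

end CL.Avg
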