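import Cfsg.Agent.Even.AvgSyl

/-!
# A strongly closed central subgroup of exponent `p`: the group theory
-/

set_option autoImplicit false
set_option linter.unusedSectionVars false

open scoped Pointwise commutatorElement Classical
open Cfsg CL.Even CL.Grp CL.Loc Subgroup

namespace CL.Avg

universe u

variable {G : Type u} [Group G] [Finite G] {p : ℕ} [hp : Fact p.Prime] {A P : Subgroup G}

/-- `A` is strongly closed and central in the Sylow subgroup `P`, with `p`-nilpotent centralizers. -/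
structure Sc (p : ℕ) (A P : Subgroup G) : Prop where
  syl : IsSylowIn p P ⊤
  le : A ≤ P
  cent : A ≤ 𝒞(P)
  exp : ∀ a ∈ A, a ^ p = 1
  sc : ∀ a ∈ A, ∀ g : G, g * a * g⁻¹ ∈ P → g * a * g⁻¹ ∈ A
  npc : ∀ c ∈ A, c ≠ 1 → HasNormalPComplement p (centralizer ({c} : Set G))
  pair : ∀ a ∈ A, ∀ b ∈ A, ∀ g : G, IsPSolvable p (closure ({a, g * b * g⁻¹} : Set G))

theorem mem_coreOf_of_npc {L : Subgroup G} (h : HasNormalPComplement p L) {y : G} (hy : y ∈ L)
    (hc : (orderOf y).Coprime p) : y ∈ pPrimeCoreOf p L :=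
  le_pPrimeCoreOf (res_le L) (self_le_norm_res L) (by
    rw [← res_def, card_map_of_injective (subtype_injective _)]
    exact hasNormalPComplement_iff_coprime_pResidual.1 h) (mem_res hy hc)

theorem npc_of_le {L K : Subgroup G} (h : HasNormalPComplement p L) (hK : K ≤ L) : HasNormalPComplement p K :=
  hasNormalPComplement_iff_mul.2 fun x y hx hy => by
    have := hasNormalPComplement_iff_mul.1 h (inclusion hK x) (inclusion hK y)
      (by rwa [orderOf_injective _ (inclusion_injective hK)]) (by rwa [orderOf_injective _ (inclusion_injective hK)])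
    rwa [← map_mul, orderOf_injective _ (inclusion_injective hK)] at this

theorem cent_of_npc {L U : Subgroup G} (h : HasNormalPComplement p L) (hU : IsPGroup p U) (hUL : U ≤ L) {y : G}
    (hy : y ∈ L) (hc : (orderOf y).Coprime p) (hn : y ∈ 𝒩(U)) : y ∈ 𝒞(U) :=
  mem_centralizer_of_mem_normalizer_of_disjoint (hUL.trans (le_normalizer_pPrimeCoreOf p L))
    (disjoint_iff.2 (inf_eq_bot_of_isPGroup_of_coprime hU (pPrimeCoreOf_coprime p L))) (mem_coreOf_of_npc h hy hc) hn

namespace Sc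

variable (h : Sc p A P)
include h

theorem pg : IsPGroup p A := h.syl.isPGroup.to_le h.le

theorem comm : ∀ a ∈ A, ∀ b ∈ A, a * b = b * a := fun _ ha _ hb => comm_of_mem (h.cent hb) (h.le ha)

theorem le_cent {c : G} (hc : c ∈ A) : P ≤ centralizer {c} := fun _ hx =>
  mem_centralizer_singleton_iff.2 (comm_of_mem (h.cent hc) hx)

theorem cent_syl {a : G} (ha : a ∈ A) (g : G) {T : Subgroup G} (hT : IsPGroup p T) (hx : g * a * g⁻¹ ∈ T) :
    g * a * g⁻¹ ∈ 𝒞(T) := by
  obtain ⟨t, -, ht⟩ := syl_conj_le h.syl hT le_top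
  have h1 := h.cent (h.sc a ha (t * g) (by simpa [mul_assoc] using ht (conj_mem_cj t hx)))
  refine mem_centralizer_iff.2 fun y hy => ?_
  have h2 := comm_of_mem h1 (ht (conj_mem_cj t hy))
  calc y * (g * a * g⁻¹) = t⁻¹ * (t * y * t⁻¹ * (t * g * a * (t * g)⁻¹)) * t := by group
    _ = _ := by rw [h2]; group

theorem ps {a : G} (ha : a ∈ A) {b : G} (hb : b ∈ A) (g : G) :
    ∃ K : Subgroup G, ¬ p ∣ Nat.card K ∧ ∃ b' ∈ A, ∃ x ∈ centralizer {a}, ∃ k ∈ K, a ∈ 𝒩(K) ∧ b' ∈ 𝒩(K) ∧
      x * (g * b * g⁻¹) * x⁻¹ = k * b' * k⁻¹ := by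
  set L := closure ({a, g * b * g⁻¹} : Set G)
  have haL : a ∈ L := subset_closure (by simp)
  have hyL : g * b * g⁻¹ ∈ L := subset_closure (by simp)
  have hy : (g * b * g⁻¹) ^ p ^ 1 = 1 := by rw [pow_one, conj_pow, h.exp b hb]; simp
  obtain ⟨S, hS, haS⟩ := exists_isSylowIn_ge (h.pg.to_le (zpowers_le.2 ha)) (zpowers_le.2 haL)
  obtain ⟨S', hS', hyS⟩ := exists_isSylowIn_ge (isPGroup_zpowers hy) (zpowers_le.2 hyL)
  have h1 := h.cent_syl hb g hS'.isPGroup (hyS (mem_zpowers _))
  have h2 : g * b * g⁻¹ ∈ S ⊔ pPrimeCoreOf p L := by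
    refine sup_coreOf (x := ⟨_, hyL⟩) (mem_sup_core (syl_sub hS) ⟨1, Subtype.ext hy⟩ fun m => ?_)
    rw [← pPrimeCoreOf_subgroupOf]
    exact comm_coreOf (h.pair a ha b hb g) hS' (syl_cj_of_mem_norm hS' (le_normalizer m.2)) hyL
      (mul_mem (mul_mem m.2 hyL) (inv_mem m.2)) h1 (cj_cent (m : G) S' ▸ conj_mem_cj _ h1)
  have hn := le_normalizer_pPrimeCoreOf p L
  obtain ⟨k, hk, hk'⟩ := conj_into hS.isPGroup (not_dvd_coreOf L) (hS.le.trans hn) (isPGroup_zpowers hy)
    (zpowers_le.2 h2)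
  have h3 : S ≤ centralizer {a} := fun s hs => mem_centralizer_singleton_iff.2 (by
    simpa using comm_of_mem (h.cent_syl ha 1 hS.isPGroup (by simpa using haS (mem_zpowers a))) hs)
  obtain ⟨x, hx, hx'⟩ := syl_conj_le (h.syl.of_le (h.le_cent ha) le_top) hS.isPGroup h3
  have h4 := hx' (conj_mem_cj x (hk' _ (mem_zpowers _)))
  refine ⟨cj x (pPrimeCoreOf p L), by rw [card_cj]; exact not_dvd_coreOf L, x * k * g * b * (x * k * g)⁻¹,
    h.sc b hb _ (by simpa [mul_assoc] using h4), x, hx, _, conj_mem_cj x (inv_mem hk), ?_, ?_, by group⟩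
  · rw [← cj_norm, show a = x * a * x⁻¹ by rw [mem_centralizer_singleton_iff.1 hx, mul_inv_cancel_right]]
    exact conj_mem_cj x (hn haL)
  · rw [← cj_norm, show x * k * g * b * (x * k * g)⁻¹ = x * (k * (g * b * g⁻¹) * k⁻¹) * x⁻¹ by group]
    exact conj_mem_cj x (hn (hS.le (hk' _ (mem_zpowers _))))

theorem norm_le : 𝒩(P) ≤ 𝒩(A) := fun g hg => mem_norm_of_cj_le (by
  rintro _ ⟨a, ha, rfl⟩
  exact h.sc a ha g (conj_mem hg (h.le ha)))

theorem fus {a b : G} (ha : a ∈ A) (hb : b ∈ A) (hc : IsConj a b) : ∃ n ∈ 𝒩(A), n * a * n⁻¹ = b := by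
  obtain ⟨g, rfl⟩ := isConj_iff.1 hc
  obtain ⟨x, hx, e⟩ := syl_conj ((syl_cj_top h.syl g).of_le (K := centralizer {g * a * g⁻¹}) (by
    rintro _ ⟨s, hs, rfl⟩
    exact mem_centralizer_singleton_iff.2 (Commute.conj (mem_centralizer_singleton_iff.1 (h.le_cent ha hs)) g))
    le_top) (h.syl.of_le (h.le_cent hb) le_top)
  rw [← cj_mul] at e
  refine ⟨x * g, h.norm_le (cj_eq_iff_mem.1 e), ?_⟩
  calc x * g * a * (x * g)⁻¹ = x * (g * a * g⁻¹) * x⁻¹ := by group
    _ = _ := by rw [mem_centralizer_singleton_iff.1 hx, mul_inv_cancel_right]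

theorem semireg {c : G} (hc : c ∈ A) (h1 : c ≠ 1) {n : G} (hn : n ∈ 𝒩(A)) (hn' : n ∈ centralizer {c}) :
    n ∈ 𝒞(A) := by
  obtain ⟨s, hs, r, hr, rfl⟩ := exists_syl_mul_res (h.syl.of_le (h.le_cent hc) le_top) hn'
  have h2 : s ∈ 𝒞(A) := le_centralizer_iff.1 h.cent hs
  refine mul_mem h2 (cent_of_npc (h.npc c hc h1) h.pg (h.le.trans (h.le_cent hc)) (res_le _ hr) ?_
    ((mul_mem_cancel_left (cent_le_norm _ h2)).1 hn))
  obtain ⟨r, hr', rfl⟩ := (res_def _).ge hr
  exact (orderOf_coe r).symm ▸ hasNormalPComplement_iff_forall_mem.1 (h.npc c hc h1) r hr'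

theorem subgroupOf (L : Subgroup G) [L.Normal] : Sc p (A.subgroupOf L) (P.subgroupOf L) where
  syl := by
    rw [← inf_subgroupOf_right]
    exact syl_sub (h.syl.inf_of_normalized le_top le_normalizer_of_normal)
  le := fun _ hx => h.le hx
  cent := fun a ha => mem_centralizer_iff.2 fun b hb => Subtype.ext (comm_of_mem (h.cent ha) hb)
  exp := fun a ha => Subtype.ext (h.exp a ha)
  sc := fun a ha g hg => h.sc a ha g hg
  npc := fun c hc h1 => hasNormalPComplement_iff_mul.2 fun x y hx hy => by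
    let f : centralizer ({c} : Set L) →* centralizer ({(c : G)} : Set G) :=
      (L.subtype.comp (centralizer ({c} : Set L)).subtype).codRestrict _ fun x =>
        mem_centralizer_singleton_iff.2 (congrArg Subtype.val (mem_centralizer_singleton_iff.1 x.2))
    have hf : Function.Injective f := fun x y e =>
      Subtype.ext (Subtype.ext (congrArg (fun z : centralizer ({(c : G)} : Set G) => (z : G)) e))
    have := hasNormalPComplement_iff_mul.1 (h.npc c hc fun e => h1 (Subtype.ext e)) (f x) (f y)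
      (by rwa [orderOf_injective _ hf]) (by rwa [orderOf_injective _ hf])
    rwa [← map_mul, orderOf_injective _ hf] at this
  pair := fun a ha b hb g => by
    refine isPSolvable_of_equiv (equivMapOfInjective _ _ L.subtype_injective).symm ?_
    rw [MonoidHom.map_closure, Set.image_pair]
    exact h.pair a ha b hb g

theorem closure_top :
    normalClosure (A.subgroupOf (normalClosure (A : Set G)) : Set (normalClosure (A : Set G))) = ⊤ :=
  closure_subgroupOf_top fun w hw g => by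
    obtain ⟨k, hk, hk'⟩ := syl_conj_le (h.syl.inf_of_normalized (N := normalClosure (A : Set G)) le_top
      le_normalizer_of_normal) (isPGroup_zpowers (x := g * w * g⁻¹) (k := 1) (by
        rw [pow_one, conj_pow, h.exp w hw]; simp))
      (zpowers_le.2 (normalClosure_normal.conj_mem _ (le_normalClosure hw) g))
    have := h.sc w hw (k * g) (by simpa [mul_assoc] using (hk' (conj_mem_cj k (mem_zpowers _))).1)
    exact ⟨k, hk, by simpa [mul_assoc] using this⟩

/-- A nontrivial normal subgroup inside `A` forces `P` to be normal. -/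
theorem normal_of (hO : pPrimeCore p G = ⊥) {B : Subgroup G} [B.Normal] (hB : B ≤ A) (h1 : B ≠ ⊥) : P.Normal := by
  obtain ⟨⟨c, hc⟩, hc1⟩ := ne_bot_iff_exists_ne_one.1 h1
  have h2 := npc_of_le (h.npc c (hB hc) fun e => hc1 (Subtype.ext e)) (K := 𝒞(B))
    fun x hx => mem_centralizer_singleton_iff.2 (comm_of_mem hx hc).symm
  have h3 : IsPGroup p 𝒞(B) := isPGroup_of_coprime fun x hx hx' => mem_bot.1 (hO.le
    (pPrimeCoreOf_le_pPrimeCore_of_isSubnormal (Normal.isSubnormal inferInstance) (mem_coreOf_of_npc h2 hx hx')))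
  rw [← h.syl.eq_of_le h3 (le_centralizer_iff.1 (hB.trans h.cent)) le_top]
  infer_instance

end Sc

end CL.Avg
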