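/-
Centrally large subgroups: the replacement argument producing a minimal centrally large subgroup
normalized by all abelian members of the Chermak-Delgado lattice and by all abelian subgroups of largest order.
-/
import Cfsg.Agent.Even.CentLarge
import Cfsg.Agent.Even.Amb
import Cfsg.Agent.Grp.PGroupBasic
import Cfsg.Agent.Grp.Comm1

set_option autoImplicit false
open Cfsg Subgroup
open scoped Pointwise commutatorElement

namespace CL.Even

variable {G : Type*} [Group G]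

/-- commutators `⁅u,x⁆`, `⁅v,x⁆` commute in the replacement situation -/
theorem clrep_commute {N : Subgroup G} (hN : ∀ a ∈ N, ∀ b ∈ N, ∀ c ∈ N, Commute c ⁅a, b⁆)
    {x u v u' v' s t : G} (hu : u ∈ N) (hv : v ∈ N) (hu' : u' ∈ N) (hv' : v' ∈ N) (hs : s ∈ N)
    (ht : t ∈ N) (e1 : x * u * x⁻¹ = u' * s) (e2 : x * v * x⁻¹ = v' * t) (xs : Commute x s)
    (xt : Commute x t) (uv : Commute u v) (uv' : Commute u v') (u'v : Commute u' v)
    (u'v' : Commute u' v') (st : Commute s t) : Commute ⁅u, x⁆ ⁅v, x⁆ := by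
  have L : ∀ a ∈ N, ∀ b ∈ N, ∀ c ∈ N, ⁅a * b, c⁆ = ⁅b, c⁆ * ⁅a, c⁆ := fun a ha b hb c hc =>
    CL.Grp.comm_mul_left_of_commute (hN b hb c hc a ha)
  have R : ∀ a ∈ N, ∀ b ∈ N, ∀ c ∈ N, ⁅a, b * c⁆ = ⁅a, b⁆ * ⁅a, c⁆ := fun a ha b hb c hc =>
    CL.Grp.comm_mul_right_of_commute (hN a ha c hc b hb)
  have Li : ∀ a ∈ N, ∀ b ∈ N, ⁅a⁻¹, b⁆ = ⁅a, b⁆⁻¹ := fun a ha b hb =>
    CL.Grp.comm_inv_left (hN a ha b hb a ha)
  have Ri : ∀ a ∈ N, ∀ b ∈ N, ⁅a, b⁻¹⁆ = ⁅a, b⁆⁻¹ := fun a ha b hb =>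
    CL.Grp.comm_inv_right (hN a ha b hb b hb)
  have hX : u' * s ∈ N := N.mul_mem hu' hs
  have hY : v' * t ∈ N := N.mul_mem hv' ht
  have XY : ⁅u' * s, v' * t⁆ = 1 := by
    rw [← e1, ← e2, ← conjugate_commutatorElement, uv.commutator_eq]; simp
  have k1 : ⁅s, v' * t⁆ * ⁅u' * s, t⁆ = 1 := by
    rw [← XY, L _ hu' _ hs _ hY, R _ hu' _ hv' _ ht, L _ hu' _ hs _ ht, u'v'.commutator_eq,
      st.commutator_eq, one_mul]
  have k2 : ⁅s, v⁆ * ⁅u, t⁆ = 1 := by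
    have h1 : ⁅s, v' * t⁆ = x * ⁅s, v⁆ * x⁻¹ := by
      rw [conjugate_commutatorElement, e2, xs.eq, mul_inv_cancel_right]
    have h2 : ⁅u' * s, t⁆ = x * ⁅u, t⁆ * x⁻¹ := by
      rw [conjugate_commutatorElement, e1, xt.eq, mul_inv_cancel_right]
    rw [h1, h2] at k1
    calc ⁅s, v⁆ * ⁅u, t⁆ = x⁻¹ * (x * ⁅s, v⁆ * x⁻¹ * (x * ⁅u, t⁆ * x⁻¹)) * x := by group
      _ = 1 := by rw [k1]; group
  have c1 : ⁅u, x⁆ = u * (u' * s)⁻¹ := by rw [← e1, commutatorElement_def]; group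
  have c2 : ⁅v, x⁆ = v * (v' * t)⁻¹ := by rw [← e2, commutatorElement_def]; group
  rw [← commutatorElement_eq_one_iff_commute, c1, c2,
    L _ hu _ (N.inv_mem hX) _ (N.mul_mem hv (N.inv_mem hY)), R _ (N.inv_mem hX) _ hv _ (N.inv_mem hY),
    R _ hu _ hv _ (N.inv_mem hY), Li _ hX _ hv, Li _ hX _ (N.inv_mem hY), Ri _ hX _ hY, Ri _ hu _ hY,
    XY, uv.commutator_eq, L _ hu' _ hs _ hv, R _ hu _ hv' _ ht, u'v.commutator_eq, uv'.commutator_eq]
  simp only [inv_one, mul_one, one_mul]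
  have k3 : Commute ⁅s, v⁆ ⁅u, t⁆ := hN _ hu _ ht _ (N.mul_mem (N.mul_mem (N.mul_mem hs hv)
    (N.inv_mem hs)) (N.inv_mem hv))
  rw [← mul_inv_rev, ← k3.eq, k2, inv_one]

/-- an injection of coset spaces gives an inequality of relative indices -/
theorem relIndex_le_of_map [Finite G] {D X Y : Subgroup G} (f : G → G) (hf : ∀ a ∈ X, f a ∈ Y)
    (h : ∀ a ∈ X, ∀ b ∈ X, a⁻¹ * b ∈ D ↔ (f a)⁻¹ * f b ∈ D) : D.relIndex X ≤ D.relIndex Y := by
  rw [relIndex, relIndex, index, index]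
  refine Nat.card_le_card_of_injective
    (Quotient.map' (fun a : X => (⟨f a, hf a a.2⟩ : Y)) fun a b hab => ?_) ?_
  · rw [QuotientGroup.leftRel_apply] at hab ⊢
    exact (h a a.2 b b.2).1 hab
  · intro a b
    refine Quotient.inductionOn₂' a b fun a b hab => ?_
    rw [Quotient.map'_mk'', Quotient.map'_mk''] at hab
    have hab' := Quotient.exact' hab
    apply Quotient.sound'
    rw [QuotientGroup.leftRel_apply] at hab' ⊢
    exact (h a a.2 b b.2).2 hab'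

/-- abelian members of the Chermak-Delgado lattice of largest order -/
def IsCDAb (Z : Subgroup G) : Prop :=
  IsCentralizerLarge Z ∧ IsMulCommutative Z ∧
    ∀ Y : Subgroup G, IsCentralizerLarge Y → IsMulCommutative Y → Nat.card Y ≤ Nat.card Z

theorem IsCDAb.isMinimalCentrallyLarge [Finite G] {Z : Subgroup G} (hZ : IsCDAb Z) :
    IsMinimalCentrallyLarge 𝒞(Z) := by
  have h1 := hZ.1.cl_centralizer_centralizer
  refine ⟨isCentrallyLarge_iff.2 ⟨hZ.1.cl_centralizer, ?_⟩, fun R hR hR' => ?_⟩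
  · rw [h1]; exact isMulCommutative_iff_le_centralizer.1 hZ.2.1
  · have h2 : Z ≤ 𝒞(R) := h1 ▸ cent_mono hR
    have h3 := eq_of_le_of_card_ge h2 (hZ.2.2 _ hR'.cl_large.cl_centralizer hR'.cl_comm)
    rw [h3, hR'.cl_large.cl_centralizer_centralizer]

theorem exists_isCDAb (G : Type*) [Group G] [Finite G] : ∃ Z : Subgroup G, IsCDAb Z := by
  obtain ⟨Q, hQ⟩ := exists_isCentrallyLarge G
  obtain ⟨Z, hZ, hmax⟩ := Set.exists_max_image
    {A : Subgroup G | IsCentralizerLarge A ∧ IsMulCommutative A}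
    (fun A => Nat.card A) (Set.toFinite _) ⟨𝒞(Q), hQ.cl_large.cl_centralizer, hQ.cl_comm⟩
  exact ⟨Z, hZ.1, hZ.2, fun Y h1 h2 => hmax Y ⟨h1, h2⟩⟩

theorem IsCDAb.cj {Z : Subgroup G} (hZ : IsCDAb Z) (g : G) : IsCDAb (cj g Z) := by
  refine ⟨hZ.1.cl_conj g, ?_, fun Y h1 h2 => ?_⟩
  · have := hZ.2.1
    exact map_isMulCommutative _ _
  · rw [card_cj]; exact hZ.2.2 Y h1 h2

/-- The replacement step. -/
theorem clrep_step [Finite G] {p : ℕ} [Fact p.Prime] (hG : IsPGroup p G) {Z T : Subgroup G}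
    (hZ : IsCDAb Z)
    (hT : (IsCentralizerLarge T ∧ IsMulCommutative T) ∨ T ∈ maxAbelianSubgroups G)
    (hn : ¬ T ≤ 𝒩(Z)) :
    ∃ (M D : Subgroup G) (x : G), IsCDAb M ∧ D ≤ Z ∧ D ≤ M ∧ D ≠ Z ∧ (∀ z ∈ Z, ⁅z, x⁆ ∈ M) ∧
      ∀ a ∈ Z, ∀ b ∈ Z, a⁻¹ * b ∈ D ↔ ⁅a, x⁆⁻¹ * ⁅b, x⁆ ∈ D := by
  have hZc := isMulCommutative_iff_le_centralizer.1 hZ.2.1
  have hTc : T ≤ 𝒞(T) := isMulCommutative_iff_le_centralizer.1 (hT.elim (·.2) (·.1))
  have hQ := hZ.isMinimalCentrallyLarge.1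
  have hL : ((Z ⊔ T : Subgroup G) : Set G) = (Z : Set G) * (T : Set G) := by
    rcases hT with hT | hT
    · exact hZ.1.cl_coe_sup hT.1
    · have h := cl_centralizer_inf_maxAbelian hQ hT
      rw [hZ.1.cl_centralizer_centralizer] at h
      rw [← eq_sup_of_coe_eq_setMul h, h]
  set L := Z ⊔ T with hLdef
  set H := L ⊓ 𝒩(Z) with hH
  have hZH : Z ≤ H := le_inf le_sup_left le_normalizer
  have hHL : H < L := lt_of_le_of_ne inf_le_left fun h =>
    hn (le_sup_right.trans (h.ge.trans inf_le_right))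
  obtain ⟨y, ⟨hyL, hyN⟩, hyH⟩ :=
    SetLike.exists_of_lt (CL.Grp.lt_inf_normalizer_pGroup (hG.to_subgroup L) hHL)
  have hy' : y ∈ (Z : Set G) * (T : Set G) := hL ▸ hyL
  obtain ⟨z₀, hz₀, x, hxT, rfl⟩ := hy'
  have hxL : x ∈ L := mem_sup_right hxT
  have hxH : x ∈ 𝒩(H) := by
    have := mul_mem (inv_mem (le_normalizer (hZH hz₀))) hyN
    simpa using this
  have hxZ : x ∉ 𝒩(Z) := fun h => hyH (mul_mem (hZH hz₀) ⟨hxL, h⟩)
  have hXT : zpowers x ≤ T := zpowers_le.2 hxT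
  have hXH : zpowers x ≤ 𝒩(H) := zpowers_le.2 hxH
  set S : Set (Subgroup G) := (fun w => cj w Z) '' (zpowers x : Set G) with hS
  have hZS : Z ∈ S := ⟨1, one_mem _, cj_one Z⟩
  have hSab : ∀ W ∈ S, IsCDAb W := by rintro _ ⟨w, -, rfl⟩; exact hZ.cj w
  have hSH : ∀ W ∈ S, W ≤ H := by
    rintro _ ⟨w, hw, rfl⟩; exact cj_le_of_le hZH (hXH hw)
  have hHS : ∀ W ∈ S, H ≤ 𝒩(W) := by
    rintro _ ⟨w, hw, rfl⟩
    change H ≤ 𝒩(cj w Z)
    rw [← cj_norm, ← cj_eq (hXH hw)]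
    exact cj_mono w inf_le_right
  have hScj : ∀ W ∈ S, ∀ w ∈ zpowers x, cj w W ∈ S := by
    rintro _ ⟨w', hw', rfl⟩ w hw
    exact ⟨w * w', mul_mem hw hw', cj_mul _ _ _⟩
  have hLS : ∀ W ∈ S, (L : Set G) = (W : Set G) * (T : Set G) := by
    rintro _ ⟨w, hw, rfl⟩
    apply coe_eq_setMul_of_card (cj_le_of_mem le_sup_left (mem_sup_right (hXT hw))) le_sup_right
    have e : cj w Z ⊓ T = cj w (Z ⊓ T) := by rw [cj_inf, cj_eq (le_normalizer (hXT hw))]
    change Nat.card L * Nat.card (cj w Z ⊓ T : Subgroup G) ≤ Nat.card (cj w Z) * Nat.card T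
    rw [e, card_cj, card_cj, card_mul_card_inf_of_coe_eq hL]
  set N := sSup S with hNdef
  set D := sInf S with hDdef
  have hNl : IsCentralizerLarge N := isCentralizerLarge_sSup (fun W hW => (hSab W hW).1) ⟨Z, hZS⟩
  have hDl : IsCentralizerLarge D := isCentralizerLarge_sInf (fun W hW => (hSab W hW).1) ⟨Z, hZS⟩
  have hZN : Z ≤ N := le_sSup hZS
  have hDZ : D ≤ Z := sInf_le hZS
  have hNH : N ≤ H := sSup_le hSH
  have hNL : N ≤ L := hNH.trans inf_le_left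
  have hNS : ∀ W ∈ S, (N : Set G) = (W : Set G) * ((T ⊓ N : Subgroup G) : Set G) := by
    intro W hW
    rw [← inf_coe_eq_setMul_left (hLS W hW) (le_sSup hW), inf_eq_right.2 hNL]
  have hDC : D ≤ 𝒞(N) := le_cent_sSup fun W hW =>
    (sInf_le hW).trans (isMulCommutative_iff_le_centralizer.1 (hSab W hW).2.1)
  have hND : ∀ a ∈ N, ∀ b ∈ N, ⁅a, b⁆ ∈ D := by
    intro a ha b hb
    rw [hDdef, mem_sInf]
    intro W hW
    have ha' : a ∈ (W : Set G) * ((T ⊓ N : Subgroup G) : Set G) := hNS W hW ▸ ha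
    have hb' : b ∈ (W : Set G) * ((T ⊓ N : Subgroup G) : Set G) := hNS W hW ▸ hb
    obtain ⟨a1, ha1, s, hs, rfl⟩ := ha'
    obtain ⟨b1, hb1, t, ht, rfl⟩ := hb'
    have hst : s * t = t * s := comm_of_mem (hTc ht.1) hs.1
    have hsW := hHS W hW (hNH hs.2)
    have htW := hHS W hW (hNH ht.2)
    have : ⁅a1 * s, b1 * t⁆ = a1 * (s * b1 * s⁻¹) * (t * a1⁻¹ * t⁻¹) * b1⁻¹ := by
      rw [commutatorElement_def]
      calc a1 * s * (b1 * t) * (a1 * s)⁻¹ * (b1 * t)⁻¹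
          = a1 * (s * b1 * s⁻¹) * (s * t) * s⁻¹ * a1⁻¹ * t⁻¹ * b1⁻¹ := by group
        _ = _ := by rw [hst]; group
    change ⁅a1 * s, b1 * t⁆ ∈ W
    rw [this]
    exact mul_mem (mul_mem (mul_mem ha1 (conj_mem hsW hb1)) (conj_mem htW (inv_mem ha1))) (inv_mem hb1)
  have hNc : ∀ a ∈ N, ∀ b ∈ N, ∀ c ∈ N, Commute c ⁅a, b⁆ := fun a ha b hb c hc =>
    comm_of_mem (hDC (hND a ha b hb)) hc
  have hZND : N ⊓ 𝒞(N) ≤ D := by
    refine le_sInf fun W hW => ?_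
    have h1 : IsMulCommutative (W ⊔ (N ⊓ 𝒞(N)) : Subgroup G) :=
      isMulCommutative_sup (hSab W hW).2.1 (isMulCommutative_inf_centralizer N)
        (le_centralizer_iff.1 (inf_le_right.trans (cent_mono (le_sSup hW))))
    have h2 := (hSab W hW).2.2 _ ((hSab W hW).1.cl_sup (hNl.cl_inf hNl.cl_centralizer)) h1
    rw [eq_of_le_of_card_ge le_sup_left h2]
    exact le_sup_right
  have hxD : x ∈ 𝒩(D) := by
    apply mem_norm_of_cj_le
    refine le_sInf fun W hW => ?_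
    rw [cj_le_iff]
    exact sInf_le (hScj W hW _ (inv_mem (mem_zpowers x)))
  have hxN : ∀ z ∈ Z, x * z * x⁻¹ ∈ N := fun z hz =>
    (le_sSup (hScj Z hZS x (mem_zpowers x)) : cj x Z ≤ N) (conj_mem_cj x hz)
  have hcN : ∀ z ∈ Z, ⁅z, x⁆ ∈ N := by
    intro z hz
    have : ⁅z, x⁆ = z * (x * z * x⁻¹)⁻¹ := by rw [commutatorElement_def]; group
    rw [this]
    exact mul_mem (hZN hz) (inv_mem (hxN z hz))
  have hker : ∀ z ∈ Z, z ∈ D ↔ ⁅z, x⁆ ∈ D := by
    intro z hz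
    have e : ⁅z, x⁆ = z * (x * z * x⁻¹)⁻¹ := by rw [commutatorElement_def]; group
    constructor
    · intro h
      rw [e]
      exact mul_mem h (inv_mem (conj_mem hxD h))
    · intro h
      have h1 : x ∈ 𝒩(D ⊔ zpowers z) := by
        apply mem_norm_of_cj_le
        rw [cj_sup, cj_eq hxD]
        refine sup_le le_sup_left ?_
        rw [MonoidHom.map_zpowers, zpowers_le]
        have : (MulAut.conj x).toMonoidHom z = ⁅z, x⁆⁻¹ * z := by
          rw [e]; simp [mul_assoc]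
        rw [this]
        exact mul_mem_sup (inv_mem h) (mem_zpowers z)
      have h2 : D ⊔ zpowers z ≤ D := by
        refine le_sInf ?_
        rintro _ ⟨w, hw, rfl⟩
        rw [← cj_eq (zpowers_le.2 h1 hw)]
        exact cj_mono w (sup_le hDZ (zpowers_le.2 hz))
      exact h2 (mem_sup_right (mem_zpowers z))
  have hiff : ∀ a ∈ Z, ∀ b ∈ Z, a⁻¹ * b ∈ D ↔ ⁅a, x⁆⁻¹ * ⁅b, x⁆ ∈ D := by
    intro a ha b hb
    rw [hker _ (mul_mem (inv_mem ha) hb)]
    have e : ⁅a, x⁆⁻¹ * ⁅b, x⁆ = (x * a * x⁻¹) * ⁅a⁻¹ * b, x⁆ * (x * a * x⁻¹)⁻¹ := by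
      simp only [commutatorElement_def]; group
    have hn : x * a * x⁻¹ ∈ 𝒩(D) := cent_le_norm D (le_centralizer_iff.1 hDC (hxN a ha))
    rw [e]
    exact mem_normalizer_iff.1 hn _
  set M := closure {c | ∃ z ∈ Z, c = ⁅z, x⁆} ⊔ D with hM
  have hMN : M ≤ N := sup_le ((closure_le _).2 (by rintro _ ⟨z, hz, rfl⟩; exact hcN z hz))
    (hDZ.trans hZN)
  have hcM : ∀ z ∈ Z, ⁅z, x⁆ ∈ M := fun z hz => mem_sup_left (subset_closure ⟨z, hz, rfl⟩)
  have hDc : IsMulCommutative D := isMulCommutative_of_le hZ.2.1 hDZ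
  have hMc : IsMulCommutative M := by
    refine isMulCommutative_sup ?_ hDc
      (le_centralizer_iff.1 (hDC.trans (cent_mono (le_sup_left.trans hMN))))
    apply isMulCommutative_closure
    rintro _ ⟨u, hu, rfl⟩ _ ⟨v, hv, rfl⟩
    have h1 : x * u * x⁻¹ ∈ (Z : Set G) * ((T ⊓ N : Subgroup G) : Set G) := hNS Z hZS ▸ hxN u hu
    have h2 : x * v * x⁻¹ ∈ (Z : Set G) * ((T ⊓ N : Subgroup G) : Set G) := hNS Z hZS ▸ hxN v hv
    obtain ⟨u', hu', s, hs, e1⟩ := h1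
    obtain ⟨v', hv', t, ht, e2⟩ := h2
    exact clrep_commute hNc (hZN hu) (hZN hv) (hZN hu') (hZN hv') hs.2 ht.2 e1.symm e2.symm
      (comm_of_mem (hTc hs.1) hxT) (comm_of_mem (hTc ht.1) hxT) (comm_of_mem (hZc hv) hu)
      (comm_of_mem (hZc hv') hu) (comm_of_mem (hZc hv) hu') (comm_of_mem (hZc hv') hu')
      (comm_of_mem (hTc ht.1) hs.1)
  have hMZ : Nat.card Z ≤ Nat.card M := by
    have := relIndex_le_of_map (D := D) (fun z => ⁅z, x⁆) hcM hiff
    rw [← CL.Grp.card_mul_relIndex hDZ, ← CL.Grp.card_mul_relIndex (le_sup_right : D ≤ M)]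
    exact Nat.mul_le_mul_left _ this
  have hZTD : Z ⊓ T ≤ D := by
    refine le_sInf ?_
    rintro _ ⟨w, hw, rfl⟩
    rw [← cj_eq_of_mem_cent (cent_mono inf_le_right (hTc (hXT hw)) : w ∈ 𝒞(Z ⊓ T))]
    exact cj_mono w inf_le_left
  have hTND : T ⊓ N ≤ 𝒞(D) := le_centralizer_iff.1 (hDC.trans (cent_mono inf_le_right))
  have hTNc : IsMulCommutative ((T ⊓ N) ⊔ D : Subgroup G) :=
    isMulCommutative_sup (isMulCommutative_of_le (hT.elim (·.2) (·.1)) inf_le_left) hDc hTND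
  have hsize : Nat.card ((T ⊓ N) ⊔ D : Subgroup G) ≤ Nat.card Z := by
    rcases hT with hT | hT
    · exact hZ.2.2 _ ((hT.1.cl_inf hNl).cl_sup hDl) hTNc
    · obtain ⟨-, -, h3⟩ := cl_maxAbelian hQ hT
      rw [hZ.1.cl_centralizer_centralizer] at h3
      have hQT : 𝒞(Z) ⊓ T ≤ 𝒞(N) := by
        refine le_cent_sSup ?_
        rintro _ ⟨w, hw, rfl⟩
        change 𝒞(Z) ⊓ T ≤ 𝒞(cj w Z)
        rw [← cj_cent, ← cj_eq_of_mem_cent (cent_mono inf_le_right (hTc (hXT hw)) : w ∈ 𝒞(𝒞(Z) ⊓ T))]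
        exact cj_mono w inf_le_left
      have hle : (T ⊓ N) ⊔ D ≤ N := sup_le inf_le_right (hDZ.trans hZN)
      have h4 := h3.2 _ (isMulCommutative_sup (isMulCommutative_of_le hT.1 inf_le_right) hTNc
        (hQT.trans (cent_mono hle)))
      have h5 := CL.Grp.card_sup_mul_card_inf (H := 𝒞(Z) ⊓ T) (K := (T ⊓ N) ⊔ D)
        (le_normalizer_of_le_centralizer (hQT.trans (cent_mono hle)))
      have h6 := CL.Grp.card_sup_mul_card_inf (H := 𝒞(Z) ⊓ T) (K := Z)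
        (le_normalizer_of_le_centralizer inf_le_left)
      have h7 : Nat.card ((𝒞(Z) ⊓ T) ⊓ ((T ⊓ N) ⊔ D) : Subgroup G) ≤
          Nat.card ((𝒞(Z) ⊓ T) ⊓ Z : Subgroup G) :=
        card_le_of_le (le_inf inf_le_left
          ((le_inf (inf_le_right.trans hle) (inf_le_left.trans hQT)).trans (hZND.trans hDZ)))
      have h8 := Nat.mul_le_mul h4 h7
      rw [h5, h6] at h8
      exact Nat.le_of_mul_le_mul_left h8 Nat.card_pos
  have hND2 : Nat.card N * Nat.card D ≤ Nat.card Z * Nat.card Z := by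
    have h1 := card_mul_card_inf_of_coe_eq (hNS Z hZS)
    have h2 := CL.Grp.card_sup_mul_card_inf (H := T ⊓ N) (K := D)
      (le_normalizer_of_le_centralizer hTND)
    have h3 : T ⊓ N ⊓ D = Z ⊓ (T ⊓ N) := by
      apply le_antisymm
      · exact le_inf (inf_le_right.trans hDZ) inf_le_left
      · exact le_inf inf_le_right ((inf_le_inf_left Z inf_le_left).trans hZTD)
    rw [h3] at h2
    have hp : 0 < Nat.card (Z ⊓ (T ⊓ N) : Subgroup G) := Nat.card_pos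
    refine Nat.le_of_mul_le_mul_right ?_ hp
    calc Nat.card N * Nat.card D * Nat.card (Z ⊓ (T ⊓ N) : Subgroup G)
        = Nat.card Z * (Nat.card (T ⊓ N : Subgroup G) * Nat.card D) := by
          rw [← mul_assoc, ← h1]; ring
      _ = Nat.card Z * Nat.card ((T ⊓ N) ⊔ D : Subgroup G) * Nat.card (Z ⊓ (T ⊓ N) : Subgroup G) := by
          rw [← h2]; ring
      _ ≤ _ := Nat.mul_le_mul_right _ (Nat.mul_le_mul_left _ hsize)
  have hMl : IsCentralizerLarge M := by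
    apply isCentralizerLarge_of_le
    rw [← isCentralizerLarge_iff.1 hNl]
    unfold cdm
    have h1 := card_mul_card_le (L := 𝒞(M)) (isMulCommutative_iff_le_centralizer.1 hMc)
      (cent_mono hMN)
    have h2 : Nat.card (M ⊓ 𝒞(N) : Subgroup G) ≤ Nat.card D :=
      card_le_of_le ((inf_le_inf_right _ hMN).trans hZND)
    have hp : 0 < Nat.card D := Nat.card_pos
    refine Nat.le_of_mul_le_mul_right ?_ hp
    calc Nat.card N * Nat.card 𝒞(N) * Nat.card D = Nat.card N * Nat.card D * Nat.card 𝒞(N) := by ring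
      _ ≤ Nat.card M * Nat.card M * Nat.card 𝒞(N) :=
          Nat.mul_le_mul_right _ (hND2.trans (Nat.mul_le_mul hMZ hMZ))
      _ = Nat.card M * (Nat.card M * Nat.card 𝒞(N)) := by ring
      _ ≤ Nat.card M * (Nat.card 𝒞(M) * Nat.card D) :=
          Nat.mul_le_mul_left _ (h1.trans (Nat.mul_le_mul_left _ h2))
      _ = _ := by ring
  refine ⟨M, D, x, ⟨hMl, hMc, fun Y h1 h2 => (hZ.2.2 Y h1 h2).trans hMZ⟩, hDZ, le_sup_right, ?_,
    hcM, hiff⟩
  intro h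
  exact hxZ (h ▸ hxD)

/-- There is an abelian member of the Chermak-Delgado lattice of largest order normalized by all abelian
members of the lattice and by all abelian subgroups of largest order. -/
theorem exists_isCDAb_normalized [Finite G] {p : ℕ} [Fact p.Prime] (hG : IsPGroup p G) :
    ∃ Z : Subgroup G, IsCDAb Z ∧ ∀ T : Subgroup G,
      ((IsCentralizerLarge T ∧ IsMulCommutative T) ∨ T ∈ maxAbelianSubgroups G) → T ≤ 𝒩(Z) := by
  obtain ⟨k, hk⟩ := hG.isNilpotent.nilpotent'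
  obtain ⟨Z, hZ, hmax⟩ := Set.exists_max_image {Z : Subgroup G | IsCDAb Z}
    (fun Z => ∏ j ∈ Finset.range (k + 1), Nat.card (Z ⊓ Subgroup.upperCentralSeries G j : Subgroup G))
    (Set.toFinite _) (exists_isCDAb G)
  refine ⟨Z, hZ, fun T hT => ?_⟩
  by_contra hn
  obtain ⟨M, D, x, hM, hDZ, hDM, hne, hc, hiff⟩ := clrep_step hG hZ hT hn
  refine absurd (hmax M hM) (not_le.2 ?_)
  have hle : ∀ j, Nat.card (Z ⊓ Subgroup.upperCentralSeries G j : Subgroup G) ≤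
      Nat.card (M ⊓ Subgroup.upperCentralSeries G j : Subgroup G) := by
    intro j
    have h1 := relIndex_le_of_map (D := D) (X := Z ⊓ Subgroup.upperCentralSeries G j)
      (Y := M ⊓ Subgroup.upperCentralSeries G j) (fun z => ⁅z, x⁆) (fun a ha => ⟨hc a ha.1, by
        have : ⁅a, x⁆ = a * (x * a⁻¹ * x⁻¹) := by rw [commutatorElement_def]; group
        change ⁅a, x⁆ ∈ Subgroup.upperCentralSeries G j
        rw [this]
        exact mul_mem ha.2 (Normal.conj_mem inferInstance _ (inv_mem ha.2) x)⟩)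
      (fun a ha b hb => hiff a ha.1 b hb.1)
    rw [← CL.Grp.card_inf_mul_relIndex D (Z ⊓ _), ← CL.Grp.card_inf_mul_relIndex D (M ⊓ _),
      ← inf_assoc, ← inf_assoc, inf_eq_left.2 hDZ, inf_eq_left.2 hDM]
    exact Nat.mul_le_mul_left _ h1
  have hex : ∃ j, ¬ Z ⊓ Subgroup.upperCentralSeries G j ≤ D :=
    ⟨k, by rw [hk, inf_top_eq]; exact fun h => hne (le_antisymm hDZ h)⟩
  classical
  have hj := Nat.find_spec hex
  have hjk : Nat.find hex ≤ k :=
    Nat.find_min' hex (by rw [hk, inf_top_eq]; exact fun h => hne (le_antisymm hDZ h))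
  obtain ⟨i, hi⟩ : ∃ i, Nat.find hex = i + 1 := by
    refine Nat.exists_eq_succ_of_ne_zero fun h => hj ?_
    rw [h, Subgroup.upperCentralSeries_zero, inf_bot_eq]; exact bot_le
  have hi' : Z ⊓ Subgroup.upperCentralSeries G i ≤ D := by
    by_contra h
    exact Nat.find_min hex (by omega) h
  rw [hi] at hj
  obtain ⟨z, hz, hzD⟩ := SetLike.not_le_iff_exists.1 hj
  refine Finset.prod_lt_prod (fun _ _ => Nat.card_pos) (fun j _ => hle j)
    ⟨i, Finset.mem_range.2 (by omega), ?_⟩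
  have hlt : Z ⊓ Subgroup.upperCentralSeries G i < M ⊓ Subgroup.upperCentralSeries G i := by
    refine lt_of_le_of_ne (le_inf (hi'.trans hDM) inf_le_right) fun h => hzD ?_
    have h1 : ⁅z, x⁆ ∈ Z ⊓ Subgroup.upperCentralSeries G i :=
      h ▸ ⟨hc z hz.1, Subgroup.mem_upperCentralSeries_succ_iff.1 hz.2 x⟩
    have := (hiff 1 (one_mem _) z hz.1).2 (by simpa using hi' h1)
    simpa using this
  exact lt_of_le_of_ne (card_le_of_le hlt.le) fun h => hlt.ne (eq_of_le_of_card_ge hlt.le h.ge)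

theorem exists_mcl_normalized [Finite G] {p : ℕ} [Fact p.Prime] (hG : IsPGroup p G) :
    ∃ Q : Subgroup G, IsMinimalCentrallyLarge Q ∧ thompsonSubgroupA G ≤ 𝒩(Q) ∧
      minimalCentrallyLargeJoin G ≤ 𝒩(Q) := by
  obtain ⟨Z, hZ, h⟩ := exists_isCDAb_normalized hG
  have hQ := hZ.isMinimalCentrallyLarge
  refine ⟨𝒞(Z), hQ, sSup_le fun A hA => le_norm_cent (h A (Or.inr hA)), sSup_le fun R hR => ?_⟩
  rw [← (mcl_eq hR hQ.1).1]
  exact sup_le (le_norm_of_le inf_le_right)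
    (le_norm_cent (h _ (Or.inl ⟨hR.1.cl_large.cl_centralizer, hR.1.cl_comm⟩)))

end CL.Even
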