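/-
The subgroup `D*(S)` of Glauberman and Solomon, and Thompson's replacement lemma for abelian subgroups of
largest order.
-/
import Cfsg.Agent.Even.CentLarge
import Cfsg.Agent.Even.CharP
import Cfsg.Agent.Grp.PGroupBasic

set_option autoImplicit false
open Cfsg Subgroup CL.Grp
open scoped Pointwise commutatorElement

namespace CL.Even

variable {G : Type*} [Group G] {p : ℕ}

theorem relIndex_le_of_map' [Finite G] {D E X Y : Subgroup G} (f : G → G) (hf : ∀ a ∈ X, f a ∈ Y)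
    (h : ∀ a ∈ X, ∀ b ∈ X, (f a)⁻¹ * f b ∈ E → a⁻¹ * b ∈ D) : D.relIndex X ≤ E.relIndex Y := by
  rw [relIndex, relIndex, index, index]
  refine Nat.card_le_card_of_injective
    (fun q => (((⟨f (q.out : X), hf _ q.out.2⟩ : Y)) : Y ⧸ E.subgroupOf Y)) ?_
  intro a b hab
  rw [← a.out_eq', ← b.out_eq']
  exact QuotientGroup.eq.2 (h _ a.out.2 _ b.out.2 ((QuotientGroup.eq (s := E.subgroupOf Y)).1 hab))

/-- Thompson's replacement lemma -/
theorem thompson_replacement_abelian [Finite G] {B M : Subgroup G} (hB : B ∈ maxAbelianSubgroups G)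
    {x : G} (hM : IsMulCommutative M) (hx : M = closure {c | ∃ b ∈ B, c = ⁅x, b⁆}) :
    M ⊔ (B ⊓ 𝒞(M)) ∈ maxAbelianSubgroups G := by
  have hBc := isMulCommutative_iff_le_centralizer.1 hB.1
  have hMc := isMulCommutative_iff_le_centralizer.1 hM
  have hmem : ∀ b ∈ B, ⁅x, b⁆ ∈ M := fun b hb => hx ▸ subset_closure ⟨b, hb, rfl⟩
  refine ⟨CL.Even.isMulCommutative_sup hM (isMulCommutative_of_le hB.1 inf_le_left)
    (le_centralizer_iff.1 inf_le_right), fun A hA => (hB.2 A hA).trans ?_⟩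
  have h1 : (B ⊓ 𝒞(M)).relIndex B ≤ (M ⊓ B).relIndex M := by
    refine relIndex_le_of_map' (fun b => ⁅x, b⁆) hmem fun u hu v hv h => ?_
    have hw : u⁻¹ * v ∈ B := mul_mem (inv_mem hu) hv
    refine ⟨hw, ?_⟩
    have h2 : x * (u⁻¹ * v) * x⁻¹ ∈ B := by
      have := mul_mem (mul_mem (inv_mem hu) h.2) hv
      have e : u⁻¹ * (⁅x, u⁆⁻¹ * ⁅x, v⁆) * v = x * (u⁻¹ * v) * x⁻¹ := by
        simp only [commutatorElement_def]; group
      rwa [e] at this
    have h3 : x * (u⁻¹ * v) * x⁻¹ ∈ 𝒞(M) := by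
      rw [hx, centralizer_closure, mem_centralizer_iff]
      rintro _ ⟨b, hb, rfl⟩
      have a1 := comm_of_mem (hBc h2) (inv_mem hb)
      have a2 := comm_of_mem (hBc hw) hb
      calc ⁅x, b⁆ * (x * (u⁻¹ * v) * x⁻¹) = x * b * x⁻¹ * (b⁻¹ * (x * (u⁻¹ * v) * x⁻¹)) := by
            rw [commutatorElement_def]; group
        _ = x * (b * (u⁻¹ * v)) * x⁻¹ * b⁻¹ := by rw [a1]; group
        _ = _ := by rw [a2, commutatorElement_def]; group
    have e : u⁻¹ * v = ⁅x, u⁻¹ * v⁆⁻¹ * (x * (u⁻¹ * v) * x⁻¹) := by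
      simp only [commutatorElement_def]; group
    change u⁻¹ * v ∈ 𝒞(M)
    rw [e]
    exact mul_mem (inv_mem (hMc (hmem _ hw))) h3
  have h2 := card_mul_card_le (le_sup_left : M ≤ M ⊔ (B ⊓ 𝒞(M))) le_sup_right
  have h3 : Nat.card (M ⊓ (B ⊓ 𝒞(M)) : Subgroup G) ≤ Nat.card (M ⊓ B : Subgroup G) :=
    card_le_of_le (inf_le_inf_left M inf_le_left)
  have h4 := card_mul_relIndex (inf_le_left : M ⊓ B ≤ M)
  have h5 := card_mul_relIndex (inf_le_left : B ⊓ 𝒞(M) ≤ B)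
  have hp : 0 < Nat.card (M ⊓ B : Subgroup G) := Nat.card_pos
  refine Nat.le_of_mul_le_mul_right ?_ hp
  calc Nat.card B * Nat.card (M ⊓ B : Subgroup G)
      = Nat.card (M ⊓ B : Subgroup G) * (B ⊓ 𝒞(M)).relIndex B * Nat.card (B ⊓ 𝒞(M) : Subgroup G) := by
        rw [← h5]; ring
    _ ≤ Nat.card M * Nat.card (B ⊓ 𝒞(M) : Subgroup G) := by
        rw [← h4]; exact Nat.mul_le_mul_right _ (Nat.mul_le_mul_left _ h1)
    _ ≤ _ := h2.trans (Nat.mul_le_mul_left _ h3)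

theorem mem_norm_of_comm_mem [Finite G] {B : Subgroup G} {x : G} (h : ∀ b ∈ B, ⁅x, b⁆ ∈ B) :
    x ∈ 𝒩(B) := by
  apply mem_norm_of_cj_le
  rintro _ ⟨b, hb, rfl⟩
  have : (MulAut.conj x).toMonoidHom b = ⁅x, b⁆ * b := by simp [commutatorElement_def]
  rw [this]
  exact mul_mem (h b hb) hb

theorem class_two_of {A X C : Subgroup G} (hA : A ≤ 𝒞(A)) (hX : X ≤ 𝒞(X)) (h1 : C ≤ 𝒞(A))
    (h2 : C ≤ 𝒞(X)) (h3 : ⁅X, A⁆ ≤ C) : ⁅⁅A ⊔ X, A ⊔ X⁆, A ⊔ X⁆ = ⊥ := by
  have hA' : A ≤ 𝒩(C) := (le_centralizer_iff.1 h1).trans (cent_le_norm C)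
  have hX' : X ≤ 𝒩(C) := (le_centralizer_iff.1 h2).trans (cent_le_norm C)
  have h4 : ⁅A ⊔ X, A ⊔ X⁆ ≤ C := by
    refine commutator_sup_le hA' hX' (commutator_sup_le' hA' hX' ?_ h3) (commutator_sup_le' hA' hX' ?_ ?_)
    · rw [commutator_eq_bot_iff'.2 hA]; exact bot_le
    · rw [Subgroup.commutator_comm]; exact h3
    · rw [commutator_eq_bot_iff'.2 hX]; exact bot_le
  rw [commutator_eq_bot_iff_le_centralizer, cent_sup]
  exact h4.trans (le_inf h1 h2)

theorem zpowers_le_cent_self (x : G) : zpowers x ≤ 𝒞(zpowers x) :=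
  isMulCommutative_iff_le_centralizer.1 inferInstance

/-- the family behind `D*(S)`, in the ambient group -/
def DFam (S A : Subgroup G) : Prop :=
  A ≤ S ∧ A ≤ 𝒞(A) ∧ ∀ x ∈ S, ⁅⁅A ⊔ zpowers x, A ⊔ zpowers x⁆, A ⊔ zpowers x⁆ = ⊥ → x ∈ 𝒞(A)

theorem dFam_top {A : Subgroup G} : DFam ⊤ A ↔ A ∈ dStarFamily G :=
  ⟨fun h => ⟨isMulCommutative_iff_le_centralizer.2 h.2.1, fun x hx => h.2.2 x trivial hx⟩,
    fun h => ⟨le_top, isMulCommutative_iff_le_centralizer.1 h.1, fun x _ hx => h.2 x hx⟩⟩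

theorem dFam_map_iff {H : Type*} [Group H] {φ : H →* G} (hφ : Function.Injective φ)
    {S A : Subgroup H} : DFam (S.map φ) (A.map φ) ↔ DFam S A := by
  have e : ∀ x : H, ⁅⁅A.map φ ⊔ zpowers (φ x), A.map φ ⊔ zpowers (φ x)⁆, A.map φ ⊔ zpowers (φ x)⁆ = ⊥ ↔
      ⁅⁅A ⊔ zpowers x, A ⊔ zpowers x⁆, A ⊔ zpowers x⁆ = ⊥ := by
    intro x
    rw [← MonoidHom.map_zpowers, ← Subgroup.map_sup, ← map_commutator, ← map_commutator,
      map_eq_bot_iff_of_injective _ hφ]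
  have e2 : ∀ x : H, φ x ∈ 𝒞(A.map φ) ↔ x ∈ 𝒞(A) := by
    intro x
    simp only [mem_centralizer_iff]
    constructor
    · intro h a ha
      apply hφ
      rw [map_mul, map_mul]
      exact h _ ⟨a, ha, rfl⟩
    · rintro h _ ⟨a, ha, rfl⟩
      rw [← map_mul, ← map_mul, h a ha]
  constructor
  · rintro ⟨h1, h2, h3⟩
    exact ⟨(map_le_map_iff_of_injective hφ).1 h1, fun a ha => (e2 a).1 (h2 ⟨a, ha, rfl⟩),
      fun x hx h => (e2 x).1 (h3 _ ⟨x, hx, rfl⟩ ((e x).2 h))⟩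
  · rintro ⟨h1, h2, h3⟩
    refine ⟨map_mono h1, ?_, ?_⟩
    · rintro _ ⟨a, ha, rfl⟩; exact (e2 a).2 (h2 ha)
    · rintro _ ⟨x, hx, rfl⟩ h; exact (e2 x).2 (h3 x hx ((e x).1 h))

theorem dStarOf_eq (S : Subgroup G) : dStarOf S = sSup {A | DFam S A} := by
  have e2 : (⊤ : Subgroup S).map S.subtype = S := by rw [← MonoidHom.range_eq_map, range_subtype]
  apply le_antisymm
  · rw [dStarOf, dStar, map_le_iff_le_comap]
    refine sSup_le fun A hA => map_le_iff_le_comap.1 (le_sSup ?_)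
    have := (dFam_map_iff S.subtype_injective).2 (dFam_top.2 hA)
    rwa [e2] at this
  · refine sSup_le fun A hA => ?_
    rw [← map_subgroupOf_eq_of_le hA.1]
    refine map_mono (le_sSup (dFam_top.1 ((dFam_map_iff S.subtype_injective).1 ?_)))
    rwa [e2, map_subgroupOf_eq_of_le hA.1]

theorem dStar_eq : dStar G = sSup {A | DFam ⊤ A} := by
  unfold dStar
  congr 1
  ext A
  exact dFam_top.symm

variable [Finite G] [Fact p.Prime]

theorem DFam.le_cent {S A B : Subgroup G} (hA : DFam S A) (hS : IsPGroup p S) (hB : B ≤ S)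
    (hBc : B ≤ 𝒞(B)) (hn : A ≤ 𝒩(B)) : B ≤ 𝒞(A) := by
  by_contra hcon
  obtain ⟨i, h1, h2⟩ := exists_iter_not_le
    (exists_iter_eq_bot (hS.to_le hB) (hS.to_le hA.1) hn) hcon
  obtain ⟨x, hx, hxA⟩ := SetLike.not_le_iff_exists.1 h1
  have hxB : x ∈ B := iter_le hn i hx
  refine hxA (hA.2.2 x (hB hxB) (class_two_of (C := B ⊓ 𝒞(A)) hA.2.1 (zpowers_le_cent_self x)
    inf_le_right (inf_le_left.trans (hBc.trans (cent_mono (zpowers_le.2 hxB)))) (le_inf ?_ ?_)))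
  · exact (commutator_mono (zpowers_le.2 hxB) le_rfl).trans (commutator_le_of_le_norm hn)
  · exact (commutator_mono (zpowers_le.2 hx) le_rfl).trans h2

omit [Finite G] [Fact p.Prime] in
theorem DFam.cj {S A : Subgroup G} (hA : DFam S A) (g : G) : DFam (cj g S) (cj g A) :=
  (dFam_map_iff (MulAut.conj g).injective).2 hA

omit [Finite G] [Fact p.Prime] in
theorem dFam_sSup_of {S : Subgroup G} (h : sSup {A | DFam S A} ≤ 𝒞(sSup {A | DFam S A})) :
    DFam S (sSup {A | DFam S A}) := by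
  refine ⟨sSup_le fun A hA => hA.1, h, fun x hx hc => ?_⟩
  have : zpowers x ≤ 𝒞(sSup {A | DFam S A}) := by
    refine le_cent_sSup fun A hA => zpowers_le.2 (hA.2.2 x hx (le_bot_iff.1 (hc ▸ ?_)))
    have h1 : A ⊔ zpowers x ≤ sSup {A | DFam S A} ⊔ zpowers x := sup_le_sup_right (le_sSup hA) _
    exact commutator_mono (commutator_mono h1 h1) h1
  exact zpowers_le.1 this

theorem dStar_le_of_maximal (hS : IsPGroup p G) {A : Subgroup G} [A.Normal] (hA : IsMulCommutative A)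
    (hc : 𝒞(A) = A) : dStar G ≤ A := by
  rw [dStar_eq]
  refine sSup_le fun B hB => ?_
  rw [← hc]
  exact le_centralizer_iff.1 (hB.le_cent (hS.to_subgroup ⊤) le_top
    (isMulCommutative_iff_le_centralizer.1 hA) le_normalizer_of_normal)

theorem dFam_dStar (hS : IsPGroup p G) : DFam ⊤ (dStar G) := by
  have := hS.isNilpotent
  obtain ⟨A, hn, hA, -, hc⟩ := exists_selfCentralizing_abelian_normal (⊥ : Subgroup G)
  have h1 := dStar_le_of_maximal hS hA hc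
  have h2 := isMulCommutative_iff_le_centralizer.1 (isMulCommutative_of_le hA h1)
  rw [dStar_eq] at h2 ⊢
  exact dFam_sSup_of h2

theorem dFam_dStarOf {S : Subgroup G} (hS : IsPGroup p S) : DFam S (dStarOf S) := by
  have e2 : (⊤ : Subgroup S).map S.subtype = S := by rw [← MonoidHom.range_eq_map, range_subtype]
  have := (dFam_map_iff S.subtype_injective).2 (dFam_dStar hS)
  rwa [e2] at this

omit [Finite G] [Fact p.Prime] in
theorem norm_le_norm_dStarOf (S : Subgroup G) : 𝒩(S) ≤ 𝒩(dStarOf S) := by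
  apply le_norm_of_cj_le
  intro g hg
  rw [dStarOf_eq, cj_le_iff]
  refine sSup_le fun A hA => ?_
  rw [← cj_le_iff]
  refine le_sSup ?_
  have := hA.cj g
  rwa [cj_eq hg] at this

theorem dStar_le_maxAbelian (hS : IsPGroup p G) {B : Subgroup G} (hB : B ∈ maxAbelianSubgroups G) :
    dStar G ≤ B := by
  have hD := dFam_dStar hS
  set D := dStar G with hDdef
  have hDn : ⊤ ≤ 𝒩(D) := by
    have := norm_le_norm_dStarOf (⊤ : Subgroup G)
    rw [dStarOf_eq, ← dStar_eq] at this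
    exact le_normalizer.trans this
  by_contra hcon
  obtain ⟨B, ⟨hB, hDB⟩, hmax⟩ := Set.exists_max_image
    {B : Subgroup G | B ∈ maxAbelianSubgroups G ∧ ¬ D ≤ B}
    (fun B => Nat.card (B ⊓ D : Subgroup G)) (Set.toFinite _) ⟨B, hB, hcon⟩
  have hBc := isMulCommutative_iff_le_centralizer.1 hB.1
  have hnn : ¬ D ≤ 𝒩(B) := fun h => hDB (by
    rw [← centralizer_eq_of_mem_maxAbelian hB]
    exact le_centralizer_iff.1 (hD.le_cent (hS.to_subgroup ⊤) le_top hBc h))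
  obtain ⟨i, h1, h2⟩ := exists_iter_not_le
    (exists_iter_eq_bot (hS.to_subgroup D) (hS.to_subgroup B) (le_top.trans hDn)) hnn
  obtain ⟨x, hx, hxB⟩ := SetLike.not_le_iff_exists.1 h1
  have hxD : x ∈ D := iter_le (le_top.trans hDn) i hx
  set M := closure {c | ∃ b ∈ B, c = ⁅x, b⁆} with hM
  have hMD : M ≤ D := (closure_le _).2 (by
    rintro _ ⟨b, hb, rfl⟩
    exact commutator_le_of_le_norm (le_top.trans hDn) (commutator_mem_commutator hxD hb))
  have hMN : M ≤ 𝒩(B) := (closure_le _).2 (by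
    rintro _ ⟨b, hb, rfl⟩
    exact h2 (commutator_mem_commutator hx hb))
  have h3 := thompson_replacement_abelian hB
    (isMulCommutative_iff_le_centralizer.2 (hMD.trans (hD.2.1.trans (cent_mono hMD)))) hM
  have h4 : ¬ D ≤ M ⊔ (B ⊓ 𝒞(M)) := fun h => hnn (h.trans (sup_le hMN (le_norm_of_le inf_le_left)))
  have h5 : B ⊓ D ≤ (M ⊔ (B ⊓ 𝒞(M))) ⊓ D := le_inf (le_sup_of_le_right
    (inf_le_inf_left B (hD.2.1.trans (cent_mono hMD)))) inf_le_right
  have h6 := eq_of_le_of_card_ge h5 (hmax _ ⟨h3, h4⟩)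
  refine hxB (mem_norm_of_comm_mem fun b hb => ?_)
  have h7 : ⁅x, b⁆ ∈ M := subset_closure ⟨b, hb, rfl⟩
  have : ⁅x, b⁆ ∈ B ⊓ D := h6 ▸ ⟨mem_sup_left h7, hMD h7⟩
  exact this.1

end CL.Even
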