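/-
Shult's criterion: an isolated p-element centralizing the p'-subgroups it normalizes is central.
-/
import Cfsg.Agent.Even.Isolated2
import Cfsg.Agent.Grp.MinNormal

set_option autoImplicit false
open Cfsg
open scoped Pointwise

namespace CL.Even

universe u

/-- If every proper subgroup containing the isolated `p`-element `x` centralizes it, then `G` has a
normal subgroup `N` with a normal `p`-complement and `G = N C_G(x)`, `N ∩ C_G(x) = Z(G)`. -/
theorem IsIsolated.exists_normal_of_proper_le {G : Type*} [Group G] [Finite G] {p : ℕ}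
    [Fact p.Prime] {x : G} (hxp : IsPGroup p (Subgroup.zpowers x)) (hiso : IsIsolated x)
    (hsub : ∀ H : Subgroup G, H ≠ ⊤ → x ∈ H → H ≤ Subgroup.centralizer ({x} : Set G)) :
    ∃ N : Subgroup G, N.Normal ∧ HasNormalPComplement p N ∧
      N ⊓ Subgroup.centralizer ({x} : Set G) = Subgroup.center G ∧
      N ⊔ Subgroup.centralizer ({x} : Set G) = ⊤ := by
  obtain ⟨N, hN, -, hinf, hsup⟩ := CL.Char.frobenius_wielandt
    (H := Subgroup.centralizer ({x} : Set G)) (M := Subgroup.center G)
    (Subgroup.center_le_centralizer _)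
    (fun h _ m hm => (inferInstance : (Subgroup.center G).Normal).conj_mem m hm h) (by
      intro g hg h hh hgh
      by_contra hZ
      have hD : Subgroup.centralizer ({h} : Set G) ≠ ⊤ := fun e => hZ
        (Subgroup.centralizer_eq_top_iff_subset.mp e (Set.mem_singleton h))
      have h1 : x ∈ Subgroup.centralizer ({h} : Set G) :=
        Subgroup.mem_centralizer_singleton_iff.mpr
          (Subgroup.mem_centralizer_singleton_iff.mp hh).symm
      have h2 : g⁻¹ * x * g⁻¹⁻¹ ∈ Subgroup.centralizer ({h} : Set G) := by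
        rw [Subgroup.mem_centralizer_singleton_iff] at hgh ⊢
        calc g⁻¹ * x * g⁻¹⁻¹ * h = g⁻¹ * (x * (g * h * g⁻¹)) * g := by group
          _ = h * (g⁻¹ * x * g⁻¹⁻¹) := by rw [← hgh]; group
      have h3 := hiso g⁻¹ (Subgroup.mem_centralizer_singleton_iff.mp (hsub _ hD h1 h2)).symm
      exact hg ((Subgroup.inv_mem_iff _).mp (conj_eq_iff_mem_centralizer.mp h3)))
  refine ⟨N, hN, ?_, hinf, hsup⟩
  obtain ⟨S, hS⟩ := hxp.exists_le_sylow
  have hSC := IsIsolated.le_centralizer hiso S.isPGroup' (hS (Subgroup.mem_zpowers x))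
  refine CL.Grp.hasNormalPComplement_of_sylow_le_center
    (CL.Grp.isSylowIn_inf_normal S N).toSylow fun y hy => ?_
  have hy' : (y : G) ∈ (S : Subgroup G) ⊓ N := hy
  have h1 : (y : G) ∈ Subgroup.center G := hinf ▸ ⟨hy'.2, hSC hy'.1⟩
  exact Subgroup.mem_center_iff.mpr fun g => Subtype.ext (Subgroup.mem_center_iff.mp h1 g)

/-- Shult's criterion. -/
theorem IsIsolated.mem_center_of_centralizes {p : ℕ} [Fact p.Prime] (G : Type u) [Group G]
    [Finite G] : ∀ x : G, IsPGroup p (Subgroup.zpowers x) → IsIsolated x →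
      (∀ H : Subgroup G, (Nat.card H).Coprime p → x ∈ Subgroup.normalizer (H : Set G) →
        H ≤ Subgroup.centralizer ({x} : Set G)) → x ∈ Subgroup.center G := by
  refine CL.Grp.induction_on_card (P := fun G _ _ => ∀ x : G, IsPGroup p (Subgroup.zpowers x) →
    IsIsolated x → (∀ H : Subgroup G, (Nat.card H).Coprime p →
      x ∈ Subgroup.normalizer (H : Set G) → H ≤ Subgroup.centralizer ({x} : Set G)) →
        x ∈ Subgroup.center G) ?_ G
  intro G _ _ ih x hxp hiso hb
  have hsub : ∀ H : Subgroup G, H ≠ ⊤ → x ∈ H → H ≤ Subgroup.centralizer ({x} : Set G) := by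
    intro H hH hx y hy
    have hlt : Nat.card H < Nat.card G := by
      rw [← Subgroup.card_top (G := G)]
      exact CL.Grp.card_lt_card_of_lt (lt_top_iff_ne_top.mpr hH)
    have h1 := ih H hlt ⟨x, hx⟩ ?_ (IsIsolated.subgroup hiso hx) ?_
    · exact Subgroup.mem_centralizer_singleton_iff.mpr
        (congrArg Subtype.val (Subgroup.mem_center_iff.mp h1 ⟨y, hy⟩))
    · refine (hxp.comap_subtype (K := H)).to_le (Subgroup.zpowers_le.mpr ?_)
      exact Subgroup.mem_zpowers x
    · intro K hK hxK k hk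
      have := hb (K.map H.subtype) (by rwa [CL.Grp.card_map_subtype])
        (Subgroup.le_normalizer_map H.subtype ⟨_, hxK, rfl⟩) ⟨k, hk, rfl⟩
      exact Subgroup.mem_centralizer_singleton_iff.mpr
        (Subtype.ext (Subgroup.mem_centralizer_singleton_iff.mp this))
  obtain ⟨N, hN, hc, hinf, hsup⟩ := IsIsolated.exists_normal_of_proper_le hxp hiso hsub
  have hK : (pResidual p N).map N.subtype ≤ Subgroup.centralizer ({x} : Set G) := by
    refine hb _ ?_ ?_
    · rw [CL.Grp.card_map_subtype]
      exact CL.Grp.hasNormalPComplement_iff_coprime_pResidual.mp hc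
    · rw [Subgroup.normalizer_eq_top]; trivial
  obtain ⟨S, hS⟩ := hxp.exists_le_sylow
  have hSC := IsIsolated.le_centralizer hiso S.isPGroup' (hS (Subgroup.mem_zpowers x))
  have hNC : N ≤ Subgroup.centralizer ({x} : Set G) := by
    intro n hn
    obtain ⟨a, ha, b, hb, e⟩ := CL.Grp.exists_pResidual_mul_sylow
      (CL.Grp.isSylowIn_inf_normal S N).toSylow ⟨n, hn⟩
    have hb' : (b : G) ∈ (S : Subgroup G) ⊓ N := hb
    rw [show n = a * b from congrArg Subtype.val e]
    exact Subgroup.mul_mem _ (hK ⟨a, ha, rfl⟩) (hSC hb'.1)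
  rw [sup_eq_right.mpr hNC] at hsup
  exact Subgroup.centralizer_eq_top_iff_subset.mp hsup (Set.mem_singleton x)

end CL.Even
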