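import Cfsg.Agent.Loc.Components

/-! The P(G,V)-theorem, part 1: components permuted by an element of order `p`, acting in a ring. -/

set_option autoImplicit false
open Cfsg Subgroup
open scoped commutatorElement Pointwise

namespace CL.Even.PGV

variable {G : Type*} [Group G] {R : Type*} [Ring R]

/-- the elements `g` with `φ g * r = r` -/
def Lst (φ : G →* R) (r : R) : Subgroup G where
  carrier := {g | φ g * r = r}
  one_mem' := by simp
  mul_mem' := fun {a b} (ha : φ a * r = r) (hb : φ b * r = r) => by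
    change φ (a * b) * r = r
    rw [map_mul, mul_assoc, hb, ha]
  inv_mem' := fun {a} (ha : φ a * r = r) => by
    change φ a⁻¹ * r = r
    conv_lhs => rw [← ha]
    rw [← mul_assoc, ← map_mul, inv_mul_cancel, map_one, one_mul]

theorem mem_Lst {φ : G →* R} {r : R} {g : G} : g ∈ Lst φ r ↔ φ g * r = r := Iff.rfl

theorem mem_Lst' {φ : G →* R} {r : R} {g : G} : g ∈ Lst φ r ↔ (φ g - 1) * r = 0 := by
  rw [mem_Lst, sub_mul, one_mul, sub_eq_zero]

theorem conj_mem_Lst {φ : G →* R} {r : R} {d g : G} (hd : Commute (φ d) r) (hg : g ∈ Lst φ r) :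
    d * g * d⁻¹ ∈ Lst φ r := by
  rw [mem_Lst] at hg ⊢
  have h1 : φ d⁻¹ * r = r * φ d⁻¹ := by
    calc φ d⁻¹ * r = φ d⁻¹ * (r * φ d) * φ d⁻¹ := by
          rw [mul_assoc, mul_assoc, ← map_mul, mul_inv_cancel, map_one, mul_one]
      _ = _ := by rw [← hd.eq, ← mul_assoc, ← map_mul, inv_mul_cancel, map_one, one_mul]
  rw [map_mul, map_mul, mul_assoc, h1, mul_assoc, ← mul_assoc (φ g), hg, ← mul_assoc, hd.eq,
    mul_assoc, ← map_mul, mul_inv_cancel, map_one, mul_one]

theorem commute_sub_one {φ : G →* R} {a b : G} (h : Commute a b) : Commute (φ a) (φ b - 1) :=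
  (h.map φ).sub_right (Commute.one_right _)

theorem Lst_symm {φ : G →* R} {a b : G} (h : Commute a b) (hab : a ∈ Lst φ (φ b - 1)) :
    b ∈ Lst φ (φ a - 1) := by
  rw [mem_Lst'] at hab ⊢
  rw [← hab]
  exact (((h.map φ).sub_right (Commute.one_right _)).sub_left (Commute.one_left _)).eq.symm

theorem le_normalizer_of_conj {K N : Subgroup G} (h : ∀ k ∈ K, ∀ n ∈ N, k * n * k⁻¹ ∈ N) :
    K ≤ normalizer (N : Set G) := fun k hk => by
  rw [mem_normalizer_iff]
  refine fun n => ⟨h k hk n, fun hn => ?_⟩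
  have := h k⁻¹ (inv_mem hk) _ hn
  simpa [mul_assoc] using this

/-- a perfect group acting cubically trivially acts trivially -/
theorem eq_of_perfect (φ : G →* R) {K : Subgroup G} (hK : ⁅K, K⁆ = K) (r : R)
    (h : ∀ k ∈ K, ∀ l ∈ K, r * (φ k - 1) * (φ l - 1) = 0) : ∀ k ∈ K, r * φ k = r := by
  let N : Subgroup G :=
    { carrier := {g | r * φ g = r}
      one_mem' := by simp
      mul_mem' := fun {a b} (ha : r * φ a = r) (hb : r * φ b = r) => by
        change r * φ (a * b) = r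
        rw [map_mul, ← mul_assoc, ha, hb]
      inv_mem' := fun {a} (ha : r * φ a = r) => by
        change r * φ a⁻¹ = r
        conv_lhs => rw [← ha]
        rw [mul_assoc, ← map_mul, mul_inv_cancel, map_one, mul_one] }
  have : ⁅K, K⁆ ≤ N := commutator_le.2 fun k hk l hl => by
    change r * φ ⁅k, l⁆ = r
    have e1 : r * φ (k * l) = r * φ (l * k) := by
      have a1 := h k hk l hl
      have a2 := h l hl k hk
      rw [map_mul, map_mul]
      have : r * (φ k * φ l) - r * (φ l * φ k) =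
          r * (φ k - 1) * (φ l - 1) - r * (φ l - 1) * (φ k - 1) := by noncomm_ring
      rw [a1, a2, sub_zero] at this
      exact sub_eq_zero.1 this
    have e2 : ⁅k, l⁆ = k * l * (l * k)⁻¹ := by rw [commutatorElement_def]; group
    rw [e2, map_mul, ← mul_assoc, e1, mul_assoc, ← map_mul, mul_inv_cancel, map_one, mul_one]
  rw [hK] at this
  exact fun k hk => this hk

section comp
variable {K : Subgroup G} (hK : IsComponent K)
include hK

theorem comm_of_not_norm {a : G} (ha : a ∉ normalizer (K : Set G)) {k l : G} (hk : k ∈ K)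
    (hl : l ∈ K) : Commute (a * k * a⁻¹) l := by
  rcases CL.Loc.IsComponent.eq_or_commutator_eq_bot (CL.Loc.IsComponent.conj hK a) hK with h | h
  · exfalso
    apply ha
    rw [mem_normalizer_iff]
    intro n
    constructor
    · intro hn
      rw [← h]
      exact ⟨n, hn, rfl⟩
    · intro hn
      rw [← h] at hn
      obtain ⟨m, hm, e⟩ := hn
      have : m = n := by
        have e' : a * m * a⁻¹ = a * n * a⁻¹ := e
        simpa using e'
      exact this ▸ hm
  · exact CL.Loc.commute_of_commutator_eq_bot h ⟨k, hk, rfl⟩ hl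

theorem le_of_norm {N : Subgroup G} (hn : ∀ k ∈ K, ∀ n ∈ N, k * n * k⁻¹ ∈ N) {g : G} (hg : g ∈ N)
    (hc : g ∉ centralizer (K : Set G)) : K ≤ N := by
  rcases CL.Loc.IsComponent.le_or_commutator_eq_bot_of_le_normalizer hK
    (le_normalizer_of_conj hn) with h | h
  · exact h
  · exact absurd (fun k hk => (CL.Loc.commute_of_commutator_eq_bot h hk hg).eq) hc

theorem cent_of_comm_cent {y : G} (hy : y ∈ normalizer (K : Set G))
    (h : ∀ k ∈ K, k⁻¹ * (y * k * y⁻¹) ∈ centralizer (K : Set G)) : y ∈ centralizer (K : Set G) := by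
  let X : Subgroup G :=
    { carrier := {g | g ∈ normalizer (K : Set G) ∧
        ∀ k ∈ K, k⁻¹ * (g * k * g⁻¹) ∈ centralizer (K : Set G)}
      one_mem' := ⟨one_mem _, fun k _ => by simp [one_mem]⟩
      mul_mem' := fun {a b} ha hb => ⟨mul_mem ha.1 hb.1, fun k hk => by
        have h1 := hb.2 k hk
        have h2 := ha.2 _ ((mem_normalizer_iff.1 hb.1 k).1 hk)
        have := mul_mem h1 h2
        convert this using 1
        group⟩
      inv_mem' := fun {a} ha => ⟨inv_mem ha.1, fun k hk => by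
        have h2 := ha.2 _ ((mem_normalizer_iff.1 (inv_mem ha.1) k).1 hk)
        have := inv_mem h2
        convert this using 1
        group⟩ }
  have h1 : ⁅X, K⁆ ≤ centralizer (K : Set G) := commutator_le.2 fun g hg k hk => by
    have h2 := hg.2 k hk
    have e : ⁅g, k⁆ = k * (k⁻¹ * (g * k * g⁻¹)) * k⁻¹ := by rw [commutatorElement_def]; group
    rw [e, h2 k hk, mul_inv_cancel_right]
    exact h2
  have h2 := CL.Loc.commutator_eq_bot_of_perfect (CL.Loc.IsComponent.commutator_self hK)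
    (commutator_eq_bot_iff_le_centralizer.2 h1)
  exact commutator_eq_bot_iff_le_centralizer.1 h2 ⟨hy, h⟩

theorem exists_not_cent : ∃ k ∈ K, k ∉ centralizer (K : Set G) := by
  by_contra h
  push Not at h
  exact CL.Loc.IsQuasisimple.not_le_centralizer hK.2 h

theorem ker_le_cent (φ : G →* R) (hφ : ∃ k ∈ K, φ k ≠ 1) {g : G} (hg : φ g = 1) :
    g ∈ centralizer (K : Set G) := by
  by_contra hc
  obtain ⟨k, hk, hk1⟩ := hφ
  have : K ≤ Lst φ 1 := le_of_norm hK (fun k _ n hn => conj_mem_Lst (Commute.one_right _) hn)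
    (by rw [mem_Lst, hg, one_mul]) hc
  have := this hk
  rw [mem_Lst, mul_one] at this
  exact hk1 this

theorem not_quad (φ : G →* R) (hφ : ∃ k ∈ K, φ k ≠ 1) :
    ¬ ∀ k ∈ K, ∀ l ∈ K, (φ k - 1) * (φ l - 1) = 0 := fun h => by
  obtain ⟨k, hk, hk1⟩ := hφ
  have := eq_of_perfect φ (CL.Loc.IsComponent.commutator_self hK) 1
    (fun k hk l hl => by rw [one_mul, h k hk l hl]) k hk
  exact hk1 (by simpa using this)

end comp

section norm
variable {p : ℕ} [hp : Fact p.Prime] {K : Subgroup G} {c : G}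

theorem pow_not_mem {N : Subgroup G} (hc : c ∉ N) (hcp : c ^ p = 1) {i : ℕ} (h0 : 0 < i)
    (hi : i < p) : c ^ i ∉ N := fun h => by
  have hcop : i.Coprime p := (Nat.coprime_of_lt_prime h0.ne' hi hp.out).symm
  obtain ⟨m, -, hm⟩ := Nat.exists_mul_mod_eq_one_of_coprime hcop hp.out.one_lt
  apply hc
  have : c = (c ^ i) ^ m := by
    rw [← pow_mul, ← Nat.mod_add_div (i * m) p, hm, pow_add, pow_mul, hcp, one_pow, mul_one, pow_one]
  rw [this]
  exact pow_mem h m

/-- partial norms -/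
def nP (c : G) (n : ℕ) (k : G) : G := (k * c) ^ n * (c ^ n)⁻¹

theorem nP_succ (c : G) (n : ℕ) (k : G) : nP c (n + 1) k = nP c n k * (c ^ n * k * (c ^ n)⁻¹) := by
  simp only [nP, pow_succ]; group

theorem nP_zero (c k : G) : nP c 0 k = 1 := by simp [nP]

theorem nP_mem {N : Subgroup G} {n : ℕ} {k : G} (h : ∀ i < n, c ^ i * k * (c ^ i)⁻¹ ∈ N) :
    nP c n k ∈ N := by
  induction n with
  | zero => rw [nP_zero]; exact one_mem _
  | succ n ih =>
    rw [nP_succ]
    exact mul_mem (ih fun i hi => h i (by omega)) (h n (by omega))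

theorem inv_mul_nP_mem {N : Subgroup G} {n : ℕ} (hn : 0 < n) {k : G}
    (h : ∀ i, 0 < i → i < n → c ^ i * k * (c ^ i)⁻¹ ∈ N) : k⁻¹ * nP c n k ∈ N := by
  induction n with
  | zero => omega
  | succ n ih =>
    rcases Nat.eq_zero_or_pos n with rfl | h0
    · rw [nP_succ, nP_zero]; simp [one_mem]
    · rw [nP_succ, ← mul_assoc]
      exact mul_mem (ih h0 fun i a b => h i a (by omega)) (h n h0 (by omega))

theorem conj_nP {x : G} (hx : Commute x c) (n : ℕ) (k : G) :
    x * nP c n k * x⁻¹ = nP c n (x * k * x⁻¹) := by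
  have e : x * k * x⁻¹ * c = x * (k * c) * x⁻¹ := by
    rw [mul_assoc (x * k), hx.inv_left.eq]; group
  rw [nP, nP, e, conj_pow, mul_assoc (x * _), (hx.inv_left.pow_right n).inv_right.eq]
  group

variable (hK : IsComponent K) (hc : c ∉ normalizer (K : Set G)) (hcp : c ^ p = 1)
include hK hc hcp

theorem nP_mul {n : ℕ} (hn : n ≤ p) {k l : G} (hk : k ∈ K) (hl : l ∈ K) :
    nP c n (k * l) = nP c n k * nP c n l := by
  induction n with
  | zero => simp [nP_zero]
  | succ n ih =>
    have h1 : nP c n l ∈ centralizer ({c ^ n * k * (c ^ n)⁻¹} : Set G) := by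
      refine nP_mem fun i hi => ?_
      rw [mem_centralizer_singleton_iff]
      have h2 := comm_of_not_norm hK (pow_not_mem hc hcp (i := n - i) (by omega) (by omega)) hk hl
      have e : c ^ n = c ^ i * c ^ (n - i) := by rw [← pow_add]; congr 1; omega
      have h3 := (h2.conj (c ^ i)).symm.eq
      rw [e]
      convert h3 using 2 <;> group
    rw [mem_centralizer_singleton_iff] at h1
    rw [nP_succ, nP_succ, nP_succ, ih (by omega), mul_assoc (nP c n k) (c ^ n * k * _),
      ← mul_assoc (c ^ n * k * _), ← h1]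
    group

theorem inv_mul_nP_cent {k : G} (hk : k ∈ K) : k⁻¹ * nP c p k ∈ centralizer (K : Set G) :=
  inv_mul_nP_mem hp.out.pos fun i h0 hi l hl =>
    (comm_of_not_norm hK (pow_not_mem hc hcp h0 hi) hk hl).symm.eq

theorem conj_nP_eq {k l : G} (hk : k ∈ K) (hl : l ∈ K) :
    nP c p k * l * (nP c p k)⁻¹ = k * l * k⁻¹ := by
  have h := inv_mul_nP_cent hK hc hcp hk l hl
  calc _ = k * ((k⁻¹ * nP c p k) * l) * (nP c p k)⁻¹ := by group
    _ = _ := by rw [← h]; group

theorem commute_nP_self {k : G} (hk : k ∈ K) : Commute k (nP c p k) := by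
  have h := conj_nP_eq hK hc hcp hk hk
  rw [mul_inv_cancel_right, mul_inv_eq_iff_eq_mul] at h
  exact h.symm

theorem commute_nP {k : G} (hk : k ∈ K) : Commute c (nP c p k) := by
  have h := (commute_nP_self hK hc hcp hk).eq
  have e1 : nP c p k = (k * c) ^ p := by rw [nP, hcp, inv_one, mul_one]
  have e2 : c * (k * c) ^ p * c⁻¹ = k⁻¹ * (k * c) ^ p * k := by
    rw [← conj_pow]
    have := conj_pow (a := k⁻¹) (b := k * c) (i := p)
    rw [inv_inv] at this
    rw [← this]
    congr 1; group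
  rw [e1] at h ⊢
  rw [mul_assoc k⁻¹, ← h, inv_mul_cancel_left, mul_inv_eq_iff_eq_mul] at e2
  exact e2

theorem nP_one : nP c p 1 = 1 := by simp [nP]

theorem nP_inv {k : G} (hk : k ∈ K) : nP c p k⁻¹ = (nP c p k)⁻¹ := by
  rw [eq_inv_iff_mul_eq_one, ← nP_mul hK hc hcp le_rfl (inv_mem hk) hk, inv_mul_cancel,
    nP_one hK hc hcp]

theorem nP_not_cent {k : G} (hk : k ∈ K) (h : k ∉ centralizer (K : Set G)) :
    nP c p k ∉ centralizer (K : Set G) := fun h' => h <| by
  have := mul_mem h' (inv_mem (inv_mul_nP_cent hK hc hcp hk))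
  simpa using this

/-- the elements of `K` whose norm lies in `N` -/
def nPre (N : Subgroup G) : Subgroup G where
  carrier := {k | k ∈ K ∧ nP c p k ∈ N}
  one_mem' := ⟨one_mem _, by rw [nP_one hK hc hcp]; exact one_mem _⟩
  mul_mem' := fun {a b} ha hb => ⟨mul_mem ha.1 hb.1, by
    rw [nP_mul hK hc hcp le_rfl ha.1 hb.1]; exact mul_mem ha.2 hb.2⟩
  inv_mem' := fun {a} ha => ⟨inv_mem ha.1, by rw [nP_inv hK hc hcp ha.1]; exact inv_mem ha.2⟩

theorem nPre_conj {N : Subgroup G} (hN : ∀ k ∈ K, ∀ n ∈ N, nP c p k * n * (nP c p k)⁻¹ ∈ N) :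
    ∀ k ∈ K, ∀ m ∈ nPre hK hc hcp N, k * m * k⁻¹ ∈ nPre hK hc hcp N := fun k hk m hm =>
  ⟨mul_mem (mul_mem hk hm.1) (inv_mem hk), by
    rw [nP_mul hK hc hcp le_rfl (mul_mem hk hm.1) (inv_mem hk), nP_mul hK hc hcp le_rfl hk hm.1,
      nP_inv hK hc hcp hk]
    exact hN k hk _ hm.2⟩

/-- an element normalizing `K` without centralizing it does not centralize the diagonal -/
theorem nP_mem_of_norm {N : Subgroup G} (hN : ∀ k ∈ K, ∀ n ∈ N, nP c p k * n * (nP c p k)⁻¹ ∈ N)
    {y : G} (hy : y ∈ normalizer (K : Set G)) (hy' : y ∉ centralizer (K : Set G))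
    (hyc : Commute y c) (h : ∀ k ∈ K, (nP c p k)⁻¹ * (y * nP c p k * y⁻¹) ∈ N) :
    ∀ k ∈ K, nP c p k ∈ N := by
  by_contra hcon
  refine hy' (cent_of_comm_cent hK hy fun k hk => ?_)
  by_contra h2
  have hyk : y * k * y⁻¹ ∈ K := (mem_normalizer_iff.1 hy k).1 hk
  have h3 : k⁻¹ * (y * k * y⁻¹) ∈ nPre hK hc hcp N := ⟨mul_mem (inv_mem hk) hyk, by
    rw [nP_mul hK hc hcp le_rfl (inv_mem hk) hyk, nP_inv hK hc hcp hk, ← conj_nP hyc]
    exact h k hk⟩
  exact hcon fun k hk => (le_of_norm hK (nPre_conj hK hc hcp hN) h3 h2 hk).2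

end norm

end CL.Even.PGV
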