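import Cfsg.Agent.Even.PGV1
import Cfsg.Agent.Grp.QuadRing
import Cfsg.Agent.Char.Burnside

/-! The P(G,V)-theorem, part 2: the ring computations. -/

set_option autoImplicit false
open Cfsg Subgroup
open scoped commutatorElement Pointwise

namespace CL.Even.PGV

variable {G : Type*} [Group G] {R : Type*} [Ring R] {p : ℕ} [hp : Fact p.Prime]

theorem sum_pow_of_commute [CharP R p] {ι : Type*} (s : Finset ι) (t : ι → R)
    (h : (s : Set ι).Pairwise fun i j => Commute (t i) (t j)) :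
    (∑ i ∈ s, t i) ^ p = ∑ i ∈ s, t i ^ p := by
  classical
  induction s using Finset.induction_on with
  | empty => simp [hp.out.ne_zero]
  | insert a s ha ih =>
    rw [Finset.sum_insert ha, Finset.sum_insert ha, add_pow_char_of_commute,
      ih (h.mono (by simp))]
    exact Commute.sum_right _ _ _ fun i hi =>
      h (by simp) (by simp [hi]) (fun e => ha (e ▸ hi))

omit hp in
theorem not_solv_quot {K : Subgroup G} (hK : IsComponent K) :
    ¬ Group.IsSolvable (K ⧸ center K) := by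
  haveI := hK.2.2
  exact CL.Loc.IsQuasisimple.not_isSolvable
    (CL.Loc.IsQuasisimple.of_surjective hK.2 (QuotientGroup.mk'_surjective (center K)))

omit hp in
theorem mk_eq_one_iff {K : Subgroup G} {k : K} :
    (k : K ⧸ center K) = 1 ↔ (k : G) ∈ centralizer (K : Set G) := by
  rw [QuotientGroup.eq_one_iff, mem_center_iff]
  exact ⟨fun h l hl => congrArg Subtype.val (h ⟨l, hl⟩), fun h l => Subtype.ext (h l l.2)⟩

omit hp in
theorem exists_prime_elt [Finite G] {K : Subgroup G} (hK : IsComponent K) :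
    ∃ r : ℕ, r.Prime ∧ 5 ≤ r ∧ ∃ k ∈ K, k ∉ centralizer (K : Set G) ∧ ∃ a, k ^ r ^ a = 1 := by
  have h1 : ∃ r : ℕ, r.Prime ∧ r ∣ Nat.card (K ⧸ center K) ∧ r ≠ 2 ∧ r ≠ 3 := by
    by_contra h
    push Not at h
    refine not_solv_quot hK (CL.Char.isSolvable_of_two_primes Nat.prime_two Nat.prime_three
      fun r hr hd => ?_)
    by_cases h2 : r = 2
    · exact Or.inl h2
    · exact Or.inr (h r hr hd h2)
  obtain ⟨r, hr, hd, h2, h3⟩ := h1
  haveI := Fact.mk hr
  obtain ⟨q, hq⟩ := exists_prime_orderOf_dvd_card' r hd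
  obtain ⟨k, rfl⟩ := QuotientGroup.mk_surjective q
  have h5 : 5 ≤ r := by
    have := hr.two_le
    by_contra h
    have h4 : r = 4 := by omega
    rw [h4] at hr
    exact absurd hr (by decide)
  obtain ⟨a, m, hm, e⟩ := Nat.exists_eq_pow_mul_and_not_dvd (orderOf_pos k).ne' r hr.ne_one
  refine ⟨r, hr, h5, (k ^ m : K), (k ^ m).2, fun h => hm ?_, a, ?_⟩
  · rw [← mk_eq_one_iff, QuotientGroup.mk_pow] at h
    rw [← hq]
    exact orderOf_dvd_of_pow_eq_one h
  · rw [← Subgroup.coe_pow, ← pow_mul, mul_comm, ← e, pow_orderOf_eq_one, Subgroup.coe_one]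

variable {K : Subgroup G} (hK : IsComponent K) (φ : G →* R) (hφ : ∃ k ∈ K, φ k ≠ 1)
include hK hφ

/-- for odd `p` a quadratic element normalizes the component -/
theorem norm_of_quad [Finite G] (hp2 : p ≠ 2) (hpR : (p : R) = 0) {x : G} (hxp : x ^ p = 1)
    (hx : (φ x - 1) * (φ x - 1) = 0) : x ∈ normalizer (K : Set G) := by
  by_contra hxn
  have hnt : Nontrivial R := by
    obtain ⟨k, -, hk⟩ := hφ
    exact ⟨⟨_, _, hk⟩⟩
  haveI : CharP R p := (CharP.charP_iff_prime_eq_zero hp.out).2 hpR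
  set n := φ x - 1 with hn
  have key : ∀ g ∈ K, g ^ p ∈ centralizer (K : Set G) := by
    intro g hg
    let t : ℕ → R := fun i => φ (x ^ i * g * (x ^ i)⁻¹)
    have ht : ∀ i, t i = φ g + (i : R) * (n * φ g - φ g * n) - ((i : R) * i) * (n * φ g * n) := by
      intro i
      simp only [t]
      rw [map_mul, map_mul, CL.Grp.quad_pow φ hx, CL.Grp.quad_inv_pow φ hx, ← hn, nsmul_eq_mul]
      have c1 := (Nat.cast_commute i n).eq
      have c2 := (Nat.cast_commute i (φ g)).eq
      have c3 := (Nat.cast_commute i (n * φ g)).eq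
      have : (1 + (i : R) * n) * φ g * (1 - i * n) = φ g + i * (n * φ g) - (φ g * i) * n -
          i * ((n * φ g) * i) * n := by noncomm_ring
      rw [this, ← c2, ← c3]
      noncomm_ring
    have hsum : ∑ i ∈ Finset.range p, t i =
        -((∑ i ∈ Finset.range p, i * i : ℕ) : R) * (n * φ g * n) := by
      simp only [ht, Finset.sum_sub_distrib, Finset.sum_add_distrib, ← Finset.sum_mul]
      have e1 : ∑ i ∈ Finset.range p, (i : R) = 0 := by
        obtain ⟨m, hm⟩ := hp.out.odd_of_ne_two hp2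
        have h1 := Finset.sum_range_id_mul_two p
        have h2 : ∑ i ∈ Finset.range p, i = p * m := by
          have : p * (p - 1) = p * m * 2 := by rw [mul_assoc]; congr 1; omega
          omega
        rw [← Nat.cast_sum, h2, Nat.cast_mul, hpR, zero_mul]
      rw [e1, Finset.sum_const, Finset.card_range, nsmul_eq_mul, hpR]
      push_cast
      simp
    have hsq : (∑ i ∈ Finset.range p, t i) ^ p = 0 := by
      refine pow_eq_zero_of_le hp.out.two_le ?_
      rw [hsum, pow_two]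
      set m : ℕ := ∑ i ∈ Finset.range p, i * i
      have c1 := (Nat.cast_commute m (n * φ g * n)).eq
      have : -(m : R) * (n * φ g * n) * (-(m : R) * (n * φ g * n)) =
          m * ((n * φ g * n) * m) * (n * φ g * n) := by noncomm_ring
      rw [this, ← c1]
      have : (m : R) * (m * (n * φ g * n)) * (n * φ g * n) = m * m * n * φ g * (n * n) * φ g * n := by
        noncomm_ring
      rw [this, hx]
      simp
    have hcomm : ((Finset.range p : Finset ℕ) : Set ℕ).Pairwise fun i j => Commute (t i) (t j) := by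
      have aux : ∀ i j, i < j → j < p → Commute (t i) (t j) := by
        intro i j hij hj
        have h2 := comm_of_not_norm hK (pow_not_mem hxn hxp (i := j - i) (by omega) (by omega)) hg hg
        have e : x ^ j = x ^ i * x ^ (j - i) := by rw [← pow_add]; congr 1; omega
        have h3 := (h2.conj (x ^ i)).symm
        refine Commute.map ?_ φ
        rw [e]
        convert h3 using 1
        group
      intro i hi j hj hij
      rcases lt_or_gt_of_ne hij with h | h
      · exact aux i j h (Finset.mem_range.1 hj)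
      · exact (aux j i h (Finset.mem_range.1 hi)).symm
    rw [sum_pow_of_commute _ t hcomm, Finset.range_eq_Ico,
      Finset.sum_eq_sum_Ico_succ_bot hp.out.pos] at hsq
    have e0 : t 0 ^ p = φ (g ^ p) := by simp [t]
    have hc : ∀ l ∈ K, Commute (φ (g ^ p)) (φ l) := by
      intro l hl
      rw [← e0, eq_neg_of_add_eq_zero_left hsq]
      refine Commute.neg_left (Commute.sum_left _ _ _ fun i hi => Commute.pow_left ?_ _)
      rw [Finset.mem_Ico] at hi
      exact (comm_of_not_norm hK (pow_not_mem hxn hxp (by omega) hi.2) hg hl).map φ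
    refine cent_of_comm_cent hK (le_normalizer (pow_mem hg p)) fun k hk => ker_le_cent hK φ hφ ?_
    rw [map_mul, map_mul, map_mul, (hc k hk).eq, mul_assoc, ← map_mul, mul_inv_cancel, map_one,
      mul_one, ← map_mul, inv_mul_cancel, map_one]
  have hP : IsPGroup p (K ⧸ center K) := fun q => by
    obtain ⟨k, rfl⟩ := QuotientGroup.mk_surjective q
    refine ⟨1, ?_⟩
    rw [pow_one, ← QuotientGroup.mk_pow, mk_eq_one_iff]
    exact key k k.2
  haveI := hP.isNilpotent
  exact not_solv_quot hK inferInstance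

omit hφ in
theorem nP_mem_Lst {x c : G} (hc : c ∉ normalizer (K : Set G)) (hcp : c ^ p = 1)
    (hx : x ∈ normalizer (K : Set G)) (hx' : x ∉ centralizer (K : Set G)) (hxc : Commute x c)
    (h : x ∈ Lst φ (φ c - 1)) : ∀ k ∈ K, nP c p k ∈ Lst φ (φ c - 1) := by
  have hN : ∀ k ∈ K, ∀ n ∈ Lst φ (φ c - 1), nP c p k * n * (nP c p k)⁻¹ ∈ Lst φ (φ c - 1) :=
    fun k hk n hn => conj_mem_Lst (commute_sub_one (commute_nP hK hc hcp hk).symm) hn
  refine nP_mem_of_norm hK hc hcp hN hx hx' hxc fun k hk => ?_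
  have h1 := hN k⁻¹ (inv_mem hk) x h
  rw [nP_inv hK hc hcp hk, inv_inv] at h1
  have := mul_mem h1 (inv_mem h)
  simpa [mul_assoc] using this

omit hφ in
theorem conj_mem_Lst_of_odd (hp2 : p ≠ 2) {c : G} (hc : c ∉ normalizer (K : Set G))
    (hcp : c ^ p = 1) (h : ∀ k ∈ K, nP c p k ∈ Lst φ (φ c - 1)) :
    ∀ l ∈ K, ∀ k ∈ K, c * k * c⁻¹ ∈ Lst φ (φ l - 1) := by
  obtain ⟨k, hk, hkc⟩ := exists_not_cent hK
  have hp3 : 2 < p := lt_of_le_of_ne hp.out.two_le (Ne.symm hp2)
  have hc2 : c * c ∉ normalizer (K : Set G) := by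
    rw [← pow_two]; exact pow_not_mem hc hcp (by omega) hp3
  set d := nP c p k with hd
  have hcd : Commute c d := commute_nP hK hc hcp hk
  have h1 : c ∈ Lst φ (φ d - 1) := Lst_symm hcd.symm (h k hk)
  have hk1 : Commute (c * k * c⁻¹) d := by
    have := (commute_nP_self hK hc hcp hk).conj c
    rwa [← hd, hcd.eq, mul_inv_cancel_right] at this
  set t := (c * k * c⁻¹)⁻¹ * (c * c * k * (c * c)⁻¹) with ht
  have h2 : t ∈ Lst φ (φ d - 1) := by
    have h3 := conj_mem_Lst (commute_sub_one hk1.inv_left) h1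
    have := mul_mem h3 (inv_mem h1)
    convert this using 1
    rw [ht]; group
  have htK : ∀ l ∈ K, Commute t l := fun l hl =>
    (comm_of_not_norm hK hc hk hl).inv_left.mul_left (comm_of_not_norm hK hc2 hk hl)
  have htd : Commute t d := by
    refine hk1.inv_left.mul_left ?_
    have := hk1.conj c
    rw [hcd.eq, mul_inv_cancel_right] at this
    rwa [show c * c * k * (c * c)⁻¹ = c * (c * k * c⁻¹) * c⁻¹ by group]
  have h4 : K ≤ Lst φ (φ t - 1) := le_of_norm hK
    (fun l hl n hn => conj_mem_Lst (commute_sub_one (htK l hl).symm) hn) (Lst_symm htd h2)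
    (nP_not_cent hK hc hcp hk hkc)
  intro l hl
  have h5 : t ∈ Lst φ (φ l - 1) := Lst_symm (htK l hl).symm (h4 hl)
  have h6 : K.map (MulAut.conj c).toMonoidHom ≤ Lst φ (φ l - 1) := by
    refine le_of_norm (CL.Loc.IsComponent.conj hK c) ?_ h5 fun h7 => hkc fun m hm => ?_
    · rintro _ ⟨m, hm, rfl⟩ n hn
      exact conj_mem_Lst (commute_sub_one (comm_of_not_norm hK hc hm hl)) hn
    · have h8 : Commute (c * m * c⁻¹) t := h7 _ ⟨m, hm, rfl⟩
      have h9 := h8.conj c⁻¹
      rw [show c⁻¹ * (c * m * c⁻¹) * c⁻¹⁻¹ = m by group,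
        show c⁻¹ * t * c⁻¹⁻¹ = k⁻¹ * (c * k * c⁻¹) by rw [ht]; group] at h9
      have h10 := h9.mul_right (comm_of_not_norm hK hc hk hm).symm.inv_right
      rw [mul_inv_cancel_right] at h10
      exact (Commute.inv_right_iff.1 h10).eq
  exact fun m hm => h6 ⟨m, hm, rfl⟩

/-- the case of odd `p` -/
theorem odd_case [Finite G] (hp2 : p ≠ 2) (hpR : (p : R) = 0) {x c : G} (hcp : c ^ p = 1)
    (hxp : x ^ p = 1) (hx' : x ∉ centralizer (K : Set G)) (hxc : Commute x c)
    (hxx : x ∈ Lst φ (φ x - 1)) (h : ∀ i, x ∈ Lst φ (φ (c ^ i) - 1)) :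
    c ∈ normalizer (K : Set G) := by
  by_contra hc
  have hx := norm_of_quad hK φ hφ hp2 hpR hxp (mem_Lst'.1 hxx)
  have h1 : ∀ i, 0 < i → i < p → ∀ l ∈ K, ∀ k ∈ K, c ^ i * k * (c ^ i)⁻¹ ∈ Lst φ (φ l - 1) := by
    intro i h0 hi
    have hci := pow_not_mem hc hcp h0 hi
    have hcip : (c ^ i) ^ p = 1 := by rw [← pow_mul, mul_comm, pow_mul, hcp, one_pow]
    exact conj_mem_Lst_of_odd hK φ hp2 hci hcip
      (nP_mem_Lst hK φ hci hcip hx hx' (hxc.pow_right i) (h i))
  have h2 := nP_mem_Lst hK φ hc hcp hx hx' hxc (by simpa using h 1)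
  have h3 : ∀ k ∈ K, (φ c - 1) * φ k = φ c - 1 := by
    refine eq_of_perfect φ (CL.Loc.IsComponent.commutator_self hK) _ fun k hk l hl => ?_
    have h4 : k⁻¹ * nP c p k ∈ Lst φ (φ l - 1) :=
      inv_mul_nP_mem hp.out.pos fun i h0 hi => h1 i h0 hi l hl k hk
    have h5 := mem_Lst'.1 (Lst_symm (commute_nP hK hc hcp hk).symm (h2 k hk))
    have h6 : φ k * (φ l - 1) = φ (nP c p k) * (φ l - 1) := by
      conv_lhs => rw [← mem_Lst.1 h4]
      rw [← mul_assoc, ← map_mul, mul_inv_cancel_left]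
    rw [mul_assoc, sub_mul (φ k), h6, ← sub_mul, ← mul_assoc, h5, zero_mul]
  refine not_quad hK φ hφ fun k hk l hl => ?_
  have h7 : c ∈ Lst φ (φ l - 1) := by
    rw [mem_Lst', mul_sub, h3 l hl, mul_one, sub_self]
  have h8 := h1 1 one_pos hp.out.one_lt l hl k hk
  rw [pow_one] at h8
  have := mul_mem (mul_mem (inv_mem h7) h8) h7
  rw [← mem_Lst']
  simpa [mul_assoc] using this

end CL.Even.PGV

namespace CL.Even.PGV

variable {G : Type*} [Group G] {K : Subgroup G} (hK : IsComponent K) {c : G}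
  (hc : c ∉ normalizer (K : Set G)) (hc2 : c ^ 2 = 1)

theorem nP_two (c k : G) : nP c 2 k = k * (c * k * c⁻¹) := by
  rw [nP_succ, nP_succ, nP_zero]; simp

theorem inv_eq_of_sq {c : G} (h : c ^ 2 = 1) : c⁻¹ = c := by
  rw [inv_eq_iff_mul_eq_one, ← pow_two, h]

include hK hc hc2

theorem nP_mem_two {N : Subgroup G} (hN : ∀ k ∈ K, ∀ n ∈ N, nP c 2 k * n * (nP c 2 k)⁻¹ ∈ N)
    {x : G} (hxN : x ∈ N) (hxc : Commute x c) (hx1 : x ∉ centralizer (K : Set G))
    (hx2 : x * c ∉ centralizer (K : Set G)) : ∀ k ∈ K, nP c 2 k ∈ N := by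
  haveI : Fact (Nat.Prime 2) := ⟨Nat.prime_two⟩
  have h0 : ∀ k ∈ K, (nP c 2 k)⁻¹ * (x * nP c 2 k * x⁻¹) ∈ N := fun k hk => by
    have h1 := hN k⁻¹ (inv_mem hk) x hxN
    rw [nP_inv hK hc hc2 hk, inv_inv] at h1
    have := mul_mem h1 (inv_mem hxN)
    simpa [mul_assoc] using this
  by_cases h1 : x ∈ normalizer (K : Set G)
  · exact nP_mem_of_norm hK hc hc2 hN h1 hx1 hxc h0
  by_cases h2 : x * c ∈ normalizer (K : Set G)
  · refine nP_mem_of_norm hK hc hc2 hN h2 hx2 (hxc.mul_left (Commute.refl c)) fun k hk => ?_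
    have := h0 k hk
    rwa [mul_assoc x c, (commute_nP hK hc hc2 hk).eq, show x * (nP c 2 k * c) * (x * c)⁻¹ =
      x * nP c 2 k * x⁻¹ by group]
  have h3 : ∀ k ∈ K, ∀ l ∈ K, Commute (x * nP c 2 k * x⁻¹) l := fun k hk l hl => by
    rw [nP_two, show x * (k * (c * k * c⁻¹)) * x⁻¹ = (x * k * x⁻¹) * (x * c * k * (x * c)⁻¹) by group]
    exact (comm_of_not_norm hK h1 hk hl).mul_left (comm_of_not_norm hK h2 hk hl)
  have h4 : ∀ k ∈ K, ∀ l ∈ K, Commute (x * nP c 2 k * x⁻¹) (nP c 2 l) := fun k hk l hl => by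
    have h5 := (h3 k hk l hl).conj c
    have h6 : Commute c (x * nP c 2 k * x⁻¹) :=
      (hxc.symm.mul_right (commute_nP hK hc hc2 hk)).mul_right hxc.symm.inv_right
    rw [h6.eq, mul_inv_cancel_right] at h5
    rw [nP_two c l]
    exact (h3 k hk l hl).mul_right h5
  have h7 : ⁅K, K⁆ ≤ nPre hK hc hc2 N := commutator_le.2 fun l hl k hk => by
    rw [commutatorElement_def]
    refine ⟨mul_mem (mul_mem (mul_mem hl hk) (inv_mem hl)) (inv_mem hk), ?_⟩
    rw [nP_mul hK hc hc2 le_rfl (mul_mem (mul_mem hl hk) (inv_mem hl)) (inv_mem hk),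
      nP_mul hK hc hc2 le_rfl (mul_mem hl hk) (inv_mem hl), nP_mul hK hc hc2 le_rfl hl hk,
      nP_inv hK hc hc2 hk, nP_inv hK hc hc2 hl]
    have h8 := h0 k⁻¹ (inv_mem hk)
    have h9 := mul_mem (hN l hl _ h8) (inv_mem h8)
    have h10 := (h4 k⁻¹ (inv_mem hk) l hl).inv_right.eq
    rw [nP_inv hK hc hc2 hk] at h9 h10
    rw [inv_inv, mul_assoc (nP c 2 l), mul_assoc (nP c 2 k), h10] at h9
    convert h9 using 1
    group
  rw [CL.Loc.IsComponent.commutator_self hK] at h7
  exact fun k hk => (h7 hk).2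

theorem le_of_two_diag {S : Subgroup G} {c' : G} (hc' : c' ∉ normalizer (K : Set G))
    (hc2' : c' ^ 2 = 1) (hcc : c * c' ∉ centralizer (K : Set G))
    (hS : ∀ s ∈ S, c * s * c⁻¹ ∈ S) (h : ∀ k ∈ K, nP c 2 k ∈ S) (h' : ∀ k ∈ K, nP c' 2 k ∈ S) :
    K ≤ S := by
  haveI : Fact (Nat.Prime 2) := ⟨Nat.prime_two⟩
  by_cases h1 : c * c' ∈ normalizer (K : Set G)
  · by_contra hcon
    refine hcc (cent_of_comm_cent hK h1 fun k hk => ?_)
    by_contra h2
    have h3 : K ≤ S ⊓ K := by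
      refine le_of_norm hK (fun k hk m hm => mem_inf.2 ⟨?_, K.mul_mem (K.mul_mem hk hm.2) (K.inv_mem hk)⟩)
        (mem_inf.2 ⟨?_, K.mul_mem (K.inv_mem hk) ((mem_normalizer_iff.1 h1 k).1 hk)⟩) h2
      · rw [← conj_nP_eq hK hc hc2 hk hm.2]
        exact S.mul_mem (S.mul_mem (h k hk) hm.1) (S.inv_mem (h k hk))
      · have h4 := hS _ (mul_mem (inv_mem (h k hk)) (h' k hk))
        rw [nP_two, nP_two] at h4
        have e : c * c = 1 := by rw [← pow_two, hc2]
        have e2 : c * ((k * (c * k * c⁻¹))⁻¹ * (k * (c' * k * c'⁻¹))) * c⁻¹ =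
          (c * c) * k⁻¹ * (c * c)⁻¹ * (c * c' * k * (c * c')⁻¹) := by group
        rw [e2, e] at h4
        simpa using h4
    exact hcon (h3.trans inf_le_left)
  · rw [← CL.Loc.IsComponent.commutator_self hK]
    refine commutator_le.2 fun k hk l hl => ?_
    have h5 : Commute (c * k * c⁻¹) (c' * l * c'⁻¹) := by
      have := (comm_of_not_norm hK h1 hl hk).conj c
      have e : c * c = 1 := by rw [← pow_two, hc2]
      rw [show c * (c * c' * l * (c * c')⁻¹) * c⁻¹ = (c * c) * (c' * l * c'⁻¹) * (c * c)⁻¹ by group,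
        e] at this
      simpa using this.symm
    have h6 : Commute (c * k * c⁻¹) (nP c' 2 l) := by
      rw [nP_two]; exact (comm_of_not_norm hK hc hk hl).mul_right h5
    have h7 : nP c 2 k * nP c' 2 l * (nP c 2 k)⁻¹ = k * nP c' 2 l * k⁻¹ := by
      rw [nP_two c k, mul_assoc k, h6.eq]; group
    have h8 : k * nP c' 2 l * k⁻¹ * (nP c' 2 l)⁻¹ = ⁅k, l⁆ := by
      rw [nP_two, ← mul_assoc k, mul_assoc (k * l), (comm_of_not_norm hK hc' hl (inv_mem hk)).eq,
        commutatorElement_def]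
      group
    rw [← h8, ← h7]
    exact mul_mem (mul_mem (mul_mem (h k hk) (h' l hl)) (inv_mem (h k hk))) (inv_mem (h' l hl))

end CL.Even.PGV
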