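import Cfsg.Agent.Even.PGV2
import Cfsg.Agent.Loc.Offender1

/-! The P(G,V)-theorem, part 3: replacement for modules and the counting lemmas. -/

set_option autoImplicit false
open Cfsg Subgroup
open scoped commutatorElement Pointwise

namespace CL.Even.PGV

variable {G V : Type*} [Group G] [AddCommGroup V] {p : ℕ} [hp : Fact p.Prime] [Module (ZMod p) V]

/-- the action on the multiplicative copy of the module -/
def act (ρ : Representation (ZMod p) G V) : G →* MulAut (Multiplicative V) where
  toFun g :=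
    { toFun := fun v => Multiplicative.ofAdd (ρ g v.toAdd)
      invFun := fun v => Multiplicative.ofAdd (ρ g⁻¹ v.toAdd)
      left_inv := fun v => by simp
      right_inv := fun v => by simp
      map_mul' := fun v w => by simp }
  map_one' := by ext v; simp
  map_mul' a b := by ext v; simp

theorem act_apply (ρ : Representation (ZMod p) G V) (g : G) (v : V) :
    act ρ g (Multiplicative.ofAdd v) = Multiplicative.ofAdd (ρ g v) := rfl

open SemidirectProduct in
theorem comm_inl_inr (ρ : Representation (ZMod p) G V) (g : G) (v : V) :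
    ⁅(inl (Multiplicative.ofAdd v) : Multiplicative V ⋊[act ρ] G),
      (inr g : Multiplicative V ⋊[act ρ] G)⁆ = inl (Multiplicative.ofAdd (v - ρ g v)) := by
  rw [commutatorElement_def, mul_assoc, mul_assoc, ← mul_assoc (inr g), ← map_inv inr,
    ← map_inv inl, ← inl_aut, ← map_mul, ← ofAdd_neg, act_apply, ← ofAdd_add, map_neg,
    sub_eq_add_neg]

open SemidirectProduct in
theorem commute_inl_inr (ρ : Representation (ZMod p) G V) (g : G) (v : V) :
    (inr g : Multiplicative V ⋊[act ρ] G) * inl (Multiplicative.ofAdd v) =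
      inl (Multiplicative.ofAdd v) * inr g ↔ ρ g v = v := by
  rw [eq_comm, ← commutatorElement_eq_one_iff_mul_comm, comm_inl_inr, ← map_one inl,
    inl_injective.eq_iff, ofAdd_eq_one, sub_eq_zero, eq_comm]

open SemidirectProduct in
theorem replacement [Finite G] [Finite V] (ρ : Representation (ZMod p) G V) {A : Subgroup G}
    (hA : IsElementaryAbelian p A)
    (hP : ∀ B : Subgroup G, B ≤ A → Nat.card ↥B * Nat.card {v : V // ∀ b ∈ B, ρ b v = v} ≤
      Nat.card ↥A * Nat.card {v : V // ∀ a ∈ A, ρ a v = v}) (hne : ∃ a ∈ A, ρ a ≠ 1) :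
    ∃ x ∈ A, ρ x ≠ 1 ∧ ∀ a ∈ A, x ∈ Lst ρ (ρ a - 1) := by
  let Γ := Multiplicative V ⋊[act ρ] G
  haveI : Finite Γ := Finite.of_equiv _ SemidirectProduct.equivProd.symm
  let W : Subgroup Γ := (inl : Multiplicative V →* Γ).range
  let ι : G →* Γ := inr
  have hW : IsElementaryAbelian p W := by
    refine ⟨⟨⟨?_⟩⟩, ?_⟩
    · rintro ⟨_, v, rfl⟩ ⟨_, w, rfl⟩
      apply Subtype.ext
      change inl v * inl w = inl w * inl v
      rw [← map_mul, ← map_mul, mul_comm]
    · rintro _ ⟨v, rfl⟩
      rw [← map_pow, ← map_one inl]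
      congr 1
      apply Multiplicative.toAdd.injective
      rw [toAdd_pow, toAdd_one, ← Nat.cast_smul_eq_nsmul (ZMod p), ZMod.natCast_self, zero_smul]
  have hWn : W.Normal := by
    change (inl : Multiplicative V →* Γ).range.Normal
    rw [range_inl_eq_ker_rightHom]; infer_instance
  have hcard : ∀ B : Subgroup G, Nat.card ↥(W ⊓ centralizer ((B.map ι : Subgroup Γ) : Set Γ)) =
      Nat.card {v : V // ∀ b ∈ B, ρ b v = v} := by
    intro B
    symm
    refine Nat.card_congr (Equiv.ofBijective (fun v => ⟨inl (Multiplicative.ofAdd v.1),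
      ⟨_, rfl⟩, ?_⟩) ⟨fun v w h => ?_, ?_⟩)
    · rintro _ ⟨b, hb, rfl⟩
      exact (commute_inl_inr ρ b v.1).2 (v.2 b hb)
    · exact Subtype.ext (Multiplicative.ofAdd.injective (inl_injective (congrArg Subtype.val h)))
    · rintro ⟨_, ⟨v, rfl⟩, hv⟩
      exact ⟨⟨v.toAdd, fun b hb => (commute_inl_inr ρ b v.toAdd).1 (hv _ ⟨b, hb, rfl⟩)⟩, rfl⟩
  have hB : IsBestOffenderOn p W (A.map ι) := by
    refine ⟨fun B hB => ?_, ?_, ?_⟩
    · have e : B = (B.comap ι).map ι :=
        (map_comap_eq_self (hB.trans (map_le_range _ _))).symm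
      have hle : B.comap ι ≤ A := by
        rw [← comap_map_eq_self_of_injective (f := ι) inr_injective A]
        exact comap_mono hB
      rw [e, hcard, hcard, card_map_of_injective inr_injective, card_map_of_injective inr_injective]
      exact hP _ hle
    · rw [← map_commutator]
      have : ⁅A, A⁆ = ⊥ := by
        haveI := hA.1
        exact commutator_eq_bot_iff_le_centralizer.2 (le_centralizer A)
      rw [this, Subgroup.map_bot]
      exact bot_le
    · rintro _ ⟨a, ha, rfl⟩
      rw [← map_pow, hA.2 a ha, map_one]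
      exact one_mem _
  obtain ⟨-, -, -, h4⟩ := CL.Loc.timmesfeld_replacement hW le_normalizer_of_normal hB le_rfl
  have h5 : ⁅W, A.map ι⁆ ≠ ⊥ := by
    intro h
    obtain ⟨a, ha, ha1⟩ := hne
    refine ha1 (LinearMap.ext fun v => ?_)
    exact (commute_inl_inr ρ a v).1
      (commutator_eq_bot_iff_le_centralizer.1 h ⟨_, rfl⟩ _ ⟨a, ha, rfl⟩)
  have h6 := h4 h5
  rw [Ne, commutator_comm, commutator_eq_bot_iff_le_centralizer] at h6
  obtain ⟨_, ⟨⟨x, hx, rfl⟩, hx2⟩, hx3⟩ := SetLike.not_le_iff_exists.1 h6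
  refine ⟨x, hx, fun h => hx3 ?_, fun a ha => ?_⟩
  · rintro _ ⟨v, rfl⟩
    exact ((commute_inl_inr ρ x v.toAdd).2 (by rw [h]; rfl)).symm
  · rw [mem_Lst]
    refine LinearMap.ext fun v => ?_
    have h7 := hx2 _ (commutator_mem_commutator (⟨Multiplicative.ofAdd v, rfl⟩ : _ ∈ W)
      (⟨a, ha, rfl⟩ : _ ∈ A.map ι))
    have h8 := (commute_inl_inr ρ x (v - ρ a v)).1 (by rw [← comm_inl_inr]; exact h7.symm)
    change ρ x (ρ a v - v) = ρ a v - v
    rw [← neg_sub, map_neg, h8]

theorem card_dualAnn [Finite V] (U : Submodule (ZMod p) V) :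
    Nat.card U.dualAnnihilator = U.toAddSubgroup.index := by
  haveI : Finite (V ⧸ U) := Finite.of_surjective _ U.mkQ_surjective
  rw [← Nat.card_congr (Submodule.dualQuotEquivDualAnnihilator U).toEquiv,
    Module.natCard_eq_pow_finrank (K := ZMod p), Subspace.dual_finrank_eq,
    ← Module.natCard_eq_pow_finrank (K := ZMod p)]
  rfl

theorem count_le [Finite V] {ι : Type*} (S : Finset ι) (C : ι → Submodule (ZMod p) V)
    (C₀ : Submodule (ZMod p) V) (m : ℕ) (h0 : ∀ i ∈ S, C₀ ≤ C i)
    (hm : ∀ i ∈ S, m + 1 ≤ (C i).toAddSubgroup.index)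
    (hsup : ∀ i ∈ S, ∀ j ∈ S, i ≠ j → C i ⊔ C j = ⊤) :
    m * S.card + 1 ≤ C₀.toAddSubgroup.index := by
  classical
  haveI : Finite (Module.Dual (ZMod p) V) := Module.finite_of_finite (ZMod p)
  haveI := Fintype.ofFinite (Module.Dual (ZMod p) V)
  let T : Submodule (ZMod p) V → Finset (Module.Dual (ZMod p) V) := fun U =>
    (Finset.univ.filter (· ∈ U.dualAnnihilator)).erase 0
  have hT : ∀ U, (T U).card + 1 = U.toAddSubgroup.index := fun U => by
    rw [← card_dualAnn, Finset.card_erase_add_one (by simp), Nat.card_eq_fintype_card,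
      Fintype.card_subtype]
  have h1 : S.biUnion (fun i => T (C i)) ⊆ T C₀ := by
    intro f hf
    obtain ⟨i, hi, hf⟩ := Finset.mem_biUnion.1 hf
    simp only [T, Finset.mem_erase, Finset.mem_filter, Finset.mem_univ, true_and] at hf ⊢
    exact ⟨hf.1, Submodule.dualAnnihilator_anti (h0 i hi) hf.2⟩
  have h2 := Finset.card_le_card h1
  rw [Finset.card_biUnion] at h2
  · have h3 : ∑ _i ∈ S, m ≤ ∑ i ∈ S, (T (C i)).card := Finset.sum_le_sum fun i hi => by
      have := hm i hi
      have := hT (C i)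
      omega
    rw [Finset.sum_const, smul_eq_mul, mul_comm] at h3
    have := hT C₀
    omega
  · intro i hi j hj hij
    rw [Function.onFun, Finset.disjoint_left]
    intro f hf hf'
    simp only [T, Finset.mem_erase, Finset.mem_filter, Finset.mem_univ, true_and] at hf hf'
    have : f ∈ (C i ⊔ C j).dualAnnihilator := by
      rw [Submodule.dualAnnihilator_sup_eq]; exact ⟨hf.2, hf'.2⟩
    rw [hsup i hi j hj hij, Submodule.dualAnnihilator_top] at this
    exact hf.1 this

theorem index_eq_pow [Finite V] (U : Submodule (ZMod p) V) :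
    ∃ n, U.toAddSubgroup.index = p ^ n := by
  have h := U.toAddSubgroup.index_dvd_card
  rw [Module.natCard_eq_pow_finrank (K := ZMod p), Nat.card_zmod] at h
  obtain ⟨n, -, hn⟩ := (Nat.dvd_prime_pow Fact.out).1 h
  exact ⟨n, hn⟩

/-- an `r`-element with a small commutator space acts trivially -/
theorem eq_one_of_index_le [Finite V] (ρ : Representation (ZMod p) G V) {t : G} {r a : ℕ}
    (hr : r.Prime) (hrp : r ≠ p) (ht : t ^ r ^ a = 1)
    (h : (LinearMap.ker (ρ t - 1)).toAddSubgroup.index ≤ r) : ρ t = 1 := by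
  haveI := Fact.mk hr
  letI : MulAction (zpowers t) V :=
    { smul := fun g v => ρ g v
      one_smul := fun v => by change ρ ((1 : zpowers t) : G) v = v; simp
      mul_smul := fun g h v => by
        change ρ ((g * h : zpowers t) : G) v = ρ g (ρ h v); simp }
  have hP : IsPGroup r (zpowers t) := by
    rintro ⟨_, n, rfl⟩
    refine ⟨a, Subtype.ext ?_⟩
    change (t ^ n) ^ r ^ a = 1
    rw [← zpow_natCast, ← zpow_mul, mul_comm, zpow_mul, zpow_natCast, ht, one_zpow]
  have h1 := hP.card_modEq_card_fixedPoints V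
  set U := (LinearMap.ker (ρ t - 1)).toAddSubgroup
  have h2 : Nat.card (MulAction.fixedPoints (zpowers t) V) = Nat.card U := by
    refine Nat.card_congr (Equiv.subtypeEquivRight fun v => ?_)
    change (∀ g : zpowers t, ρ g v = v) ↔ ρ t v - v = 0
    rw [sub_eq_zero]
    refine ⟨fun h => h ⟨t, mem_zpowers t⟩, fun h g => ?_⟩
    let N : Subgroup G :=
      { carrier := {g | ρ g v = v}
        one_mem' := by simp
        mul_mem' := fun {a b} (ha : ρ a v = v) (hb : ρ b v = v) => by
          change ρ (a * b) v = v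
          rw [map_mul, Module.End.mul_apply, hb, ha]
        inv_mem' := fun {a} (ha : ρ a v = v) => by
          change ρ a⁻¹ v = v
          conv_lhs => rw [← ha]
          simp }
    exact (zpowers_le.2 (show t ∈ N from h)) g.2
  rw [h2, ← U.card_mul_index] at h1
  have h3 : r ∣ Nat.card U * (U.index - 1) := by
    have hpos : 1 ≤ U.index := Nat.one_le_iff_ne_zero.2 U.index_ne_zero_of_finite
    rw [Nat.mul_sub, mul_one]
    exact (Nat.modEq_iff_dvd' (Nat.le_mul_of_pos_right _ hpos)).1 h1.symm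
  have h4 : U.index = 1 := by
    rcases (Nat.Prime.dvd_mul hr).1 h3 with h5 | h5
    · have h6 := h5.trans (AddSubgroup.card_addSubgroup_dvd_card U)
      rw [Module.natCard_eq_pow_finrank (K := ZMod p), Nat.card_zmod] at h6
      exact absurd ((Nat.prime_dvd_prime_iff_eq hr hp.out).1 (hr.dvd_of_dvd_pow h6)) hrp
    · have hpos : 1 ≤ U.index := Nat.one_le_iff_ne_zero.2 U.index_ne_zero_of_finite
      have := Nat.eq_zero_of_dvd_of_lt h5 (by omega)
      omega
  rw [AddSubgroup.index_eq_one] at h4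
  refine LinearMap.ext fun v => ?_
  have : v ∈ U := h4 ▸ AddSubgroup.mem_top v
  exact sub_eq_zero.1 (show ρ t v - v = 0 from this)

/-- no transvection moves a component -/
theorem four_le_index [Finite G] [Finite V] [Module (ZMod 2) V] (ρ : Representation (ZMod 2) G V)
    {K : Subgroup G} (hK : IsComponent K) (hρ : ∃ k ∈ K, ρ k ≠ 1) {c : G}
    (hc : c ∉ normalizer (K : Set G)) : 4 ≤ (LinearMap.ker (ρ c - 1)).toAddSubgroup.index := by
  haveI : Fact (Nat.Prime 2) := ⟨Nat.prime_two⟩
  by_contra hlt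
  have h2 : (LinearMap.ker (ρ c - 1)).toAddSubgroup.index ≤ 2 := by
    obtain ⟨n, hn⟩ := index_eq_pow (LinearMap.ker (ρ c - 1))
    rw [hn] at hlt ⊢
    rcases n with _ | _ | n
    · simp
    · simp
    · rw [pow_succ, pow_succ] at hlt
      have := Nat.pos_of_ne_zero (pow_ne_zero n two_ne_zero)
      omega
  obtain ⟨r, hr, h5, k, hk, hkc, a, ha⟩ := exists_prime_elt hK
  have hcm := comm_of_not_norm hK hc hk (inv_mem hk)
  have h3 : (LinearMap.ker (ρ (k * c⁻¹ * k⁻¹) - 1)).toAddSubgroup.index ≤ 2 := by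
    have : (LinearMap.ker (ρ (k * c⁻¹ * k⁻¹) - 1)).toAddSubgroup =
        (LinearMap.ker (ρ c - 1)).toAddSubgroup.comap (ρ k⁻¹).toAddMonoidHom := by
      ext v
      change ρ (k * c⁻¹ * k⁻¹) v - v = 0 ↔ ρ c (ρ k⁻¹ v) - ρ k⁻¹ v = 0
      rw [sub_eq_zero, sub_eq_zero, map_mul, map_mul, Module.End.mul_apply, Module.End.mul_apply]
      constructor
      · intro h
        conv_lhs => rw [← h]
        simp
      · intro h
        conv_lhs => rw [← h]
        simp
    rw [this, AddSubgroup.index_comap_of_surjective]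
    · exact h2
    · exact fun v => ⟨ρ k v, by simp⟩
  have h4 : ρ (c * k * c⁻¹ * k⁻¹) = 1 := by
    refine eq_one_of_index_le ρ hr (by omega) (a := a) ?_ ?_
    · rw [hcm.mul_pow, conj_pow, inv_pow, ha]
      simp
    · have hle : (LinearMap.ker (ρ c - 1)).toAddSubgroup ⊓
          (LinearMap.ker (ρ (k * c⁻¹ * k⁻¹) - 1)).toAddSubgroup ≤
          (LinearMap.ker (ρ (c * k * c⁻¹ * k⁻¹) - 1)).toAddSubgroup := by
        rintro v ⟨h1, h2⟩
        change ρ (c * k * c⁻¹ * k⁻¹) v - v = 0
        rw [show c * k * c⁻¹ * k⁻¹ = c * (k * c⁻¹ * k⁻¹) by group, map_mul, Module.End.mul_apply,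
          sub_eq_zero.1 (show ρ (k * c⁻¹ * k⁻¹) v - v = 0 from h2)]
        exact h1
      have h6 := Nat.le_of_dvd (Nat.pos_of_ne_zero AddSubgroup.index_ne_zero_of_finite)
        (AddSubgroup.index_dvd_of_le hle)
      have h7 := h6.trans AddSubgroup.index_inf_le
      have h8 := Nat.mul_le_mul h2 h3
      omega
  have h9 := ker_le_cent hK ρ hρ h4
  refine hkc fun l hl => ?_
  have h10 : Commute l (c * k * c⁻¹ * k⁻¹) := h9 l hl
  have h11 := (comm_of_not_norm hK hc hk hl).symm.inv_right.mul_right h10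
  rw [inv_mul_cancel_left] at h11
  exact (Commute.inv_right_iff.1 h11).eq

end CL.Even.PGV
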