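import Cfsg.Agent.Even.PGV3

/-! The P(G,V)-theorem. -/

set_option autoImplicit false
open Cfsg Subgroup
open scoped commutatorElement Pointwise

namespace CL.Even.PGV

variable {G V : Type*} [Group G] [AddCommGroup V]

section gen
variable {p : ℕ} [hp : Fact p.Prime] [Module (ZMod p) V]

/-- fixed vectors of a subgroup -/
def fixS (ρ : Representation (ZMod p) G V) (B : Subgroup G) : Submodule (ZMod p) V where
  carrier := {v | ∀ b ∈ B, ρ b v = v}
  zero_mem' := fun _ _ => map_zero _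
  add_mem' := fun h1 h2 b hb => by rw [map_add, h1 b hb, h2 b hb]
  smul_mem' := fun r _ h1 b hb => by rw [map_smul, h1 b hb]

theorem mem_ker_iff (ρ : Representation (ZMod p) G V) {g : G} {v : V} :
    v ∈ LinearMap.ker (ρ g - 1) ↔ ρ g v = v := by
  change ρ g v - v = 0 ↔ _
  rw [sub_eq_zero]

theorem ker_inv (ρ : Representation (ZMod p) G V) {g a : G} (h : Commute g a) {v : V}
    (hv : v ∈ LinearMap.ker (ρ g - 1)) : ρ a v ∈ LinearMap.ker (ρ g - 1) := by
  rw [mem_ker_iff] at hv ⊢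
  rw [← Module.End.mul_apply, ← map_mul, h.eq, map_mul, Module.End.mul_apply, hv]

theorem cast_p_end : ((p : ℕ) : Module.End (ZMod p) V) = 0 := by
  rw [← map_natCast (algebraMap (ZMod p) _), ZMod.natCast_self, map_zero]

variable {ρ : Representation (ZMod p) G V} {K A : Subgroup G} (hK : IsComponent K)
  (hρ : ∃ k ∈ K, ρ k ≠ 1)
  (hmin : ∀ U : Submodule (ZMod p) V, (∀ k ∈ K, ∀ u ∈ U, ρ k u ∈ U) → (∀ a ∈ A, ∀ u ∈ U, ρ a u ∈ U) →
    U = ⊤ ∨ ∀ k ∈ K, ∀ u ∈ U, ρ k u = u)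
include hK hρ hmin

theorem eq_top_of_comm {U : Submodule (ZMod p) V} (hA : ∀ a ∈ A, ∀ u ∈ U, ρ a u ∈ U)
    (h : ∀ k ∈ K, ∀ v, ρ k v - v ∈ U) : U = ⊤ := by
  refine (hmin U (fun k hk u hu => ?_) hA).resolve_right fun h2 => ?_
  · simpa using U.add_mem (h k hk u) hu
  · refine not_quad hK ρ hρ fun k hk l hl => LinearMap.ext fun v => ?_
    exact sub_eq_zero.2 (h2 k hk _ (h l hl v))

theorem eq_one_of_cent (hA : IsElementaryAbelian p A) {a : G} (ha : a ∈ A)
    (hc : a ∈ centralizer (K : Set G)) : ρ a = 1 := by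
  haveI := hA.1
  have hAa : ∀ b ∈ A, Commute b a := fun b hb => setLike_mul_comm (s := A) hb ha
  have hinv : ∀ g, Commute g a → ∀ u ∈ LinearMap.range (ρ a - 1),
      ρ g u ∈ LinearMap.range (ρ a - 1) := by
    rintro g hg _ ⟨v, rfl⟩
    exact ⟨ρ g v, by
      rw [← Module.End.mul_apply, ← Module.End.mul_apply, (commute_sub_one (φ := ρ) hg).eq]⟩
  rcases hmin _ (fun k hk => hinv k (hc k hk)) (fun b hb => hinv b (hAa b hb)) with h | h
  · exfalso
    obtain ⟨k, -, hk⟩ := hρ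
    haveI : Nontrivial (Module.End (ZMod p) V) := ⟨⟨_, _, hk⟩⟩
    haveI : CharP (Module.End (ZMod p) V) p :=
      (CharP.charP_iff_prime_eq_zero hp.out).2 cast_p_end
    have h1 : (ρ a - 1 : Module.End (ZMod p) V) ^ p = 0 := by
      rw [sub_pow_char_of_commute _ (Commute.one_right _), ← map_pow, hA.2 a ha, map_one, one_pow,
        sub_self]
    have h2 := Module.End.iterate_surjective (LinearMap.range_eq_top.1 h) p
    rw [h1] at h2
    refine hk (LinearMap.ext fun v => ?_)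
    obtain ⟨w, rfl⟩ := h2 v
    simp
  · have h1 : LinearMap.ker (ρ a - 1) = ⊤ := by
      refine eq_top_of_comm hK hρ hmin (fun b hb u hu => ker_inv ρ (hAa b hb).symm hu)
        fun k hk v => ?_
      have h2 : k ∈ Lst ρ (ρ a - 1) := LinearMap.ext fun v => h k hk _ ⟨v, rfl⟩
      have h3 := mem_Lst'.1 (Lst_symm (hc k hk) h2)
      exact LinearMap.congr_fun h3 v
    exact sub_eq_zero.1 (LinearMap.ker_eq_top.1 h1)

end gen

theorem main_two [Finite G] [Finite V] [Module (ZMod 2) V] {ρ : Representation (ZMod 2) G V}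
    {K A : Subgroup G} (hK : IsComponent K) (hρ : ∃ k ∈ K, ρ k ≠ 1)
    (hmin : ∀ U : Submodule (ZMod 2) V, (∀ k ∈ K, ∀ u ∈ U, ρ k u ∈ U) →
      (∀ a ∈ A, ∀ u ∈ U, ρ a u ∈ U) → U = ⊤ ∨ ∀ k ∈ K, ∀ u ∈ U, ρ k u = u)
    (hA : IsElementaryAbelian 2 A)
    (hP : ∀ B : Subgroup G, B ≤ A → Nat.card ↥B * Nat.card {v : V // ∀ b ∈ B, ρ b v = v} ≤
      Nat.card ↥A * Nat.card {v : V // ∀ a ∈ A, ρ a v = v})
    {x : G} (hx : x ∈ A) (hx1 : ρ x ≠ 1) (hxA : ∀ a ∈ A, x ∈ Lst ρ (ρ a - 1)) :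
    A ≤ normalizer (K : Set G) := by
  classical
  haveI : Fact (Nat.Prime 2) := ⟨Nat.prime_two⟩
  haveI := hA.1
  by_contra hcon
  have hAA : ∀ a ∈ A, ∀ b ∈ A, Commute a b := fun a ha b hb => setLike_mul_comm (s := A) ha hb
  let φ := ρ.asGroupHom
  have hφ : ∀ g, (φ g : V →ₗ[ZMod 2] V) = ρ g := fun g => ρ.asGroupHom_apply g
  have hne : ∀ a ∈ A, ∀ b ∈ A, φ a ≠ φ b → a * b ∉ centralizer (K : Set G) := by
    intro a ha b hb hab h
    have h1 := eq_one_of_cent hK hρ hmin hA (mul_mem ha hb) h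
    have h2 : φ (a * b) = 1 := Units.ext (by rw [hφ, h1]; rfl)
    rw [map_mul, mul_eq_one_iff_eq_inv, ← map_inv, inv_eq_of_sq (hA.2 b hb)] at h2
    exact hab h2
  have hx' : x ∉ centralizer (K : Set G) := fun h => hx1 (eq_one_of_cent hK hρ hmin hA hx h)
  have halpha : ∀ c ∈ A, c ∉ normalizer (K : Set G) → φ c ≠ φ x → ∀ k ∈ K, ∀ v,
      ρ (nP c 2 k) v - v ∈ LinearMap.ker (ρ c - 1) := by
    intro c hc hcn hcx k hk v
    have h1 := nP_mem_two hK hcn (hA.2 c hc) (N := Lst ρ (ρ c - 1)) (fun k hk n hn =>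
      conj_mem_Lst (commute_sub_one (commute_nP hK hcn (hA.2 c hc) hk).symm) hn) (hxA c hc)
      (hAA x hx c hc) hx' (hne x hx c hc hcx.symm) k hk
    exact LinearMap.congr_fun
      (mem_Lst'.1 (Lst_symm (commute_nP hK hcn (hA.2 c hc) hk).symm h1)) v
  haveI : Finite (V →ₗ[ZMod 2] V) := Module.finite_of_finite (ZMod 2)
  haveI := Fintype.ofFinite (V →ₗ[ZMod 2] V)ˣ
  let Ab := A.map φ
  let A0 := (A ⊓ normalizer (K : Set G)).map φ
  let S : Finset (V →ₗ[ZMod 2] V)ˣ :=
    ((Finset.univ.filter (· ∈ Ab)) \ (Finset.univ.filter (· ∈ A0))).erase (φ x)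
  have hS : ∀ u ∈ S, ∃ c ∈ A, c ∉ normalizer (K : Set G) ∧ φ c ≠ φ x ∧ φ c = u := by
    intro u hu
    simp only [S, Finset.mem_erase, Finset.mem_sdiff, Finset.mem_filter, Finset.mem_univ,
      true_and] at hu
    obtain ⟨h1, ⟨c, hc, rfl⟩, h2⟩ := hu
    exact ⟨c, hc, fun h => h2 ⟨c, ⟨hc, h⟩, rfl⟩, h1, rfl⟩
  have hfix : ∀ c ∈ A, fixS ρ A ≤ LinearMap.ker (ρ c - 1) := fun c hc v hv =>
    (mem_ker_iff ρ).2 (hv c hc)
  have h1 : 3 * S.card + 1 ≤ (fixS ρ A).toAddSubgroup.index := by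
    refine count_le S (fun u => LinearMap.ker ((u : V →ₗ[ZMod 2] V) - 1)) _ 3 (fun u hu => ?_)
      (fun u hu => ?_) fun u hu u' hu' huu => ?_
    · obtain ⟨c, hc, -, -, rfl⟩ := hS u hu
      rw [hφ]; exact hfix c hc
    · obtain ⟨c, hc, hcn, -, rfl⟩ := hS u hu
      rw [hφ]; exact four_le_index ρ hK hρ hcn
    · obtain ⟨c, hc, hcn, hcx, rfl⟩ := hS u hu
      obtain ⟨c', hc', hcn', hcx', rfl⟩ := hS u' hu'
      rw [hφ, hφ]
      set U := LinearMap.ker (ρ c - 1) ⊔ LinearMap.ker (ρ c' - 1)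
      have hU : ∀ a ∈ A, ∀ u ∈ U, ρ a u ∈ U := by
        intro a ha u hu
        obtain ⟨y, hy, z, hz, rfl⟩ := Submodule.mem_sup.1 hu
        rw [map_add]
        exact Submodule.add_mem_sup (ker_inv ρ (hAA c hc a ha) hy) (ker_inv ρ (hAA c' hc' a ha) hz)
      let T : Subgroup G :=
        { carrier := {g | ∀ v, ρ g v - v ∈ U}
          one_mem' := fun v => by simp
          mul_mem' := fun {a b} ha hb v => by
            have := U.add_mem (ha (ρ b v)) (hb v)
            rwa [sub_add_sub_cancel, ← Module.End.mul_apply, ← map_mul] at this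
          inv_mem' := fun {a} ha v => by
            have := U.neg_mem (ha (ρ a⁻¹ v))
            simpa using this }
      have h2 : K ≤ T := by
        refine le_of_two_diag hK hcn (hA.2 c hc) hcn' (hA.2 c' hc') (hne c hc c' hc' huu)
          (fun s hs v => ?_) (fun k hk v => Submodule.mem_sup_left (halpha c hc hcn hcx k hk v))
          (fun k hk v => Submodule.mem_sup_right (halpha c' hc' hcn' hcx' k hk v))
        have := hU c hc _ (hs (ρ c⁻¹ v))
        simpa using this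
      exact eq_top_of_comm hK hρ hmin hU fun k hk => h2 hk
  have h2 : (fixS ρ A).toAddSubgroup.index ≤ Nat.card Ab := by
    have h3 := hP (φ.ker ⊓ A) inf_le_right
    have e1 : Nat.card {v : V // ∀ b ∈ φ.ker ⊓ A, ρ b v = v} = Nat.card V := by
      refine Nat.card_congr (Equiv.subtypeUnivEquiv fun v b hb => ?_)
      rw [← hφ, MonoidHom.mem_ker.1 hb.1]; rfl
    have e2 : Nat.card {v : V // ∀ a ∈ A, ρ a v = v} = Nat.card (fixS ρ A).toAddSubgroup := rfl
    have e3 : Nat.card A = Nat.card ↥(φ.ker ⊓ A) * Nat.card Ab := by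
      rw [← relIndex_ker, ← CL.Grp.card_inf_mul_relIndex φ.ker A]
    rw [e1, e2, e3, ← (fixS ρ A).toAddSubgroup.card_mul_index, mul_assoc] at h3
    have h4 := Nat.le_of_mul_le_mul_left h3 Nat.card_pos
    rw [mul_comm] at h4
    exact Nat.le_of_mul_le_mul_right h4 Nat.card_pos
  obtain ⟨c0, hc0, hc0n⟩ := SetLike.not_le_iff_exists.1 hcon
  have h3 : 2 * Nat.card A0 ≤ Nat.card Ab := by
    have hle : A0 ≤ Ab := map_mono inf_le_left
    have h4 := CL.Grp.card_mul_relIndex hle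
    have h5 : A0.relIndex Ab ≠ 1 := by
      rw [Ne, relIndex_eq_one]
      intro h
      obtain ⟨a, ha, e⟩ := h ⟨c0, hc0, rfl⟩
      have h6 : ρ (a⁻¹ * c0) = 1 := by rw [← hφ, map_mul, map_inv, e, inv_mul_cancel]; rfl
      have := mul_mem ha.2 (centralizer_le_normalizer _ (ker_le_cent hK ρ hρ h6))
      rw [mul_inv_cancel_left] at this
      exact hc0n this
    have h6 : A0.relIndex Ab ≠ 0 := index_ne_zero_of_finite
    rw [← h4, mul_comm]
    exact Nat.mul_le_mul_left _ (by omega)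
  have h4 : Nat.card Ab ≤ S.card + 1 + Nat.card A0 := by
    have e1 : Nat.card Ab = (Finset.univ.filter (· ∈ Ab)).card := by
      rw [Nat.card_eq_fintype_card, Fintype.card_subtype]
    have e2 : Nat.card A0 = (Finset.univ.filter (· ∈ A0)).card := by
      rw [Nat.card_eq_fintype_card, Fintype.card_subtype]
    have h5 := Finset.le_card_sdiff (Finset.univ.filter (· ∈ A0)) (Finset.univ.filter (· ∈ Ab))
    have h6 := Finset.pred_card_le_card_erase
      (s := (Finset.univ.filter (· ∈ Ab)) \ (Finset.univ.filter (· ∈ A0))) (a := φ x)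
    change _ ≤ S.card at h6
    omega
  have hidx : ∀ c ∈ A, (LinearMap.ker (ρ c - 1)).toAddSubgroup.index ≤
      (fixS ρ A).toAddSubgroup.index := fun c hc =>
    Nat.le_of_dvd (Nat.pos_of_ne_zero AddSubgroup.index_ne_zero_of_finite)
      (AddSubgroup.index_dvd_of_le (hfix c hc))
  have h5 := (four_le_index ρ hK hρ hc0n).trans (hidx c0 hc0)
  obtain ⟨u, hu⟩ : S.Nonempty := Finset.card_pos.1 (by omega)
  obtain ⟨c, hc, hcn, hcx, rfl⟩ := hS u hu
  have h6 : (LinearMap.ker (ρ c - 1)).toAddSubgroup ≤ (fixS ρ A).toAddSubgroup := by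
    have h7 := four_le_index ρ hK hρ hcn
    have h8 := AddSubgroup.relIndex_mul_index (show (fixS ρ A).toAddSubgroup ≤
      (LinearMap.ker (ρ c - 1)).toAddSubgroup from hfix c hc)
    rw [← AddSubgroup.relIndex_eq_one]
    have h9 : (fixS ρ A).toAddSubgroup.index = 4 := by omega
    have h10 : (LinearMap.ker (ρ c - 1)).toAddSubgroup.index = 4 := by
      have := hidx c hc
      omega
    rw [h9, h10] at h8
    omega
  let N : Subgroup G :=
    { carrier := {g | ∀ v ∈ LinearMap.ker (ρ c - 1), ρ g v = v}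
      one_mem' := fun v _ => by simp
      mul_mem' := fun {a b} ha hb v hv => by rw [map_mul, Module.End.mul_apply, hb v hv, ha v hv]
      inv_mem' := fun {a} ha v hv => by
        conv_lhs => rw [← ha v hv]
        simp }
  have hc2 := hA.2 c hc
  have h7 := nP_mem_two hK hcn hc2 (N := N) (fun k hk n hn v hv => by
    rw [map_mul, map_mul, Module.End.mul_apply, Module.End.mul_apply,
      hn _ (ker_inv ρ (commute_nP hK hcn hc2 hk).inv_right hv)]
    simp) (fun v hv => h6 hv x hx) (hAA x hx c hc) hx' (hne x hx c hc hcx.symm)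
  let ν : K →* G := MonoidHom.mk' (fun k => nP c 2 k) fun a b => nP_mul hK hcn hc2 le_rfl a.2 b.2
  have h8 := eq_of_perfect (MonoidHom.comp ρ ν) (K := ⊤)
    (CL.Loc.IsQuasisimple.perfect hK.2).commutator_eq_top 1 (fun k _ l _ => by
      rw [one_mul]
      exact LinearMap.ext fun v => sub_eq_zero.2 (h7 k k.2 _ (halpha c hc hcn hcx l l.2 v)))
  obtain ⟨k, hk, hkc⟩ := exists_not_cent hK
  exact nP_not_cent hK hcn hc2 hk hkc (ker_le_cent hK ρ hρ ((one_mul _).symm.trans (h8 ⟨k, hk⟩ trivial)))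

variable {p : ℕ} [hp : Fact p.Prime] [Module (ZMod p) V]

theorem main_min [Finite G] [Finite V] {ρ : Representation (ZMod p) G V}
    {K A : Subgroup G} (hK : IsComponent K) (hρ : ∃ k ∈ K, ρ k ≠ 1)
    (hmin : ∀ U : Submodule (ZMod p) V, (∀ k ∈ K, ∀ u ∈ U, ρ k u ∈ U) →
      (∀ a ∈ A, ∀ u ∈ U, ρ a u ∈ U) → U = ⊤ ∨ ∀ k ∈ K, ∀ u ∈ U, ρ k u = u)
    (hA : IsElementaryAbelian p A)
    (hP : ∀ B : Subgroup G, B ≤ A → Nat.card ↥B * Nat.card {v : V // ∀ b ∈ B, ρ b v = v} ≤
      Nat.card ↥A * Nat.card {v : V // ∀ a ∈ A, ρ a v = v}) :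
    A ≤ normalizer (K : Set G) := by
  by_contra hcon
  obtain ⟨c, hc, hcn⟩ := SetLike.not_le_iff_exists.1 hcon
  obtain ⟨x, hx, hx1, hxA⟩ := replacement ρ hA hP
    ⟨c, hc, fun h => hcn (centralizer_le_normalizer _ (ker_le_cent hK ρ hρ h))⟩
  by_cases hp2 : p = 2
  · subst hp2
    exact hcon (main_two hK hρ hmin hA hP hx hx1 hxA)
  · haveI := hA.1
    exact hcn (odd_case hK ρ hρ hp2 cast_p_end (hA.2 c hc) (hA.2 x hx)
      (fun h => hx1 (eq_one_of_cent hK hρ hmin hA hx h)) (setLike_mul_comm (s := A) hx hc)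
      (hxA x hx) fun i => hxA _ (pow_mem hc i))

/-- The P(G,V)-theorem: a best offender normalizes every component acting nontrivially. -/
theorem pgv [Finite G] [Finite V] (ρ : Representation (ZMod p) G V)
    {K A : Subgroup G} (hK : IsComponent K) (hρ : ∃ k ∈ K, ρ k ≠ 1)
    (hA : IsElementaryAbelian p A)
    (hP : ∀ B : Subgroup G, B ≤ A → Nat.card ↥B * Nat.card {v : V // ∀ b ∈ B, ρ b v = v} ≤
      Nat.card ↥A * Nat.card {v : V // ∀ a ∈ A, ρ a v = v}) :
    A ≤ normalizer (K : Set G) := by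
  let H := K ⊔ A
  let P : Submodule (ZMod p) V → Prop := fun U =>
    (∀ g ∈ H, ∀ u ∈ U, ρ g u ∈ U) ∧ ∃ k ∈ K, ∃ u ∈ U, ρ k u ≠ u
  haveI : Finite (Submodule (ZMod p) V) := Finite.of_injective _ SetLike.coe_injective
  obtain ⟨W, hW, hWmin⟩ := (Set.toFinite {U | P U}).exists_minimal ⟨⊤, fun _ _ _ _ => trivial, by
    obtain ⟨k, hk, h⟩ := hρ
    by_contra h2
    push Not at h2
    exact h (LinearMap.ext fun v => h2 k hk v trivial)⟩
  let ρ' : Representation (ZMod p) H W :=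
    Representation.subrepresentation (ρ.comp H.subtype) W fun g u hu => hW.1 g g.2 u hu
  have hρ' : ∀ (g : H) (w : W), (ρ' g w : V) = ρ g w := fun _ _ => rfl
  have hKH : K ≤ H := le_sup_left
  have hAH : A ≤ H := le_sup_right
  have key : A.subgroupOf H ≤ normalizer ((K.subgroupOf H : Subgroup H) : Set H) := by
    refine main_min (ρ := ρ') (CL.Loc.IsComponent.subgroupOf hK hKH) ?_ ?_ ?_ ?_
    · obtain ⟨k, hk, u, hu, h⟩ := hW.2
      exact ⟨⟨k, hKH hk⟩, hk, fun e => h (by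
        have := hρ' ⟨k, hKH hk⟩ ⟨u, hu⟩
        rw [e] at this
        exact this.symm)⟩
    · intro U h1 h2
      by_contra h3
      push Not at h3
      obtain ⟨h4, k, hk, u, hu, h5⟩ := h3
      let T : Subgroup G :=
        { carrier := {g | ∀ u ∈ U.map W.subtype, ρ g u ∈ U.map W.subtype}
          one_mem' := fun u hu => by simpa using hu
          mul_mem' := fun {a b} ha hb u hu => by
            rw [map_mul, Module.End.mul_apply]; exact ha _ (hb u hu)
          inv_mem' := fun {a} ha u hu => by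
            have h6 : ∀ n : ℕ, ρ (a ^ n) u ∈ U.map W.subtype := fun n => by
              induction n with
              | zero => simpa using hu
              | succ n ih => rw [pow_succ', map_mul, Module.End.mul_apply]; exact ha _ ih
            have e : a⁻¹ = a ^ (orderOf a - 1) := by
              rw [inv_eq_iff_mul_eq_one, ← pow_succ', Nat.sub_add_cancel (orderOf_pos a),
                pow_orderOf_eq_one]
            rw [e]; exact h6 _ }
      have hT : H ≤ T := by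
        refine sup_le (fun g hg => ?_) fun g hg => ?_
        · rintro _ ⟨w, hw, rfl⟩
          exact ⟨_, h1 ⟨g, hKH hg⟩ hg w hw, rfl⟩
        · rintro _ ⟨w, hw, rfl⟩
          exact ⟨_, h2 ⟨g, hAH hg⟩ hg w hw, rfl⟩
      have h7 := hWmin (y := U.map W.subtype) ⟨fun g hg => hT hg, k, hk, u, ⟨u, hu, rfl⟩,
        fun e => h5 (Subtype.ext e)⟩ (Submodule.map_subtype_le _ _)
      refine h4 (eq_top_iff.2 fun w _ => ?_)
      obtain ⟨w', hw', e⟩ := h7 w.2
      rwa [← show w' = w from Subtype.ext e]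
    · haveI := hA.1
      exact ⟨inferInstance, fun a ha => Subtype.ext (hA.2 a ha)⟩
    · intro B hB
      have hB' : B.map H.subtype ≤ A := map_le_iff_le_comap.2 hB
      have e1 : ∀ X : Subgroup H, Nat.card {w : W // ∀ b ∈ X, ρ' b w = w} =
          Nat.card ↥(fixS ρ (X.map H.subtype) ⊓ W) := fun X => Nat.card_congr
        ⟨fun w => ⟨w.1, by
            rintro _ ⟨b, hb, rfl⟩
            exact congrArg Subtype.val (w.2 b hb), w.1.2⟩,
          fun w => ⟨⟨w.1, w.2.2⟩, fun b hb => Subtype.ext (w.2.1 b ⟨b, hb, rfl⟩)⟩,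
          fun _ => rfl, fun _ => rfl⟩
      rw [e1, e1, subgroupOf_map_subtype, inf_eq_left.2 hAH,
        ← card_map_of_injective (K := B) H.subtype_injective,
        Nat.card_congr (subgroupOfEquivOfLe hAH).toEquiv]
      set B' := B.map H.subtype
      have h1 : Nat.card B' * Nat.card (fixS ρ B') ≤ Nat.card A * Nat.card (fixS ρ A) := hP B' hB'
      have h2 : fixS ρ A ≤ fixS ρ B' := fun v hv b hb => hv b (hB' hb)
      have h3 : Nat.card ↥(fixS ρ A ⊔ fixS ρ B' ⊓ W) * Nat.card ↥(fixS ρ A ⊓ W) =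
          Nat.card (fixS ρ A) * Nat.card ↥(fixS ρ B' ⊓ W) := by
        have hc : ∀ U : Submodule (ZMod p) V, Nat.card U =
          Nat.card (ZMod p) ^ Module.finrank (ZMod p) U := fun U => Module.natCard_eq_pow_finrank
        rw [hc, hc, hc, hc, ← pow_add, ← pow_add, ← Submodule.finrank_sup_add_finrank_inf_eq (fixS ρ A) (fixS ρ B' ⊓ W),
          ← inf_assoc, inf_eq_left.2 h2]
      have h4 : Nat.card ↥(fixS ρ A ⊔ fixS ρ B' ⊓ W) ≤ Nat.card (fixS ρ B') :=
        Nat.card_le_card_of_injective _ (Submodule.inclusion_injective (sup_le h2 inf_le_left))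
      refine Nat.le_of_mul_le_mul_right ?_ (Nat.card_pos (α := fixS ρ A))
      calc _ = Nat.card B' * (Nat.card (fixS ρ A) * Nat.card ↥(fixS ρ B' ⊓ W)) := by ring
        _ ≤ Nat.card B' * (Nat.card (fixS ρ B') * Nat.card ↥(fixS ρ A ⊓ W)) := by
          rw [← h3]; exact Nat.mul_le_mul_left _ (Nat.mul_le_mul_right _ h4)
        _ ≤ _ := by
          rw [← mul_assoc, mul_right_comm (Nat.card A)]
          exact Nat.mul_le_mul_right _ h1
  intro a ha
  have h := mem_normalizer_iff.1 (key (show (⟨a, hAH ha⟩ : H) ∈ A.subgroupOf H from ha))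
  have h' := mem_normalizer_iff.1 (key (show (⟨a⁻¹, hAH (inv_mem ha)⟩ : H) ∈ A.subgroupOf H from
    inv_mem ha))
  rw [mem_normalizer_iff]
  refine fun n => ⟨fun hn => (h ⟨n, hKH hn⟩).1 hn, fun hn => ?_⟩
  have : a⁻¹ * (a * n * a⁻¹) * a⁻¹⁻¹ ∈ K := (h' ⟨_, hKH hn⟩).1 hn
  simpa [mul_assoc] using this

end CL.Even.PGV
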