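/-
Sidki pairs: elementary lemmas.
-/
import Cfsg.Agent.Even.Isolated2
import Cfsg.Agent.Inv.BaerSuzuki
import Cfsg.Agent.Inv.Isolated
import Cfsg.Agent.Grp.MinNormal

set_option autoImplicit false
open Cfsg
open scoped Pointwise

namespace CL.Even

variable {G : Type*} [Group G]

theorem sidki_eq_one_of_odd_of_eq_inv {h : G} (ho : Odd (orderOf h)) (e : h = h⁻¹) : h = 1 := by
  have h2 : orderOf h ∣ 2 := orderOf_dvd_of_pow_eq_one (by rw [sq]; nth_rw 2 [e]; exact mul_inv_cancel h)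
  rw [← orderOf_eq_one_iff]
  exact Nat.Coprime.eq_one_of_dvd (Nat.coprime_two_right.mpr ho) h2

theorem sidki_eq_one_of_inverts_of_commute {h v : G} (ho : Odd (orderOf h))
    (e : v * h * v⁻¹ = h⁻¹) (c : v * h = h * v) : h = 1 :=
  sidki_eq_one_of_odd_of_eq_inv ho (by rw [← e, c, mul_inv_cancel_right])

theorem sidki_odd_mul {x y : G} (hx : Odd (orderOf x)) (hy : Odd (orderOf y)) (c : Commute x y) :
    Odd (orderOf (x * y)) :=
  Odd.of_dvd_nat (hx.mul hy) c.orderOf_mul_dvd_mul_orderOf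

theorem sidki_mul_self {V : Subgroup G} (hV : IsElementaryAbelian 2 V) {v : G} (hv : v ∈ V) :
    v * v = 1 := by rw [← sq]; exact hV.2 v hv

theorem sidki_mem_zpowers {a u : G} (ha : a * a = 1) (hu : u ∈ Subgroup.zpowers a) :
    u = 1 ∨ u = a := by
  obtain ⟨k, rfl⟩ := hu
  have h2 : a ^ (2 : ℤ) = 1 := by rw [zpow_two, ha]
  rcases Int.even_or_odd' k with ⟨m, rfl | rfl⟩
  · left; simp only [zpow_mul, h2, one_zpow]
  · right; simp only [zpow_add, zpow_mul, h2, one_zpow, one_mul, zpow_one]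

theorem exists_odd_inverted_of_not_mem_pCore [Finite G] {t : G} (ht : t * t = 1)
    (h : t ∉ pCore 2 G) : ∃ x : G, x ≠ 1 ∧ Odd (orderOf x) ∧ t * x * t⁻¹ = x⁻¹ := by
  obtain ⟨x, h1, h2, h3, -⟩ := CL.Inv.invol_inverts_odd_of_not_mem ht fun hp =>
    h (CL.Grp.le_pCore hp (Subgroup.subset_normalClosure rfl))
  exact ⟨x, h1, h2, h3⟩

theorem isSidkiPair_subgroupOf {V H : Subgroup G} (hVH : V ≤ H)
    (h : ∀ x ∈ H, ∀ v ∈ V, Odd (orderOf x) → v * x * v⁻¹ = x⁻¹ →
      ∃ w ∈ V, w ≠ 1 ∧ w * x = x * w) : IsSidkiPair (V.subgroupOf H) := by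
  intro x v hv ho e
  obtain ⟨w, hw, h1, h2⟩ := h x x.2 v hv (by rwa [Subgroup.orderOf_coe]) (congrArg Subtype.val e)
  exact ⟨⟨w, hVH hw⟩, hw, fun h => h1 (congrArg Subtype.val h), Subtype.ext h2⟩

theorem IsSidkiPair.centralizer {V : Subgroup G} (hV : IsElementaryAbelian 2 V)
    (hS : IsSidkiPair V) {v x : G} (hv : v ∈ V) (hx : Odd (orderOf x))
    (hinv : v * x * v⁻¹ = x⁻¹) {h u : G} (hhv : h * v = v * h) (hhx : h * x = x * h) (hu : u ∈ V)
    (hux : u * x = x * u) (ho : Odd (orderOf h)) (e : u * h * u⁻¹ = h⁻¹) :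
    ∃ w ∈ V, w ≠ 1 ∧ w * x = x * w ∧ w * h = h * w := by
  have h1 : u * v * (x * h) * (u * v)⁻¹ = (x * h)⁻¹ := by
    calc u * v * (x * h) * (u * v)⁻¹ = u * (v * x * v⁻¹) * u⁻¹ * (u * (v * h) * v⁻¹ * u⁻¹) := by group
      _ = (u * x * u⁻¹)⁻¹ * (u * h * u⁻¹) := by rw [hinv, ← hhv]; group
      _ = (h * x)⁻¹ := by rw [e, hux]; group
      _ = _ := by rw [hhx]
  obtain ⟨w, hw, hw1, hc⟩ := hS (x * h) (u * v) (V.mul_mem hu hv)
    (sidki_odd_mul hx ho hhx.symm) h1
  have hc' : Commute w (x * h) := hc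
  have hwv : Commute w v := CL.Loc.ea_commute hV hw hv
  have h2 : Commute w (v * (x * h) * v⁻¹) := (hwv.mul_right hc').mul_right hwv.inv_right
  have h3 : v * (x * h) * v⁻¹ * (x * h) = h * h := by
    calc v * (x * h) * v⁻¹ * (x * h) = (v * x * v⁻¹) * (v * h) * v⁻¹ * (x * h) := by group
      _ = x⁻¹ * (h * x) * h := by rw [hinv, ← hhv]; group
      _ = h * h := by rw [hhx]; group
  have h4 : Commute h w := CL.Inv.commute_of_commute_sq ho (h3 ▸ (h2.mul_right hc').symm)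
  refine ⟨w, hw, hw1, ?_, h4.symm⟩
  have := hc'.mul_right h4.symm.inv_right
  rwa [mul_inv_cancel_right] at this

/-- An element of odd order inverted by the image of an involution lifts, up to a generating power. -/
theorem exists_odd_inverted_lift [Finite G] {K : Type*} [Group K] {f : G →* K}
    (hf : Function.Surjective f) {v : G} (hv : v * v = 1) {h : K} (ho : Odd (orderOf h))
    (e : f v * h * (f v)⁻¹ = h⁻¹) :
    ∃ x : G, Odd (orderOf x) ∧ v * x * v⁻¹ = x⁻¹ ∧ ∀ k : K, Commute (f x) k → Commute h k := by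
  obtain ⟨g, rfl⟩ := hf h
  have hs := CL.Inv.conj_mul_self hv g⁻¹
  have h1 := CL.Inv.left_inverts_mul hv hs
  obtain ⟨k, m, hm, hkm⟩ := Nat.exists_eq_two_pow_mul_odd
    (orderOf_pos (v * (g⁻¹ * v * g⁻¹⁻¹))).ne'
  refine ⟨(v * (g⁻¹ * v * g⁻¹⁻¹)) ^ 2 ^ k, ?_, CL.Inv.conj_pow_of_inverts h1 _, ?_⟩
  · refine Odd.of_dvd_nat hm (orderOf_dvd_of_pow_eq_one ?_)
    rw [← pow_mul, ← hkm, pow_orderOf_eq_one]
  · have h2 : f (v * (g⁻¹ * v * g⁻¹⁻¹)) = f g ^ 2 := by
      have h3 : f v = (f v)⁻¹ := by rw [← map_inv, CL.Inv.inv_eq_self_of_mul_self hv]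
      rw [map_mul, map_mul, map_mul, map_inv, inv_inv, sq]
      calc f v * ((f g)⁻¹ * f v * f g) = (f v * f g * (f v)⁻¹)⁻¹ * f g := by
            conv_lhs => rw [← mul_assoc, ← mul_assoc]; congr; congr; rfl; rw [h3]
            group
        _ = _ := by rw [e, inv_inv]
    intro c hc
    rw [map_pow, h2, ← pow_mul] at hc
    have h4 : (2 * 2 ^ k).Coprime (orderOf (f g)) := by
      rw [← pow_succ']
      exact Nat.Coprime.pow_left _ (Nat.coprime_two_left.mpr ho)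
    obtain ⟨n, hn⟩ := exists_pow_eq_self_of_coprime h4
    rw [← hn]
    exact hc.pow_left n

theorem IsSidkiPair.map [Finite G] {K : Type*} [Group K] {f : G →* K}
    (hf : Function.Surjective f) {V : Subgroup G} (hV : IsElementaryAbelian 2 V)
    (hS : IsSidkiPair V) (hk : V ⊓ f.ker = ⊥) : IsSidkiPair (V.map f) := by
  rintro h _ ⟨v, hv, rfl⟩ ho e
  obtain ⟨x, hx, h1, h2⟩ := exists_odd_inverted_lift hf (sidki_mul_self hV hv) ho e
  obtain ⟨w, hw, hw1, hc⟩ := hS x v hv hx h1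
  refine ⟨f w, ⟨w, hw, rfl⟩, fun h => hw1 ?_, (h2 _ (Commute.map hc.symm f)).symm⟩
  exact Subgroup.mem_bot.mp (hk ▸ ⟨hw, h⟩)

/-- The Sidki statement for `|V| ≤ 4`. -/
theorem IsSidkiPair.inf_pCore_ne_bot_of_card_le_four [Finite G] {V : Subgroup G}
    (hV : IsElementaryAbelian 2 V) (hV1 : V ≠ ⊥) (hS : IsSidkiPair V) (h4 : Nat.card V ≤ 4) :
    V ⊓ pCore 2 G ≠ ⊥ := by
  intro hO
  have hinv : ∀ t ∈ V, t ≠ 1 → ∃ x : G, x ≠ 1 ∧ Odd (orderOf x) ∧ t * x * t⁻¹ = x⁻¹ :=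
    fun t ht h1 => exists_odd_inverted_of_not_mem_pCore (sidki_mul_self hV ht)
      fun h => h1 (Subgroup.mem_bot.mp (hO ▸ ⟨ht, h⟩))
  obtain ⟨⟨v, hv⟩, hv1⟩ := Subgroup.ne_bot_iff_exists_ne_one.mp hV1
  obtain ⟨x, hx1, hxo, hvx⟩ := hinv v hv fun h => hv1 (Subtype.ext h)
  obtain ⟨a, ha, ha1, hax⟩ := hS x v hv hxo hvx
  obtain ⟨y, hy1, hyo, hay⟩ := hinv a ha ha1
  obtain ⟨b, hb, hb1, hby⟩ := hS y a ha hyo hay
  have haa := sidki_mul_self hV ha
  have hbb := sidki_mul_self hV hb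
  have hab : a ≠ b := fun e => hy1 (sidki_eq_one_of_inverts_of_commute hyo hay (e ▸ hby))
  have hcomm : Subgroup.zpowers a ≤ Subgroup.normalizer (Subgroup.zpowers b : Set G) :=
    CL.Loc.ea_le_normalizer_of_le hV (Subgroup.zpowers_le.mpr ha) (Subgroup.zpowers_le.mpr hb)
  have hall : ∀ u ∈ V, u = 1 ∨ u = a ∨ u = b ∨ u = a * b := by
    have h1 : Subgroup.zpowers a ⊓ Subgroup.zpowers b = ⊥ := by
      rw [eq_bot_iff]
      rintro u ⟨h1, h2⟩
      rcases sidki_mem_zpowers haa h1 with rfl | rfl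
      · rfl
      · exact (sidki_mem_zpowers hbb h2).resolve_right hab
    have h2 : Subgroup.zpowers a ⊔ Subgroup.zpowers b = V := by
      refine Subgroup.eq_of_le_of_card_ge
        (sup_le (Subgroup.zpowers_le.mpr ha) (Subgroup.zpowers_le.mpr hb)) ?_
      rw [CL.Grp.card_sup_of_inf_eq_bot hcomm h1, Nat.card_zpowers, Nat.card_zpowers,
        CL.Inv.orderOf_two_of_mul_self haa ha1, CL.Inv.orderOf_two_of_mul_self hbb hb1]
      exact h4
    intro u hu
    obtain ⟨c, hc, d, hd, rfl⟩ := (CL.Grp.mem_sup_of_le_normalizer hcomm).mp (h2 ▸ hu)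
    rcases sidki_mem_zpowers haa hc with rfl | rfl <;>
      rcases sidki_mem_zpowers hbb hd with rfl | rfl <;> simp
  have hax' : a * x * a⁻¹ = x := by rw [hax, mul_inv_cancel_right]
  have hby' : b * y * b⁻¹ = y := by rw [hby, mul_inv_cancel_right]
  have hbx : b * x * b⁻¹ = x⁻¹ := by
    rcases hall v hv with rfl | rfl | rfl | rfl
    · exact absurd rfl hv1
    · exact absurd (sidki_eq_one_of_inverts_of_commute hxo hvx hax) hx1
    · exact hvx
    · rw [CL.Loc.ea_mul_comm hV ha hb] at hvx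
      rw [← hvx]
      conv_lhs => rw [← hax']
      group
  have hnc : ¬ Commute x y := by
    intro c
    have h1 : a * b * (x * y) * (a * b)⁻¹ = (x * y)⁻¹ := by
      calc a * b * (x * y) * (a * b)⁻¹ = a * (b * x * b⁻¹) * a⁻¹ * (a * (b * y * b⁻¹) * a⁻¹) := by
            group
        _ = (a * x * a⁻¹)⁻¹ * (a * y * a⁻¹) := by rw [hbx, hby']; group
        _ = (y * x)⁻¹ := by rw [hax', hay]; group
        _ = _ := by rw [c.eq]
    have h2 := sidki_odd_mul hxo hyo c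
    obtain ⟨w, hw, hw1, hc⟩ := hS _ _ (V.mul_mem ha hb) h2 h1
    have key : Commute a (x * y) → False := fun h =>
      hy1 (sidki_eq_one_of_inverts_of_commute hyo hay (by
        have := (Commute.inv_right hax).mul_right h
        rwa [inv_mul_cancel_left] at this))
    rcases hall w hw with rfl | rfl | rfl | rfl
    · exact hw1 rfl
    · exact key hc
    · refine hx1 (sidki_eq_one_of_inverts_of_commute hxo hbx ?_)
      have := (show Commute w (x * y) from hc).mul_right (Commute.inv_right hby)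
      rwa [mul_inv_cancel_right] at this
    · exact key (by rw [sidki_eq_one_of_inverts_of_commute h2 h1 hc]; exact Commute.one_right a)
  have hz : a * (x * y * x⁻¹) * a⁻¹ = (x * y * x⁻¹)⁻¹ := by
    calc a * (x * y * x⁻¹) * a⁻¹ = (a * x * a⁻¹) * (a * y * a⁻¹) * (a * x * a⁻¹)⁻¹ := by group
      _ = _ := by rw [hax', hay]; group
  have hzo : Odd (orderOf (x * y * x⁻¹)) := by rwa [CL.Inv.orderOf_conj]
  have hbz : b * (x * y * x⁻¹) * b⁻¹ = x⁻¹ * y * x := by
    calc b * (x * y * x⁻¹) * b⁻¹ = (b * x * b⁻¹) * (b * y * b⁻¹) * (b * x * b⁻¹)⁻¹ := by group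
      _ = _ := by rw [hbx, hby']; group
  obtain ⟨w, hw, hw1, hc⟩ := hS _ _ ha hzo hz
  rcases hall w hw with rfl | rfl | rfl | rfl
  · exact hw1 rfl
  · have := sidki_eq_one_of_inverts_of_commute hzo hz hc
    exact hy1 (by simpa using this)
  · refine hnc (CL.Inv.commute_of_commute_sq hxo ?_)
    rw [hc, mul_inv_cancel_right] at hbz
    change x * x * y = y * (x * x)
    calc x * x * y = x * (x * y * x⁻¹) * x := by group
      _ = _ := by rw [hbz]; group
  · have h1 : x * x * y * (x * x)⁻¹ = y⁻¹ := by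
      have h2 : a * (b * (x * y * x⁻¹) * b⁻¹) * a⁻¹ = x * y * x⁻¹ := by
        calc _ = a * b * (x * y * x⁻¹) * (a * b)⁻¹ := by group
          _ = _ := by rw [hc]; group
      have h3 : a * (x⁻¹ * y * x) * a⁻¹ = x⁻¹ * y⁻¹ * x := by
        calc _ = (a * x * a⁻¹)⁻¹ * (a * y * a⁻¹) * (a * x * a⁻¹) := by group
          _ = _ := by rw [hax', hay]
      rw [hbz, h3] at h2
      calc x * x * y * (x * x)⁻¹ = x * (x * y * x⁻¹) * x⁻¹ := by group
        _ = _ := by rw [← h2]; group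
    refine hnc (CL.Inv.commute_of_commute_sq hxo (CL.Inv.commute_of_commute_sq
      (sidki_odd_mul hxo hxo rfl) ?_))
    change x * x * (x * x) * y = y * (x * x * (x * x))
    calc x * x * (x * x) * y = x * x * (x * x * y * (x * x)⁻¹) * (x * x) := by group
      _ = (x * x * y * (x * x)⁻¹)⁻¹ * (x * x * (x * x)) := by
          conv_lhs => rw [h1]
          simp only [mul_inv_rev, inv_inv, mul_assoc, inv_mul_cancel_left]
      _ = _ := by rw [h1, inv_inv]

end CL.Even
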