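/-
Sidki pairs: the minimal counterexample is almost simple.
-/
import Cfsg.Agent.Even.Sidki

set_option autoImplicit false
open Cfsg
open scoped Pointwise

namespace CL.Even

variable {G : Type*} [Group G]

theorem mem_centralizer_of_mem_pCoreOf {p : ℕ} (hO : pCore p G = ⊥) {H K : Subgroup G} {w : G}
    (hw : w ∈ pCoreOf p H) (hKH : K ≤ H) (hK : K.IsSubnormal)
    (hn : w ∈ Subgroup.normalizer (K : Set G)) : w ∈ Subgroup.centralizer (K : Set G) := by
  intro k hk
  have h1 : w * k * w⁻¹ * k⁻¹ ∈ pCoreOf p H ⊓ K := by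
    refine ⟨?_, K.mul_mem ((Subgroup.mem_normalizer_iff.mp hn k).mp hk) (K.inv_mem hk)⟩
    have := Subgroup.mul_mem _ hw ((Subgroup.mem_normalizer_iff.mp
      (CL.Grp.le_normalizer_pCoreOf p H (hKH hk)) _).mp (Subgroup.inv_mem _ hw))
    simpa [mul_assoc] using this
  have h2 := CL.Grp.pCoreOf_le_pCore_of_isSubnormal hK (CL.Grp.pCoreOf_inf_le hKH h1)
  rw [hO, Subgroup.mem_bot, mul_inv_eq_one, mul_inv_eq_iff_eq_mul] at h2
  exact h2.symm

theorem sidki_mem_of_odd {V W N : Subgroup G} (hV : IsElementaryAbelian 2 V) (hWV : W ≤ V)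
    (hn : W ≤ Subgroup.normalizer (N : Set G)) {x : G} (hx : x ∈ N ⊔ W) (ho : Odd (orderOf x)) :
    x ∈ N := by
  obtain ⟨n, hnN, w, hw, e⟩ := (CL.Grp.mem_sup_of_le_normalizer' hn).mp hx
  have h1 : x ^ 2 ∈ N := by
    have := N.mul_mem hnN ((Subgroup.mem_normalizer_iff.mp (hn hw) n).mp hnN)
    rwa [CL.Inv.inv_eq_self_of_mul_self (sidki_mul_self hV (hWV hw)), ← mul_assoc, ← mul_assoc, e,
      mul_assoc, e, ← sq] at this
  obtain ⟨m, hm⟩ := exists_pow_eq_self_of_coprime (Nat.coprime_two_left.mpr ho)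
  exact hm ▸ N.pow_mem h1 m

theorem le_of_sup_eq_top_of_perfect {p : ℕ} {V N K : Subgroup G} (hV : IsElementaryAbelian p V)
    [N.Normal] (hs : N ⊔ V = ⊤) (hK : ⁅K, K⁆ = K) : K ≤ N := by
  rw [← hK]
  refine (Subgroup.commutator_mono le_top le_top).trans ?_
  rw [← commutator_def, ← Subgroup.Normal.quotient_commutative_iff_commutator_le]
  refine ⟨⟨fun a b => ?_⟩⟩
  have key : ∀ a : G ⧸ N, ∃ v ∈ V, a = QuotientGroup.mk v := by
    intro a
    obtain ⟨g, rfl⟩ := QuotientGroup.mk_surjective a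
    obtain ⟨n, hn, v, hv, rfl⟩ := (CL.Grp.mem_sup_of_le_normalizer'
      (Subgroup.le_normalizer_of_normal (H := N) (K := V))).mp (hs ▸ Subgroup.mem_top g)
    exact ⟨v, hv, by rw [QuotientGroup.mk_mul, (QuotientGroup.eq_one_iff n).mpr hn, one_mul]⟩
  obtain ⟨v, hv, rfl⟩ := key a
  obtain ⟨w, hw, rfl⟩ := key b
  rw [← QuotientGroup.mk_mul, ← QuotientGroup.mk_mul, CL.Loc.ea_mul_comm hV hv hw]

/-- The consequence of minimality for proper subgroups. -/
def SidkiSub (V : Subgroup G) : Prop :=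
  ∀ H W : Subgroup G, H ≠ ⊤ → W ≤ V → W ≤ H → W ≠ ⊥ →
    (∀ x ∈ H, ∀ v ∈ W, Odd (orderOf x) → v * x * v⁻¹ = x⁻¹ → ∃ w ∈ W, w ≠ 1 ∧ w * x = x * w) →
    ∃ w ∈ W, w ≠ 1 ∧ w ∈ pCoreOf 2 H

section
variable {V : Subgroup G} (hV : IsElementaryAbelian 2 V) (hV1 : V ≠ ⊥) (hS : IsSidkiPair V)
  (hO : pCore 2 G = ⊥) (hsub : SidkiSub V)
include hV1 hS hO hsub

theorem SidkiSub.exists_centralizer {N : Subgroup G} [hN : N.Normal] (h : N ⊔ V ≠ ⊤) :
    ∃ w ∈ V, w ≠ 1 ∧ w ∈ Subgroup.centralizer (N : Set G) := by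
  obtain ⟨w, hw, h1, h2⟩ := hsub _ V h le_rfl le_sup_right hV1 fun x _ v hv => hS x v hv
  exact ⟨w, hw, h1, mem_centralizer_of_mem_pCoreOf hO h2 le_sup_left hN.isSubnormal
    (Subgroup.le_normalizer_of_normal (K := V) hw)⟩

omit hV1 hO in
include hV in
theorem SidkiSub.exists_centralizer_pair {v x : G} (hv : v ∈ V) (hx1 : x ≠ 1)
    (hx : Odd (orderOf x)) (hinv : v * x * v⁻¹ = x⁻¹) :
    ∃ w ∈ V, w ≠ 1 ∧ w * x = x * w ∧ w ∈ pCoreOf 2 (Subgroup.centralizer ({v} : Set G) ⊓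
      Subgroup.centralizer ({x} : Set G)) := by
  have hmem : ∀ w ∈ V, w * x = x * w → w ∈ (Subgroup.centralizer ({v} : Set G) ⊓
      Subgroup.centralizer ({x} : Set G)) ⊓ V := fun w hw h =>
    ⟨⟨Subgroup.mem_centralizer_singleton_iff.mpr (CL.Loc.ea_mul_comm hV hw hv),
      Subgroup.mem_centralizer_singleton_iff.mpr h⟩, hw⟩
  obtain ⟨w, hw, h1, h2⟩ := hsub (Subgroup.centralizer ({v} : Set G) ⊓
      Subgroup.centralizer ({x} : Set G)) _ (fun e => hx1 (sidki_eq_one_of_inverts_of_commute hx hinv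
        (Subgroup.mem_centralizer_singleton_iff.mp (e.ge (Subgroup.mem_top x)).1).symm))
    inf_le_right inf_le_left (fun h => by
      obtain ⟨w, hw, hw1, hc⟩ := hS x v hv hx hinv
      exact hw1 (Subgroup.mem_bot.mp (h ▸ hmem w hw hc))) (fun h hh u hu ho e => by
      obtain ⟨w, hw, hw1, h1, h2⟩ := IsSidkiPair.centralizer hV hS hv hx hinv
        (Subgroup.mem_centralizer_singleton_iff.mp hh.1)
        (Subgroup.mem_centralizer_singleton_iff.mp hh.2) hu.2
        (Subgroup.mem_centralizer_singleton_iff.mp hu.1.2) ho e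
      exact ⟨w, hmem w hw h1, hw1, h2⟩)
  exact ⟨w, hw.2, h1, Subgroup.mem_centralizer_singleton_iff.mp hw.1.2, h2⟩

include hV in
theorem SidkiSub.exists_centralizer_both {N M : Subgroup G} [hN : N.Normal] [hM : M.Normal]
    (hc : M ≤ Subgroup.centralizer (N : Set G)) (h1 : N ⊔ V ≠ ⊤) (h2 : M ⊔ V ≠ ⊤) :
    ∃ w ∈ V, w ≠ 1 ∧ w ∈ Subgroup.centralizer (N : Set G) ∧
      w ∈ Subgroup.centralizer (M : Set G) := by
  obtain ⟨w₀, hw₀, hw₀1, hw₀M⟩ := SidkiSub.exists_centralizer hV1 hS hO hsub h2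
  obtain ⟨w, hw, hw1, h3⟩ := hsub (N ⊔ V ⊓ Subgroup.centralizer (M : Set G))
    (V ⊓ Subgroup.centralizer (M : Set G))
    (fun e => h1 (eq_top_iff.mpr (e.ge.trans (sup_le_sup_left inf_le_left N)))) inf_le_left
    le_sup_right (fun e => hw₀1 (Subgroup.mem_bot.mp (e ▸ ⟨hw₀, hw₀M⟩))) (fun x hx v hv ho e => by
      by_cases hx1 : x = 1
      · exact ⟨w₀, ⟨hw₀, hw₀M⟩, hw₀1, by rw [hx1, one_mul, mul_one]⟩
      have hxN := sidki_mem_of_odd hV inf_le_left Subgroup.le_normalizer_of_normal hx ho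
      obtain ⟨w, hw, hw1, h4, h5⟩ := SidkiSub.exists_centralizer_pair hV hS hsub hv.1 hx1 ho e
      refine ⟨w, ⟨hw, mem_centralizer_of_mem_pCoreOf hO h5 (fun m hm => ⟨?_, ?_⟩) hM.isSubnormal
        (Subgroup.le_normalizer_of_normal (K := V) hw)⟩, hw1, h4⟩
      · exact Subgroup.mem_centralizer_singleton_iff.mpr (hv.2 m hm)
      · exact Subgroup.mem_centralizer_singleton_iff.mpr (hc hm x hxN).symm)
  exact ⟨w, hw.1, hw1, mem_centralizer_of_mem_pCoreOf hO h3 le_sup_left hN.isSubnormal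
    (Subgroup.le_normalizer_of_normal (K := V) hw.1), hw.2⟩

omit hV1 hS hsub in
include hV in
theorem sidki_eq_one_of_mem_fitting [Finite G] {w : G} (hw : w ∈ V)
    (h : w ∈ fittingSubgroup G) : w = 1 := by
  have := CL.Grp.le_pCore_of_le_fittingSubgroup
    ((CL.Loc.ea_isPGroup hV).to_le (Subgroup.zpowers_le.mpr hw)) (Subgroup.zpowers_le.mpr h)
  rw [hO, le_bot_iff, Subgroup.zpowers_eq_bot] at this
  exact this

include hV in
theorem SidkiSub.sup_fstar_eq_top [Finite G] : V ⊔ generalizedFittingSubgroup G = ⊤ := by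
  by_contra h
  obtain ⟨w, hw, h1, h2⟩ := SidkiSub.exists_centralizer hV1 hS hO hsub (sup_comm V _ ▸ h)
  exact h1 (sidki_eq_one_of_mem_fitting hV hO hw (CL.Loc.centralizer_fstar_le_fitting h2))

include hV in
theorem SidkiSub.fitting_eq_bot [Finite G]
    (hq : ∀ (N : Subgroup G) [N.Normal], N ≠ ⊥ → V ⊓ N = ⊥ →
      V.map (QuotientGroup.mk' N) ⊓ pCore 2 (G ⧸ N) ≠ ⊥) : fittingSubgroup G = ⊥ := by
  by_contra hF
  have htop := SidkiSub.sup_fstar_eq_top hV hV1 hS hO hsub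
  set F := generalizedFittingSubgroup G with hFdef
  obtain ⟨N, hN, hNF⟩ := CL.Grp.exists_isMinNormal_le _ hF
  have := hN.normal
  have hNC : F ≤ Subgroup.centralizer (N : Set G) := by
    refine sup_le ?_ hN.fittingSubgroup_le_centralizer
    exact CL.Loc.layer_le_centralizer_fitting.trans (Subgroup.centralizer_le hNF)
  have hNF' : N ≤ F := hNF.trans CL.Loc.fitting_le_fstar
  have hodd : ∀ n ∈ N, Odd (orderOf n) := by
    intro n hn
    by_contra h
    obtain ⟨y, hy, hy2⟩ := spe_exists_orderOf_of_dvd_card (p := 2) (H := Subgroup.zpowers n)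
      (by rw [Nat.card_zpowers]; exact (Nat.not_odd_iff_even.mp h).two_dvd)
    have := CL.Grp.le_pCore_of_le_fittingSubgroup (spe_isPGroup_zpowers_of_prime hy2)
      (Subgroup.zpowers_le.mpr (hNF (Subgroup.zpowers_le.mpr hn hy)))
    rw [hO, le_bot_iff, Subgroup.zpowers_eq_bot] at this
    exact spe_ne_one_of_orderOf_prime hy2 this
  have hmin : ∀ u ∈ V, N ⊓ Subgroup.centralizer ({u} : Set G) = ⊥ ∨
      N ≤ Subgroup.centralizer ({u} : Set G) := by
    intro u hu
    refine (hN.min (N ⊓ Subgroup.centralizer ({u} : Set G))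
      (CL.Grp.normal_of_sup_le_normalizer htop ?_ ?_) inf_le_left).imp_right inf_eq_left.mp
    · refine CL.Grp.le_normalizer_inf Subgroup.le_normalizer_of_normal
        (le_trans (fun w hw => ?_) Subgroup.le_normalizer)
      exact Subgroup.mem_centralizer_singleton_iff.mpr (CL.Loc.ea_mul_comm hV hw hu)
    · exact CL.Grp.le_normalizer_of_le_centralizer
        (hNC.trans (Subgroup.centralizer_le (by exact_mod_cast inf_le_left)))
  obtain ⟨⟨_, ⟨v, hv, rfl⟩, hvO⟩, hv1⟩ := Subgroup.ne_bot_iff_exists_ne_one.mp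
    (hq N hN.ne_bot (eq_bot_iff.mpr fun w hw =>
      sidki_eq_one_of_mem_fitting hV hO hw.1 (hNF hw.2)))
  have hv1' : v ≠ 1 := by
    rintro rfl
    exact hv1 (Subtype.ext (map_one _))
  have hvv := sidki_mul_self hV hv
  -- `[v, F] ≤ N`
  have hR : (pCore 2 (G ⧸ N)).comap (QuotientGroup.mk' N) ⊓ F ≤ N := by
    set R := (pCore 2 (G ⧸ N)).comap (QuotientGroup.mk' N) ⊓ F
    obtain ⟨S, hSR⟩ := CL.Grp.exists_isSylowIn 2 R
    obtain ⟨k, hk⟩ := IsPGroup.iff_card.mp ((CL.Grp.pCore_isPGroup 2 (G ⧸ N)).to_le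
      (Subgroup.map_le_iff_le_comap.mpr (inf_le_left : R ≤ _)))
    rw [CL.Grp.card_map_mk'] at hk
    have h1 : R ≤ Subgroup.normalizer (S : Set G) := by
      intro r hr
      obtain ⟨n, hn, s, hs, rfl⟩ := hSR.exists_mul_eq_of_relIndex_pow hk hr
      refine Subgroup.mul_mem _ (Subgroup.centralizer_le_normalizer _ fun y hy => ?_)
        (Subgroup.le_normalizer hs)
      exact (hNC (hSR.le hy).2 n hn).symm
    have h2 := CL.Grp.le_pCore_of_isSubnormal ((CL.Grp.SubnIn.of_le_normalizer hSR.le h1).isSubnormal_of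
      (Subgroup.Normal.isSubnormal inferInstance)) hSR.isPGroup
    rw [hO] at h2
    intro r hr
    obtain ⟨n, hn, s, hs, rfl⟩ := hSR.exists_mul_eq_of_relIndex_pow hk hr
    rwa [Subgroup.mem_bot.mp (h2 hs), mul_one]
  have hcomm : ∀ f ∈ F, v * f * v⁻¹ * f⁻¹ ∈ N := by
    intro f hf
    refine hR ⟨?_, F.mul_mem ((inferInstance : F.Normal).conj_mem f hf v) (F.inv_mem hf)⟩
    have h1 : v ∈ (pCore 2 (G ⧸ N)).comap (QuotientGroup.mk' N) := hvO
    have := Subgroup.mul_mem _ h1 ((inferInstance : ((pCore 2 (G ⧸ N)).comap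
      (QuotientGroup.mk' N)).Normal).conj_mem _ (Subgroup.inv_mem _ h1) f)
    simpa [mul_assoc] using this
  have hinvc : ∀ f : G, v * (v * f * v⁻¹ * f⁻¹) * v⁻¹ = (v * f * v⁻¹ * f⁻¹)⁻¹ := by
    intro f
    calc v * (v * f * v⁻¹ * f⁻¹) * v⁻¹ = (v * v) * f * (v * v)⁻¹ * (v * f⁻¹ * v⁻¹) := by group
      _ = _ := by rw [hvv]; group
  rcases hmin v hv with h0 | h0
  swap
  · refine hv1' (sidki_eq_one_of_mem_fitting hV hO hv (CL.Loc.centralizer_fstar_le_fitting ?_))
    intro f hf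
    have := sidki_eq_one_of_inverts_of_commute (hodd _ (hcomm f hf)) (hinvc f)
      (Subgroup.mem_centralizer_singleton_iff.mp (h0 (hcomm f hf))).symm
    rw [mul_inv_eq_one, mul_inv_eq_iff_eq_mul] at this
    exact this.symm
  have hinv : ∀ n ∈ N, v * n * v⁻¹ = n⁻¹ := by
    intro n hn
    have h1 := this.conj_mem n hn v
    have h2 : n * (v * n * v⁻¹) ∈ N ⊓ Subgroup.centralizer ({v} : Set G) := by
      refine ⟨N.mul_mem hn h1, conj_eq_iff_mem_centralizer.mp ?_ |>
        fun h => Subgroup.mem_centralizer_singleton_iff.mpr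
          (Subgroup.mem_centralizer_singleton_iff.mp h).symm⟩
      calc v * (n * (v * n * v⁻¹)) * v⁻¹ = v * n * v⁻¹ * ((v * v) * n * (v * v)⁻¹) := by group
        _ = _ := by rw [hvv, hNC (hNF' h1) n hn]; group
    rw [h0, Subgroup.mem_bot] at h2
    exact eq_inv_of_mul_eq_one_right h2
  have hdec : ∀ f ∈ F, ∃ m ∈ N, m * f ∈ F ⊓ Subgroup.centralizer ({v} : Set G) := by
    intro f hf
    obtain ⟨k, hk⟩ := exists_pow_eq_self_of_coprime
      (Nat.coprime_two_left.mpr (hodd _ (hcomm f hf)))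
    have hm := N.pow_mem (hcomm f hf) k
    refine ⟨_, hm, F.mul_mem (hNF' hm) hf, conj_eq_iff_mem_centralizer.mp ?_ |>
        fun h => Subgroup.mem_centralizer_singleton_iff.mpr
          (Subgroup.mem_centralizer_singleton_iff.mp h).symm⟩
    rw [← pow_mul, mul_comm, pow_mul] at hk
    calc v * ((v * f * v⁻¹ * f⁻¹) ^ k * f) * v⁻¹
        = v * (v * f * v⁻¹ * f⁻¹) ^ k * v⁻¹ * (v * f * v⁻¹ * f⁻¹) * f := by group
      _ = _ := by
        rw [hinv _ hm]
        nth_rw 2 [← hk]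
        rw [sq, inv_mul_cancel_left]
  obtain ⟨⟨x, hx⟩, hx1⟩ := Subgroup.ne_bot_iff_exists_ne_one.mp hN.ne_bot
  have hx1' : x ≠ 1 := fun h => hx1 (Subtype.ext h)
  obtain ⟨w, hw, hw1, hwx, hwO⟩ := SidkiSub.exists_centralizer_pair hV hS hsub hv hx1'
    (hodd x hx) (hinv x hx)
  have hD : w ∈ Subgroup.centralizer ((F ⊓ Subgroup.centralizer ({v} : Set G) : Subgroup G) :
      Set G) := by
    refine mem_centralizer_of_mem_pCoreOf hO hwO (fun d hd => ⟨hd.2, ?_⟩)
      ((CL.Grp.SubnIn.of_le_normalizer inf_le_left fun f hf => ?_).isSubnormal_of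
        (Subgroup.Normal.isSubnormal inferInstance)) ?_
    · exact Subgroup.mem_centralizer_singleton_iff.mpr (hNC hd.1 x hx).symm
    · obtain ⟨m, hm, hd⟩ := hdec f hf
      have := Subgroup.mul_mem _ (Subgroup.inv_mem _ (Subgroup.centralizer_le_normalizer
        ((F ⊓ Subgroup.centralizer ({v} : Set G) : Subgroup G) : Set G)
        fun y hy => (hNC hy.1 m hm).symm)) (Subgroup.le_normalizer hd)
      rwa [inv_mul_cancel_left] at this
    · refine Subgroup.inf_normalizer_le_normalizer_inf ⟨Subgroup.le_normalizer_of_normal (K := V) hw,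
        Subgroup.le_normalizer ?_⟩
      exact Subgroup.mem_centralizer_singleton_iff.mpr (CL.Loc.ea_mul_comm hV hw hv)
  have hwN := (hmin w hw).resolve_left fun e => hx1' (Subgroup.mem_bot.mp
    (e ▸ ⟨hx, Subgroup.mem_centralizer_singleton_iff.mpr hwx.symm⟩))
  refine hw1 (sidki_eq_one_of_mem_fitting hV hO hw (CL.Loc.centralizer_fstar_le_fitting ?_))
  intro f hf
  obtain ⟨m, hm, hd⟩ := hdec f hf
  have h1 : Commute (m * f) w := hD _ hd
  have h2 : Commute m w := Subgroup.mem_centralizer_singleton_iff.mp (hwN hm)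
  have := h2.inv_left.mul_left h1
  rwa [inv_mul_cancel_left] at this

include hV in
theorem SidkiSub.exists_simple_eq_layer [Finite G] (hF : fittingSubgroup G = ⊥) :
    ∃ L : Subgroup G, IsSimpleGroup L ∧ ¬ IsMulCommutative L ∧ layer G = L := by
  have htop := SidkiSub.sup_fstar_eq_top hV hV1 hS hO hsub
  rw [CL.Loc.fstar_def, hF, sup_bot_eq] at htop
  obtain ⟨L, -, hL, hs, hnc⟩ := exists_component_le_of_inf_fitting_eq_bot
    (Subgroup.IsSubnormal.top (G := G)) (fun h => hV1 (le_bot_iff.mp (h ▸ le_top)))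
    (by rw [hF, inf_bot_eq])
  refine ⟨L, hs, hnc, ?_⟩
  have hZ : ∀ K : Subgroup G, IsComponent K → ∀ k ∈ K, k ∈ Subgroup.centralizer (K : Set G) →
      k = 1 := fun K hK k h1 h2 =>
    Subgroup.mem_bot.mp (hF ▸ CL.Loc.inf_centralizer_le_fitting hK.1 ⟨h1, h2⟩)
  have hZ' : ∀ K : Subgroup G, IsComponent K → ¬ K ≤ Subgroup.centralizer (K : Set G) :=
    fun K hK h => CL.Loc.IsComponent.ne_bot hK (eq_bot_iff.mpr fun k hk => hZ K hK k hk (h hk))
  have hE : ∀ w ∈ V, w ∈ Subgroup.centralizer (layer G : Set G) → w = 1 := fun w hw h =>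
    sidki_eq_one_of_mem_fitting hV hO hw (CL.Loc.centralizer_fstar_le_fitting
      (by rwa [CL.Loc.fstar_def, hF, sup_bot_eq]))
  set N := Subgroup.normalClosure (L : Set G) with hNdef
  have hLN : L ≤ N := Subgroup.le_normalClosure
  have hEN : layer G ≤ N := by
    rw [CL.Loc.layer_le_iff]
    intro K hK
    by_contra hKN
    have hor : ∀ K : Subgroup G, IsComponent K → K ≤ N ∨ K ≤ Subgroup.centralizer (N : Set G) :=
      fun K hK => (CL.Loc.IsComponent.le_or_commutator_eq_bot hK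
        (Subgroup.Normal.isSubnormal inferInstance)).imp_right
          Subgroup.commutator_eq_bot_iff_le_centralizer.mp
    obtain ⟨w, hw, hw1, h1, h2⟩ := SidkiSub.exists_centralizer_both hV hV1 hS hO hsub
      (N := N) (M := Subgroup.centralizer (N : Set G)) le_rfl
      (fun e => hKN (le_of_sup_eq_top_of_perfect hV e (CL.Loc.IsComponent.commutator_self hK)))
      (fun e => hZ' L hL ((le_of_sup_eq_top_of_perfect hV e
        (CL.Loc.IsComponent.commutator_self hL)).trans (Subgroup.centralizer_le hLN)))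
    refine hw1 (hE w hw ?_)
    refine Subgroup.zpowers_le.mp (Subgroup.le_centralizer_iff.mp (CL.Loc.layer_le_iff.mpr ?_))
    intro K hK
    rw [Subgroup.le_centralizer_iff, Subgroup.zpowers_le]
    rcases hor K hK with h | h
    · exact Subgroup.centralizer_le h h1
    · exact Subgroup.centralizer_le h h2
  have hCL : ∀ w ∈ V, w ∈ Subgroup.centralizer (L : Set G) → w = 1 := by
    intro w hw h
    refine hE w hw (Subgroup.centralizer_le hEN ?_)
    have : N ≤ Subgroup.centralizer ({w} : Set G) := by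
      refine (Subgroup.closure_le _).mpr fun y hy => ?_
      obtain ⟨l, hl, hc⟩ := Group.mem_conjugatesOfSet_iff.mp hy
      obtain ⟨g, rfl⟩ := isConj_iff.mp hc
      obtain ⟨v, hv, e, he, rfl⟩ := (CL.Grp.mem_sup_of_le_normalizer
        (Subgroup.le_normalizer_of_normal (K := V) (H := layer G))).mp (htop ▸ Subgroup.mem_top g)
      have h1 : Commute (e * l * e⁻¹) w := h _ ((Subgroup.mem_normalizer_iff.mp
        (CL.Loc.IsComponent.layer_le_normalizer hL he) l).mp hl)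
      have h2 : Commute v w := CL.Loc.ea_commute hV hv hw
      have := (h2.mul_left h1).mul_left h2.inv_left
      refine Subgroup.mem_centralizer_singleton_iff.mpr ?_
      rw [show v * e * l * (v * e)⁻¹ = v * (e * l * e⁻¹) * v⁻¹ by group]
      exact this
    exact fun y hy => Subgroup.mem_centralizer_singleton_iff.mp (this hy)
  have hcomm : ∀ g : G, g ∉ Subgroup.normalizer (L : Set G) → ∀ a ∈ L, ∀ b ∈ L,
      Commute a (g * b * g⁻¹) := fun g hg a ha b hb =>
    CL.Loc.commute_of_commutator_eq_bot (CL.Loc.IsComponent.commutator_eq_bot_of_ne hL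
      (CL.Loc.IsComponent.smul hL (MulAut.conj g))
      fun e => hg ((CL.Grp.conj_smul_eq_self_iff g L).mp e.symm)) ha
      (CL.Grp.conj_mem_conj_smul g hb)
  by_contra hne
  have hnn : Subgroup.normalizer (L : Set G) ≠ ⊤ := by
    intro e
    have := Subgroup.normalizer_eq_top_iff.mp e
    exact hne (le_antisymm (hEN.trans (Subgroup.normalClosure_le_normal le_rfl))
      (CL.Loc.IsComponent.le_layer hL))
  by_cases hA : V ⊓ Subgroup.normalizer (L : Set G) = ⊥
  · obtain ⟨⟨v, hv⟩, hv1⟩ := Subgroup.ne_bot_iff_exists_ne_one.mp hV1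
    have hnot : ∀ w ∈ V, w ≠ 1 → w ∉ Subgroup.normalizer (L : Set G) := fun w hw h1 h2 =>
      h1 (Subgroup.mem_bot.mp (hA ▸ ⟨hw, h2⟩))
    have hv1' : v ≠ 1 := fun h => hv1 (Subtype.ext h)
    obtain ⟨l, hl, hl1, hlo⟩ : ∃ l ∈ L, l ≠ 1 ∧ Odd (orderOf l) := by
      by_contra hcon
      have hp : IsPGroup 2 L := fun y => by
        by_contra h
        obtain ⟨m, h1, h2⟩ := CL.Inv.exists_odd_pow_of_not_two_elt h
        exact hcon ⟨_, (y ^ m).2, fun e => h1 (Subtype.ext e), by rwa [Subgroup.orderOf_coe]⟩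
      have := CL.Grp.le_pCore_of_isSubnormal hL.1 hp
      rw [hO, le_bot_iff] at this
      exact CL.Loc.IsComponent.ne_bot hL this
    have hc := hcomm v (hnot v hv hv1') l hl l⁻¹ (L.inv_mem hl)
    have ho : Odd (orderOf (l * (v * l⁻¹ * v⁻¹))) :=
      sidki_odd_mul hlo (by rwa [CL.Inv.orderOf_conj, orderOf_inv]) hc
    have hinv : v * (l * (v * l⁻¹ * v⁻¹)) * v⁻¹ = (l * (v * l⁻¹ * v⁻¹))⁻¹ := by
      calc _ = v * l * v⁻¹ * ((v * v) * l⁻¹ * (v * v)⁻¹) := by group
        _ = _ := by rw [sidki_mul_self hV hv]; group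
    obtain ⟨w, hw, hw1, hwc⟩ := hS _ v hv ho hinv
    refine hl1 (hZ L hL l hl fun a ha => ?_)
    have h1 := hcomm v (hnot v hv hv1') a ha l⁻¹ (L.inv_mem hl)
    by_cases hwv : w = v
    · have := sidki_eq_one_of_inverts_of_commute ho hinv (hwv ▸ hwc)
      have h2 := h1.inv_right
      rwa [← eq_inv_of_mul_eq_one_left this] at h2
    · have h2 := hcomm w (hnot w hw hw1) a ha l hl
      have h3 := hcomm (w * v) (hnot _ (V.mul_mem hw hv) fun e => hwv (by
        rw [eq_inv_of_mul_eq_one_left e, CL.Inv.inv_eq_self_of_mul_self (sidki_mul_self hV hv)]))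
        a ha l⁻¹ (L.inv_mem hl)
      have h4 : l = w * l * w⁻¹ * (w * v * l⁻¹ * (w * v)⁻¹) * (v * l⁻¹ * v⁻¹)⁻¹ := by
        calc l = (l * (v * l⁻¹ * v⁻¹) * w) * w⁻¹ * (v * l⁻¹ * v⁻¹)⁻¹ := by group
          _ = _ := by rw [← hwc]; group
      rw [h4]
      exact (h2.mul_right h3).mul_right h1.inv_right
  · obtain ⟨w, hw, hw1, h1⟩ := hsub (L ⊔ V ⊓ Subgroup.normalizer (L : Set G)) _
      (fun e => hnn (eq_top_iff.mpr (e.ge.trans (sup_le Subgroup.le_normalizer inf_le_right))))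
      inf_le_left le_sup_right hA (fun x hx v hv ho e => by
        by_cases hx1 : x = 1
        · obtain ⟨⟨w, hw⟩, hw1⟩ := Subgroup.ne_bot_iff_exists_ne_one.mp hA
          exact ⟨w, hw, fun h => hw1 (Subtype.ext h), by rw [hx1, one_mul, mul_one]⟩
        have hxL := sidki_mem_of_odd hV inf_le_left inf_le_right hx ho
        obtain ⟨w, hw, hw1, hc⟩ := hS x v hv.1 ho e
        refine ⟨w, ⟨hw, ?_⟩, hw1, hc⟩
        by_contra hn
        refine hx1 (hZ L hL x hxL fun a ha => ?_)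
        have := hcomm w hn a ha x hxL
        rwa [hc, mul_inv_cancel_right] at this)
    exact hw1 (hCL w hw.1 (mem_centralizer_of_mem_pCoreOf hO h1 le_sup_left hL.1 hw.2))

end

end CL.Even
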